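import Cfsg.Agent.Star.AWDef
import Cfsg.Agent.H43.AWP1
import Cfsg.Agent.H9.AW2

/-! # S4415, piece 4: in case beta the dimension is 4 -/

namespace Cfsg.Agent.H98.AW4

open Cfsg.Agent.Star.AW

universe u v

section linalg

set_option linter.unusedSectionVars false

variable {G : Type u} [Group G] {W : Type v} [AddCommGroup W] [Module (ZMod 3) W]
  [Finite W] {σ : Representation (ZMod 3) G W}

theorem apply_inv_self (g : G) (w : W) : σ g⁻¹ (σ g w) = w := by
  rw [← Module.End.mul_apply, ← map_mul, inv_mul_cancel, map_one, Module.End.one_apply]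

theorem apply_self_inv (g : G) (w : W) : σ g (σ g⁻¹ w) = w := by
  rw [← Module.End.mul_apply, ← map_mul, mul_inv_cancel, map_one, Module.End.one_apply]

/-- rank of `σ (g h) - 1` -/
theorem rank_mul_le (g h : G) :
    Module.finrank (ZMod 3) (LinearMap.range (σ (g * h) - 1)) ≤
      Module.finrank (ZMod 3) (LinearMap.range (σ g - 1)) +
      Module.finrank (ZMod 3) (LinearMap.range (σ h - 1)) := by
  have hle : LinearMap.range (σ (g * h) - 1) ≤
      LinearMap.range (σ g - 1) ⊔ (LinearMap.range (σ h - 1)).map (σ g) := by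
    rintro _ ⟨w, rfl⟩
    have e : (σ (g * h) - 1) w = (σ g - 1) w + σ g ((σ h - 1) w) := by
      rw [map_mul]
      simp only [LinearMap.sub_apply, Module.End.mul_apply, Module.End.one_apply, map_sub]
      abel
    rw [e]
    exact Submodule.add_mem_sup ⟨w, rfl⟩ ⟨_, ⟨w, rfl⟩, rfl⟩
  refine (Submodule.finrank_mono hle).trans ?_
  refine (Submodule.finrank_add_le_finrank_add_finrank _ _).trans ?_
  gcongr
  exact Submodule.finrank_map_le _ _

theorem rank_inv_le (g : G) :
    Module.finrank (ZMod 3) (LinearMap.range (σ g⁻¹ - 1)) ≤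
      Module.finrank (ZMod 3) (LinearMap.range (σ g - 1)) := by
  have hle : LinearMap.range (σ g⁻¹ - 1) ≤ (LinearMap.range (σ g - 1)).map (σ g⁻¹) := by
    rintro _ ⟨w, rfl⟩
    refine ⟨(σ g - 1) (-w), ⟨_, rfl⟩, ?_⟩
    simp only [LinearMap.sub_apply, Module.End.one_apply, map_sub, map_neg, apply_inv_self]
    abel
  exact (Submodule.finrank_mono hle).trans (Submodule.finrank_map_le _ _)

theorem rank_conj_le (g h : G) :
    Module.finrank (ZMod 3) (LinearMap.range (σ (h * g * h⁻¹) - 1)) ≤
      Module.finrank (ZMod 3) (LinearMap.range (σ g - 1)) := by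
  have hle : LinearMap.range (σ (h * g * h⁻¹) - 1) ≤ (LinearMap.range (σ g - 1)).map (σ h) := by
    rintro _ ⟨w, rfl⟩
    refine ⟨(σ g - 1) (σ h⁻¹ w), ⟨_, rfl⟩, ?_⟩
    simp only [LinearMap.sub_apply, Module.End.one_apply, map_sub, map_mul, Module.End.mul_apply,
      apply_self_inv]
  exact (Submodule.finrank_mono hle).trans (Submodule.finrank_map_le _ _)

theorem rank_conj (g h : G) :
    Module.finrank (ZMod 3) (LinearMap.range (σ (h * g * h⁻¹) - 1)) =
      Module.finrank (ZMod 3) (LinearMap.range (σ g - 1)) := by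
  refine le_antisymm (rank_conj_le g h) ?_
  have := rank_conj_le (σ := σ) (h * g * h⁻¹) h⁻¹
  have e : h⁻¹ * (h * g * h⁻¹) * h⁻¹⁻¹ = g := by group
  rwa [e] at this

theorem three_eq_zero (w : W) : w + w + w = 0 := by
  have h3 : (3 : ZMod 3) = 0 := rfl
  have : (3 : ZMod 3) • w = w + w + w := by
    have : (3 : ZMod 3) = 1 + 1 + 1 := by norm_num
    rw [this, add_smul, add_smul, one_smul]
  rw [← this, h3, zero_smul]

/-- the quaternion case -/
theorem dim_four_of_sq_neg {t : G} (ht : σ (t * t) = -1)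
    (hr : Module.finrank (ZMod 3) (LinearMap.range (σ t - 1)) ≤ 4)
    (h3 : 3 ≤ Module.finrank (ZMod 3) W) : Module.finrank (ZMod 3) W = 4 := by
  have htop : LinearMap.range (σ t - 1) = ⊤ := by
    rw [LinearMap.range_eq_top]
    intro w
    refine ⟨σ t w + w, ?_⟩
    have e : σ t (σ t w) = -w := by
      rw [← Module.End.mul_apply, ← map_mul, ht]; rfl
    have h := three_eq_zero w
    simp only [LinearMap.sub_apply, Module.End.one_apply, map_add, e]
    have : -w - σ t w + (σ t w - w) = w - (w + w + w) := by abel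
    rw [this, h, sub_zero]
  rw [htop, finrank_top] at hr
  rcases Nat.lt_or_ge (Module.finrank (ZMod 3) W) 4 with h | h
  · exfalso
    have hd : Module.finrank (ZMod 3) W = 3 := by omega
    have hdet : (LinearMap.det (σ t)) * (LinearMap.det (σ t)) = -1 := by
      rw [← map_mul, ← map_mul, ht]
      have : (-1 : Module.End (ZMod 3) W) = (-1 : ZMod 3) • (LinearMap.id) := by
        ext w; simp
      rw [this, LinearMap.det_smul, hd, LinearMap.det_id]
      decide
    revert hdet
    generalize LinearMap.det (σ t) = d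
    revert d
    decide
  · omega

/-- the involution case -/
theorem dim_four_of_invol {t : G} (ht : t * t = 1) {t' : G} (ht' : σ t' = - σ t)
    (h1 : Module.finrank (ZMod 3) (LinearMap.range (σ t - 1)) = 2)
    (h2 : Module.finrank (ZMod 3) (LinearMap.range (σ t' - 1)) = 2) :
    Module.finrank (ZMod 3) W = 4 := by
  have hsq : ∀ w, σ t (σ t w) = w := by
    intro w
    rw [← Module.End.mul_apply, ← map_mul, ht, map_one]; rfl
  have hsup : LinearMap.range (σ t - 1) ⊔ LinearMap.range (σ t' - 1) = ⊤ := by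
    rw [eq_top_iff]
    intro w _
    have e : w = (σ t - 1) w + (σ t' - 1) w + (w + w + w) := by
      simp only [LinearMap.sub_apply, Module.End.one_apply, ht', LinearMap.neg_apply]
      abel
    rw [e, three_eq_zero, add_zero]
    exact Submodule.add_mem_sup ⟨w, rfl⟩ ⟨w, rfl⟩
  have hinf : LinearMap.range (σ t - 1) ⊓ LinearMap.range (σ t' - 1) = ⊥ := by
    rw [eq_bot_iff]
    rintro _ ⟨⟨w, rfl⟩, ⟨w', hw'⟩⟩
    rw [Submodule.mem_bot]
    obtain ⟨q, hq⟩ : ∃ q, q = (σ t - 1) w := ⟨_, rfl⟩
    have a1 : σ t q = -q := by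
      rw [hq]
      simp only [LinearMap.sub_apply, Module.End.one_apply, map_sub, hsq]
      abel
    have a2 : σ t q = q := by
      have : q = (σ t' - 1) w' := by rw [hw', hq]
      rw [this]
      simp only [LinearMap.sub_apply, Module.End.one_apply, map_sub, ht', LinearMap.neg_apply,
        map_neg, hsq]
      abel
    rw [← hq]
    have h3 := three_eq_zero q
    have : q = q + q + q - (q + q) := by abel
    have h2' : q + q = 0 := by
      have := a1.symm.trans a2
      rw [neg_eq_iff_add_eq_zero] at this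
      exact this
    rw [this, h3, h2', sub_zero]
  have := Submodule.finrank_sup_add_finrank_inf_eq (LinearMap.range (σ t - 1))
    (LinearMap.range (σ t' - 1))
  rw [hsup, hinf, finrank_top, finrank_bot, h1, h2] at this
  omega

end linalg


section group

set_option linter.unusedSectionVars false

variable {G : Type u} [Group G] [Finite G]

/-- minimal noncentral normal subgroup -/
theorem exists_min (N : Subgroup G) [hN : N.Normal] (hnc : ¬ N ≤ Subgroup.center G) :
    ∃ M : Subgroup G, M.Normal ∧ M ≤ N ∧ ¬ M ≤ Subgroup.center G ∧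
      ∀ K : Subgroup G, K.Normal → K ≤ M → K ≠ M → K ≤ Subgroup.center G := by
  classical
  obtain ⟨M, hM, hmin⟩ := Set.exists_min_image
    {M : Subgroup G | M.Normal ∧ M ≤ N ∧ ¬ M ≤ Subgroup.center G} (fun M => Nat.card M)
    (Set.toFinite _) ⟨N, hN, le_rfl, hnc⟩
  refine ⟨M, hM.1, hM.2.1, hM.2.2, fun K hK hKM hne => ?_⟩
  by_contra hc
  have := hmin K ⟨hK, hKM.trans hM.2.1, hc⟩
  exact hne (Subgroup.eq_of_le_of_card_ge hKM this)

theorem nilpotent_of_min {M : Subgroup G} [M.Normal] (hsol : Group.IsSolvable G)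
    (hnc : ¬ M ≤ Subgroup.center G)
    (hmin : ∀ K : Subgroup G, K.Normal → K ≤ M → K ≠ M → K ≤ Subgroup.center G) :
    Group.IsNilpotent M := by
  have hnt : Nontrivial M := by
    rw [Subgroup.nontrivial_iff_ne_bot]
    rintro rfl
    exact hnc bot_le
  have hs : Group.IsSolvable M := inferInstance
  have hlt := Group.IsSolvable.commutator_lt_top_of_nontrivial (G := M)
  have hK : ((commutator M).map M.subtype).Normal := inferInstance
  have hKc : (commutator M).map M.subtype ≤ Subgroup.center G := by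
    refine hmin _ hK (Subgroup.map_subtype_le _) ?_
    intro he
    apply hlt.ne
    rw [eq_top_iff]
    intro u _
    have : (u : G) ∈ (commutator M).map M.subtype := by rw [he]; exact u.2
    obtain ⟨v, hv, hvu⟩ := this
    have : v = u := Subtype.ext hvu
    rwa [← this]
  refine Subgroup.isNilpotent_of_ker_le_center (Abelianization.of (G := M)) ?_
  rw [Abelianization.ker_of]
  intro u hu
  rw [Subgroup.mem_center_iff]
  intro g
  have := hKc ⟨u, hu, rfl⟩
  rw [Subgroup.mem_center_iff] at this
  exact Subtype.ext (this g)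

theorem two_of_min {M : Subgroup G} [M.Normal] (hsol : Group.IsSolvable G)
    (hnc : ¬ M ≤ Subgroup.center G)
    (hmin : ∀ K : Subgroup G, K.Normal → K ≤ M → K ≠ M → K ≤ Subgroup.center G)
    (hcen : ∀ z ∈ Subgroup.center G, z * z = 1)
    (h3 : (Nat.card M).Coprime 3)
    (hodd : ∀ p : ℕ, p.Prime → 5 ≤ p → IsPGroup p M → M = ⊥) : IsPGroup 2 M := by
  have hnil := nilpotent_of_min hsol hnc hmin
  have key : ∀ p : ℕ, p.Prime → p ∣ Nat.card M → p = 2 := by
    intro p hp hpd
    by_contra hp2
    have : Fact p.Prime := ⟨hp⟩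
    obtain ⟨P⟩ : Nonempty (Sylow p M) := inferInstance
    have hPn : (P : Subgroup M).Normal := inferInstance
    have hPc : (P : Subgroup M).Characteristic := P.characteristic_of_normal hPn
    have hK : ((P : Subgroup M).map M.subtype).Normal := inferInstance
    have hKM : (P : Subgroup M).map M.subtype ≤ M := Subgroup.map_subtype_le _
    have hKp : IsPGroup p ((P : Subgroup M).map M.subtype) := P.2.map _
    by_cases he : (P : Subgroup M).map M.subtype = M
    · rw [he] at hKp
      rcases Nat.lt_or_ge p 5 with h | h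
      · have hp3 : p = 3 := by
          have := hp.two_le
          interval_cases p
          · exact absurd rfl hp2
          · rfl
          · exact absurd hp (by decide)
        subst hp3
        have := Nat.dvd_gcd hpd (dvd_refl 3)
        rw [h3] at this
        exact absurd this (by decide)
      · exact hnc (by rw [hodd p hp h hKp]; exact bot_le)
    · have hc := hmin _ hK hKM he
      -- P is trivial
      have hPt : ∀ u ∈ (P : Subgroup M), u = 1 := by
        intro u hu
        have h1 : (u : G) * u = 1 := hcen _ (hc ⟨u, hu, rfl⟩)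
        have h2 : orderOf u ∣ 2 := by
          apply orderOf_dvd_of_pow_eq_one
          rw [pow_two]
          exact Subtype.ext h1
        obtain ⟨k, hk⟩ := IsPGroup.iff_orderOf.mp P.2 ⟨u, hu⟩
        have hk' : orderOf u = p ^ k := by
          rw [← hk]
          exact (Subgroup.orderOf_mk u hu).symm
        rw [hk'] at h2
        have hk0 : k = 0 := by
          by_contra hk0
          have := (dvd_pow_self p hk0).trans h2
          rcases (Nat.dvd_prime Nat.prime_two).mp this with h | h
          · exact hp.one_lt.ne' h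
          · exact hp2 h
        rw [hk0, pow_zero] at hk'
        exact orderOf_eq_one_iff.mp hk'
      have hcard : Nat.card (P : Subgroup M) = 1 := by
        rw [Subgroup.card_eq_one]
        rw [eq_bot_iff]
        intro u hu
        rw [Subgroup.mem_bot]
        exact hPt u hu
      have := P.dvd_card_of_dvd_card hpd
      rw [hcard] at this
      exact hp.one_lt.ne' (Nat.dvd_one.mp this)
  have hcard : Nat.card M = 2 ^ (Nat.card M).primeFactorsList.length :=
    Nat.eq_prime_pow_of_unique_prime_dvd Nat.card_pos.ne' (fun {d} hd hdd => key d hd hdd)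
  exact IsPGroup.of_card hcard

theorem sq_central {M : Subgroup G} [M.Normal] (h2 : IsPGroup 2 M)
    (hnc : ¬ M ≤ Subgroup.center G)
    (hmin : ∀ K : Subgroup G, K.Normal → K ≤ M → K ≠ M → K ≤ Subgroup.center G) :
    ∀ u ∈ M, u * u ∈ Subgroup.center G := by
  obtain ⟨K, hKd⟩ : ∃ K : Subgroup M, K = Subgroup.closure (Set.range fun u : M => u * u) :=
    ⟨_, rfl⟩
  have hKc : K.Characteristic := by
    rw [Subgroup.characteristic_iff_map_le]
    intro φ
    rw [hKd, MonoidHom.map_closure, Subgroup.closure_le]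
    rintro _ ⟨_, ⟨u, rfl⟩, rfl⟩
    apply Subgroup.subset_closure
    refine ⟨φ u, ?_⟩
    simp
  have hKn : (K.map M.subtype).Normal := inferInstance
  have hKM : K.map M.subtype ≤ M := Subgroup.map_subtype_le _
  have hne : K.map M.subtype ≠ M := by
    intro he
    obtain ⟨n, hn⟩ := IsPGroup.iff_card.mp h2
    have : Fact (Nat.Prime 2) := ⟨Nat.prime_two⟩
    have hn0 : n ≠ 0 := by
      rintro rfl
      rw [pow_zero, Subgroup.card_eq_one] at hn
      exact hnc (by rw [hn]; exact bot_le)
    obtain ⟨m, rfl⟩ := Nat.exists_eq_succ_of_ne_zero hn0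
    obtain ⟨H, hH⟩ := Sylow.exists_subgroup_card_pow_prime (G := M) 2 (n := m)
      (by rw [hn]; exact pow_dvd_pow 2 (Nat.le_succ m))
    have hi : H.index = 2 := by
      have := H.card_mul_index
      rw [hH, hn, pow_succ] at this
      exact Nat.eq_of_mul_eq_mul_left (by positivity) this
    have hKH : K ≤ H := by
      rw [hKd, Subgroup.closure_le]
      rintro _ ⟨u, rfl⟩
      exact Subgroup.mul_self_mem_of_index_two hi u
    have hHt : H = ⊤ := by
      rw [eq_top_iff]
      intro u _
      have : (u : G) ∈ K.map M.subtype := by rw [he]; exact u.2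
      obtain ⟨v, hv, hvu⟩ := this
      have : v = u := Subtype.ext hvu
      rw [← this]
      exact hKH hv
    rw [hHt, Subgroup.index_top] at hi
    exact absurd hi (by decide)
  have hc := hmin _ hKn hKM hne
  intro u hu
  apply hc
  refine ⟨⟨u, hu⟩ * ⟨u, hu⟩, ?_, rfl⟩
  rw [hKd]
  exact Subgroup.subset_closure ⟨⟨u, hu⟩, rfl⟩

end group

/-- Piece 4 of S4415, relative to the other pieces. -/
theorem beta_dim_of {G : Type u} [Group G] [Finite G] {W : Type v} [AddCommGroup W]
    [Module (ZMod 3) W] [Finite W] {σ : Representation (ZMod 3) G W} {N : Subgroup G}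
    {b x y : G} (D : Dat σ N b x y)
    (hβ : ∀ A : Subgroup G, A.Normal → A ≤ N → (∀ a ∈ A, a * a = 1) → A ≤ Subgroup.center G)
    (h3 : 3 ≤ Module.finrank (ZMod 3) W)
    (hrank : ∀ x' y' : G, QB σ b x' y' →
      Module.finrank (ZMod 3) (LinearMap.range (σ x' - 1)) = 2)
    (hcen : ∀ z : G, (∀ g, z * g = g * z) → σ z = 1 ∨ σ z = -1)
    (hodd : ∀ (p : ℕ), p.Prime → 5 ≤ p → ∀ L : Subgroup G, L.Normal → L ≤ N → IsPGroup p L →
      L = ⊥) :
    Module.finrank (ZMod 3) W = 4 := by
  have := D.normal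
  have hcen' : ∀ z ∈ Subgroup.center G, σ z = 1 ∨ σ z = -1 := by
    intro z hz
    exact hcen z (fun g => ((Subgroup.mem_center_iff.mp hz) g).symm)
  have hcen1 : ∀ z ∈ Subgroup.center G, z ≠ 1 → σ z = -1 := by
    intro z hz hz1
    rcases hcen' z hz with h | h
    · exact absurd (D.faith (h.trans (map_one σ).symm)) hz1
    · exact h
  have hcen2 : ∀ z ∈ Subgroup.center G, z * z = 1 := by
    intro z hz
    apply D.faith
    rw [map_mul, map_one]
    rcases hcen' z hz with h | h
    · rw [h, one_mul]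
    · rw [h]; simp
  have hNnc : ¬ N ≤ Subgroup.center G := by
    intro hc
    have h1 := Subgroup.mem_center_iff.mp (hc D.xN) b
    have hy : y = x := by
      rw [← D.bx, h1]; group
    have h2 := D.bby
    rw [hy, D.x2] at h2
    have h3 : x = 1 := by
      have : x = b⁻¹ * (b * x * b⁻¹) * b := by group
      rw [this, h2]; group
    exact D.x1 h3
  obtain ⟨M, hMn, hMN, hMnc, hmin⟩ := exists_min N hNnc
  have h2 : IsPGroup 2 M := by
    refine two_of_min D.sol hMnc hmin hcen2 ?_ ?_
    · exact Nat.Coprime.coprime_dvd_left (Subgroup.card_dvd_of_le hMN) D.cop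
    · intro p hp h5 hMp
      exact hodd p hp h5 M hMn hMN hMp
  have hsq := sq_central h2 hMnc hmin
  -- b does not centralise M
  have hbM : ¬ ∀ s ∈ M, b * s * b⁻¹ = s := by
    intro hb
    have hbC : Subgroup.zpowers b ≤ Subgroup.centralizer (M : Set G) := by
      rw [Subgroup.zpowers_le, Subgroup.mem_centralizer_iff]
      intro s hs
      have := hb s hs
      rw [mul_inv_eq_iff_eq_mul] at this
      exact this.symm
    have hCn : (Subgroup.centralizer (M : Set G)).Normal := inferInstance
    have hNC : N ≤ Subgroup.centralizer (M : Set G) := by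
      calc N = ⁅N, Subgroup.zpowers b⁆ := D.comm.symm
        _ ≤ ⁅N, Subgroup.centralizer (M : Set G)⁆ := Subgroup.commutator_mono le_rfl hbC
        _ ≤ Subgroup.centralizer (M : Set G) := Subgroup.commutator_le_right _ _
    have htop : Subgroup.centralizer (M : Set G) = ⊤ := by
      rw [eq_top_iff, ← D.gen]
      exact sup_le hNC hbC
    apply hMnc
    intro s hs
    rw [Subgroup.mem_center_iff]
    intro g
    have : g ∈ Subgroup.centralizer (M : Set G) := by rw [htop]; trivial
    exact ((Subgroup.mem_centralizer_iff.mp this) s hs).symm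
  have hb3 := D.b3
  obtain ⟨s, hs, hsc⟩ : ∃ s ∈ M, s⁻¹ * (b * s * b⁻¹) ∉ Subgroup.center G := by
    by_contra hcon
    push Not at hcon
    apply hbM
    intro s hs
    obtain ⟨t, ht⟩ : ∃ t, t = s⁻¹ * (b * s * b⁻¹) := ⟨_, rfl⟩
    have htc := hcon s hs
    rw [← ht] at htc
    have htt := hcen2 t htc
    have e1 : b * s * b⁻¹ = s * t := by rw [ht]; group
    have e2 : b * t * b⁻¹ = t := by
      rw [Subgroup.mem_center_iff.mp htc b]; group
    have e3 : b * (b * s * b⁻¹) * b⁻¹ = s := by
      calc b * (b * s * b⁻¹) * b⁻¹ = b * (s * t) * b⁻¹ := by rw [e1]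
        _ = (b * s * b⁻¹) * (b * t * b⁻¹) := by group
        _ = s * t * t := by rw [e1, e2]
        _ = s := by rw [mul_assoc, htt, mul_one]
    have e4 : b * s * b⁻¹ = b * (b * (b * s * b⁻¹) * b⁻¹) * b⁻¹ := by rw [e3]
    rw [e4]
    have e5 : b * (b * (b * s * b⁻¹) * b⁻¹) * b⁻¹ = b ^ 3 * s * (b ^ 3)⁻¹ := by
      rw [pow_succ, pow_two]; group
    rw [e5, hb3]; simp
  obtain ⟨t, ht⟩ : ∃ t, t = s⁻¹ * (b * s * b⁻¹) := ⟨_, rfl⟩
  rw [← ht] at hsc
  have htM : t ∈ M := by
    rw [ht]
    exact M.mul_mem (M.inv_mem hs) (hMn.conj_mem s hs b)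
  have hrt : Module.finrank (ZMod 3) (LinearMap.range (σ t - 1)) ≤ 4 := by
    have e : t = (s⁻¹ * b * s⁻¹⁻¹) * b⁻¹ := by rw [ht]; group
    rw [e]
    have h1 := rank_mul_le (σ := σ) (s⁻¹ * b * s⁻¹⁻¹) b⁻¹
    have h2 := rank_conj (σ := σ) b s⁻¹
    have h3 := rank_inv_le (σ := σ) b
    have h4 := D.rk
    omega
  have htsq := hsq t htM
  by_cases htt : t * t = 1
  swap
  · exact dim_four_of_sq_neg (hcen1 _ htsq htt) hrt h3
  -- the involution case
  have hv : ∃ v ∈ M, v * t ≠ t * v := by
    by_contra hcon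
    push Not at hcon
    apply hsc
    have htZ : t ∈ M ⊓ Subgroup.centralizer (M : Set G) := by
      refine Subgroup.mem_inf.mpr ⟨htM, ?_⟩
      rw [Subgroup.mem_centralizer_iff]
      exact hcon
    have hCn : (Subgroup.centralizer (M : Set G)).Normal := inferInstance
    by_cases he : M ⊓ Subgroup.centralizer (M : Set G) = M
    · have hab : ∀ u ∈ M, ∀ v ∈ M, u * v = v * u := by
        intro u hu v hv
        have : v ∈ M ⊓ Subgroup.centralizer (M : Set G) := by rw [he]; exact hv
        exact (Subgroup.mem_centralizer_iff.mp this.2) u hu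
      let A : Subgroup G :=
        { carrier := {a | a ∈ M ∧ a * a = 1}
          one_mem' := ⟨M.one_mem, one_mul 1⟩
          mul_mem' := by
            rintro u v ⟨hu, hu2⟩ ⟨hv, hv2⟩
            refine ⟨M.mul_mem hu hv, ?_⟩
            calc u * v * (u * v) = u * (v * u) * v := by group
              _ = u * (u * v) * v := by rw [hab u hu v hv]
              _ = (u * u) * (v * v) := by group
              _ = 1 := by rw [hu2, hv2, one_mul]
          inv_mem' := by
            rintro u ⟨hu, hu2⟩
            refine ⟨M.inv_mem hu, ?_⟩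
            rw [← mul_inv_rev, hu2, inv_one] }
      have hA : A.Normal := by
        refine ⟨?_⟩
        rintro a ⟨ha, ha2⟩ g
        refine ⟨hMn.conj_mem a ha g, ?_⟩
        calc g * a * g⁻¹ * (g * a * g⁻¹) = g * (a * a) * g⁻¹ := by group
          _ = 1 := by rw [ha2]; group
      exact hβ A hA (fun a ha => hMN ha.1) (fun a ha => ha.2) ⟨htM, htt⟩
    · exact hmin _ inferInstance inf_le_left he htZ
  obtain ⟨v, hvM, hvt⟩ := hv
  obtain ⟨c, hc⟩ : ∃ c, c = v * t * v⁻¹ * t⁻¹ := ⟨_, rfl⟩
  have hvv := hsq v hvM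
  have hvt2 := hsq (v * t) (M.mul_mem hvM htM)
  have hti : t⁻¹ = t := inv_eq_of_mul_eq_one_left htt
  have hcc : c ∈ Subgroup.center G := by
    have e : c = (v * t * (v * t)) * (v * v)⁻¹ := by
      have h1 : t * (v * v)⁻¹ = (v * v)⁻¹ * t := by
        have := Subgroup.mem_center_iff.mp ((Subgroup.center G).inv_mem hvv) t
        exact this
      calc c = v * t * v⁻¹ * t⁻¹ := hc
        _ = v * t * v * ((v * v)⁻¹ * t) := by rw [hti]; group
        _ = v * t * v * (t * (v * v)⁻¹) := by rw [h1]
        _ = (v * t * (v * t)) * (v * v)⁻¹ := by group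
    rw [e]
    exact (Subgroup.center G).mul_mem hvt2 ((Subgroup.center G).inv_mem hvv)
  have hc1 : c ≠ 1 := by
    intro h
    apply hvt
    rw [hc] at h
    have := mul_inv_eq_one.mp h
    exact mul_inv_eq_iff_eq_mul.mp this
  have hsc' := hcen1 c hcc hc1
  have hconj : σ (v * t * v⁻¹) = - σ t := by
    have e : v * t * v⁻¹ = c * t := by rw [hc]; group
    rw [e, map_mul, hsc', neg_one_mul]
  have hQB : QB σ b t (b * t * b⁻¹) := by
    have hprod : t * (b * t * b⁻¹) * (b * (b * t * b⁻¹) * b⁻¹) = 1 := by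
      have : t * (b * t * b⁻¹) * (b * (b * t * b⁻¹) * b⁻¹) = s⁻¹ * b ^ 3 * s * (b ^ 3)⁻¹ := by
        rw [ht, pow_succ, pow_two]; group
      rw [this, hb3]; group
    have h1 : (b * (b * t * b⁻¹) * b⁻¹) * (b * (b * t * b⁻¹) * b⁻¹) = 1 := by
      calc (b * (b * t * b⁻¹) * b⁻¹) * (b * (b * t * b⁻¹) * b⁻¹) = b * b * (t * t) * b⁻¹ * b⁻¹ := by
            group
        _ = 1 := by rw [htt]; group
    have h2 : (b * t * b⁻¹) * (b * t * b⁻¹) = 1 := by
      calc (b * t * b⁻¹) * (b * t * b⁻¹) = b * (t * t) * b⁻¹ := by group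
        _ = 1 := by rw [htt]; group
    have h3 : b * (b * t * b⁻¹) * b⁻¹ = t * (b * t * b⁻¹) := by
      have e1 := eq_inv_of_mul_eq_one_left hprod
      have e2 := eq_inv_of_mul_eq_one_left h1
      rw [e1]; exact e2
    refine ⟨D.faith, hb3, D.rk, ?_, htt, ?_, rfl, h3⟩
    · rintro rfl
      exact hsc (Subgroup.one_mem _)
    · rw [h3] at h1
      obtain ⟨q, hq⟩ : ∃ q, q = b * t * b⁻¹ := ⟨_, rfl⟩
      rw [← hq] at h1 h2 ⊢
      calc t * q = (t * q)⁻¹ := eq_inv_of_mul_eq_one_left h1
        _ = q⁻¹ * t⁻¹ := mul_inv_rev _ _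
        _ = q * t := by rw [hti, inv_eq_of_mul_eq_one_left h2]
  refine dim_four_of_invol htt hconj (hrank _ _ hQB) ?_
  rw [rank_conj]
  exact hrank _ _ hQB

/-- Piece 4 of S4415. -/
theorem beta_dim {G : Type u} [Group G] [Finite G] {W : Type v} [AddCommGroup W]
    [Module (ZMod 3) W] [Finite W] {σ : Representation (ZMod 3) G W} {N : Subgroup G}
    {b x y : G} (D : Dat σ N b x y) (hβ : ∀ A : Subgroup G, A.Normal → A ≤ N →
    (∀ a ∈ A, a * a = 1) → A ≤ Subgroup.center G) :
    Module.finrank (ZMod 3) W = 4 := by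
  refine beta_dim_of D hβ ?_ (fun x' y' h => H43.AWP1.rank_x h)
    (fun z hz => H43.AWP1.central D.toQB D.irr hz) ?_
  · have := H43.AWP1.fix_dim D.toQB
    omega
  · intro p hp h5 L hL hLN hLp
    have := hL
    exact H9.AW.no_odd_aux (fun _ _ h => H43.AWP1.weights h) (fun _ _ h => H43.AWP1.rank_x h)
      (fun _ _ h _ hx hy => H43.AWP1.comm_cent h hx hy)
      (fun _ _ h irr _ hz => H43.AWP1.central h irr hz) D hp h5 L hLN hLp

end Cfsg.Agent.H98.AW4
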