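import Mathlib

set_option autoImplicit false
set_option linter.unusedSectionVars false
set_option linter.style.haveILetI false

/-!
Extension fields `K/F` of prime degree: a density lemma, norm-one elements, and two facts about maximal
`p`-subgroups.
-/

namespace Cfsg.Agent.H98.Ext

open Module

section lin

variable {K X : Type*} [Field K] [AddCommGroup X] [Module K X]

variable (K) in
lemma exists_dual_zero_one {x y : X} (hy : y ∉ Submodule.span K {x}) :
    ∃ φ : X →ₗ[K] K, φ x = 0 ∧ φ y = 1 := by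
  obtain ⟨f, hf, hp⟩ := Submodule.exists_le_ker_of_notMem hy
  have hx : f x = 0 := hp (Submodule.mem_span_singleton_self x)
  refine ⟨(f y)⁻¹ • f, by simp [hx], ?_⟩
  simp [inv_mul_cancel₀ hf]

variable (K) in
lemma exists_dual_one {x : X} (hx : x ≠ 0) : ∃ φ : X →ₗ[K] K, φ x = 1 := by
  have h : x ∉ Submodule.span K {(0 : X)} := by simpa using hx
  obtain ⟨φ, -, h2⟩ := exists_dual_zero_one K h
  exact ⟨φ, h2⟩

variable (K) in
lemma exists_dual_ne_ne {x y : X} (hx : x ≠ 0) (hy : y ≠ 0) : ∃ φ : X →ₗ[K] K, φ x = 1 ∧ φ y ≠ 0 := by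
  by_cases h : y ∈ Submodule.span K {x}
  · obtain ⟨c, rfl⟩ := Submodule.mem_span_singleton.1 h
    obtain ⟨φ, hφ⟩ := exists_dual_one K hx
    refine ⟨φ, hφ, ?_⟩
    rw [map_smul, hφ]
    intro h0
    apply hy
    rw [smul_eq_mul, mul_one] at h0
    rw [h0, zero_smul]
  · obtain ⟨φ, h1, h2⟩ := exists_dual_zero_one K h
    obtain ⟨ψ, h3⟩ := exists_dual_one K hx
    by_cases h4 : ψ y = 0
    · exact ⟨ψ + φ, by simp [h1, h3], by simp [h2, h4]⟩
    · exact ⟨ψ, h3, h4⟩

variable (K) in
lemma exists_equiv_apply {x y : X} (hx : x ≠ 0) (hy : y ≠ 0) : ∃ z : X ≃ₗ[K] X, z x = y := by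
  obtain ⟨φ, h1, h2⟩ := exists_dual_ne_ne K hx hy
  have h : IsUnit (1 + φ (y - x)) := by
    rw [map_sub, h1]
    simpa using h2
  refine ⟨LinearEquiv.dilatransvection h, ?_⟩
  rw [LinearEquiv.dilatransvection.apply, h1, one_smul]
  abel

end lin

section density

variable {F K X : Type*} [Field F] [Field K] [Algebra F K] [AddCommGroup X] [Module F X] [Module K X]
  [IsScalarTower F K X]

/-- A subring of `End_F X` containing all `K`-linear units and some element which is not `K`-linear is
everything, when `[K : F]` is prime. -/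
theorem density [Finite X] (hr : (finrank F K).Prime) (J : Subring (Module.End F X))
    (hGL : ∀ z : X ≃ₗ[K] X, ((z.restrictScalars F : X ≃ₗ[F] X) : X →ₗ[F] X) ∈ J) {y : Module.End F X}
    (hy : y ∈ J) (hy' : ¬ ∀ (k : K) (x : X), y (k • x) = k • y x) : J = ⊤ := by
  have hX : Nontrivial X := by
    by_contra h
    rw [not_nontrivial_iff_subsingleton] at h
    exact hy' (fun k x => Subsingleton.elim _ _)
  have hsimple : IsSimpleModule J X := by
    rw [isSimpleModule_iff_toSpanSingleton_surjective]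
    refine ⟨hX, fun x hx z => ?_⟩
    by_cases hz : z = 0
    · exact ⟨0, by simp [hz]⟩
    · obtain ⟨g, hg⟩ := exists_equiv_apply K hx hz
      exact ⟨⟨_, hGL g⟩, hg⟩
  -- the commutant
  have hcom : ∀ e : Module.End J X, ∃ c : F, ∀ x, e x = c • x := by
    intro e
    have he : ∀ (z : X ≃ₗ[K] X) (x : X), e (z x) = z (e x) := fun z x => e.map_smul (⟨_, hGL z⟩ : J) x
    have h1 : ∀ x : X, e x ∈ Submodule.span K {x} := by
      intro x
      by_contra hcon
      obtain ⟨φ, hφ0, hφ1⟩ := exists_dual_zero_one K hcon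
      by_cases hx0 : x = 0
      · apply hcon
        rw [hx0, map_zero]
        exact Submodule.zero_mem _
      have hne : e x ≠ 0 := by
        intro h0
        rw [h0, map_zero] at hφ1
        exact zero_ne_one hφ1
      have h2 := he (LinearEquiv.transvection hφ0) x
      rw [LinearEquiv.transvection.apply, LinearEquiv.transvection.apply, hφ0, hφ1, zero_smul, add_zero, one_smul] at h2
      apply hx0
      simpa using h2
    obtain ⟨x₀, hx₀⟩ := exists_ne (0 : X)
    obtain ⟨c, hc⟩ := Submodule.mem_span_singleton.1 (h1 x₀)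
    have h3 : ∀ x, e x = c • x := by
      intro x
      by_cases hx : x = 0
      · rw [hx, map_zero, smul_zero]
      · obtain ⟨g, hg⟩ := exists_equiv_apply K hx₀ hx
        rw [← hg, he, ← hc, map_smul]
    have : IsSimpleOrder (Subalgebra F K) := Subalgebra.isSimpleOrder_of_finrank_prime _ _ hr
    let S : Subalgebra F K :=
      { carrier := {k | ∀ j ∈ J, ∀ x, j (k • x) = k • j x}
        mul_mem' := by
          intro a b ha hb j hj x
          rw [mul_smul, ha j hj, hb j hj, mul_smul]
        add_mem' := by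
          intro a b ha hb j hj x
          rw [add_smul, map_add, ha j hj, hb j hj, add_smul]
        algebraMap_mem' := by
          intro a j _ x
          rw [algebraMap_smul, algebraMap_smul, map_smul] }
    rcases this.eq_bot_or_eq_top S with h4 | h4
    · have h5 : c ∈ S := by
        intro j hj x
        rw [← h3, ← h3]
        exact (e.map_smul (⟨j, hj⟩ : J) x).symm
      rw [h4, Algebra.mem_bot] at h5
      obtain ⟨f, hf⟩ := h5
      exact ⟨f, fun x => by rw [h3, ← hf, algebraMap_smul]⟩
    · exfalso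
      apply hy'
      intro k x
      have h5 : k ∈ S := by rw [h4]; trivial
      exact h5 y hy x
  rw [eq_top_iff]
  intro f _
  let f' : Module.End (Module.End J X) X :=
    { toFun := f
      map_add' := f.map_add
      map_smul' := by
        intro e x
        obtain ⟨c, hc⟩ := hcom e
        change f (e x) = e (f x)
        rw [hc, hc, map_smul] }
  cases nonempty_fintype X
  obtain ⟨r, hr'⟩ := jacobson_density f' (Finset.univ : Finset X)
  have h6 : f = r := by
    ext x
    exact hr' x (Finset.mem_univ x)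
  rw [h6]
  exact r.2

end density

section normone

variable {F K : Type*} [Field F] [Field K] [Algebra F K]

lemma closure_norm_one [Finite K] (hr : 2 ≤ finrank F K) :
    AddSubgroup.closure {a : K | Algebra.norm F a = 1} = ⊤ := by
  have : Finite F := Finite.of_injective _ (algebraMap F K).injective
  let N : Submonoid K :=
    { carrier := {a : K | Algebra.norm F a = 1}
      mul_mem' := by
        intro a b ha hb
        change Algebra.norm F (a * b) = 1
        rw [map_mul, (show Algebra.norm F a = 1 from ha), (show Algebra.norm F b = 1 from hb), mul_one]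
      one_mem' := map_one _ }
  let R := Subring.closure (N : Set K)
  have hRN : ∀ x : K, x ∈ R ↔ x ∈ AddSubgroup.closure {a : K | Algebra.norm F a = 1} := by
    intro x
    change x ∈ Subring.closure (N : Set K) ↔ _
    rw [Subring.mem_closure_iff, Submonoid.closure_eq]
    rfl
  -- R is a field
  have hRf : IsField R := Finite.isField_of_domain R
  letI : Field R := hRf.toField
  have hcard := Module.natCard_eq_pow_finrank (K := R) (V := K)
  -- size of N
  have h1 : Nat.card Kˣ ≤ Nat.card (Units.map (Algebra.norm F : K →* F)).ker * Nat.card Fˣ := by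
    rw [← Subgroup.card_mul_index (Units.map (Algebra.norm F : K →* F)).ker, Subgroup.index_ker]
    exact Nat.mul_le_mul le_rfl (Finite.card_subtype_le _)
  have h2 : Nat.card (Units.map (Algebra.norm F : K →* F)).ker < Nat.card R := by
    have h3 : Nat.card (Units.map (Algebra.norm F : K →* F)).ker ≤ Nat.card {x : R // x ≠ 0} := by
      have hmem : ∀ u : (Units.map (Algebra.norm F : K →* F)).ker, ((u : Kˣ) : K) ∈ R := by
        intro u
        apply Subring.subset_closure
        have := congrArg Units.val (MonoidHom.mem_ker.1 u.2)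
        exact this
      refine Nat.card_le_card_of_injective (fun u => ⟨⟨((u : Kˣ) : K), hmem u⟩, ?_⟩) ?_
      · intro h
        exact (u : Kˣ).ne_zero (congrArg Subtype.val h)
      · intro u v huv
        apply Subtype.ext
        apply Units.ext
        exact congrArg (fun z : {x : R // x ≠ 0} => ((z : R) : K)) huv
    have h4 : Nat.card {x : R // x ≠ 0} < Nat.card R := by
      have := Fintype.ofFinite R
      classical
      rw [Nat.card_eq_fintype_card, Nat.card_eq_fintype_card]
      exact Fintype.card_subtype_lt (x := (0 : R)) (by simp)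
    omega
  have hq : 2 ≤ Nat.card F := Finite.one_lt_card
  have hKF := Module.natCard_eq_pow_finrank (K := F) (V := K)
  rw [Nat.card_units, Nat.card_units] at h1
  have h5 : finrank R K = 1 := by
    have h6 : 0 < finrank R K := finrank_pos
    by_contra hne
    have h7 : 2 ≤ finrank R K := by omega
    have h8 : Nat.card R ^ 2 ≤ Nat.card K := by
      rw [hcard]
      exact Nat.pow_le_pow_right Nat.card_pos h7
    obtain ⟨q, hq'⟩ : ∃ q, q = Nat.card F := ⟨_, rfl⟩
    obtain ⟨s, hs⟩ : ∃ s, s = Nat.card R := ⟨_, rfl⟩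
    obtain ⟨t, ht⟩ : ∃ t, finrank F K = t + 2 := ⟨finrank F K - 2, by omega⟩
    rw [hKF, ← hq', ← hs, ht] at h8
    rw [hKF, ← hq', ht] at h1
    rw [← hs] at h2
    rw [← hq'] at hq
    -- q^(t+2) - 1 ≤ (s-1) (q-1), s^2 ≤ q^(t+2)
    have h9 : q ^ (t + 2) - 1 ≤ (s - 1) * (q - 1) := h1.trans (Nat.mul_le_mul (by omega) le_rfl)
    have h10 : q ^ (t + 1) < s := by
      by_contra hcon
      push Not at hcon
      have h11 : (s - 1) * (q - 1) ≤ (q ^ (t + 1) - 1) * (q - 1) := Nat.mul_le_mul (by omega) le_rfl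
      have h12 : 1 ≤ q ^ (t + 1) := Nat.one_le_pow _ _ (by omega)
      have h13 : (q ^ (t + 1) - 1) * (q - 1) < q ^ (t + 2) - 1 := by
        obtain ⟨a, ha⟩ : ∃ a, q ^ (t + 1) = a + 1 := ⟨q ^ (t + 1) - 1, by omega⟩
        obtain ⟨b, hb⟩ : ∃ b, q = b + 2 := ⟨q - 2, by omega⟩
        have h14 : q ^ (t + 2) = (a + 1) * (b + 2) := by rw [pow_succ, ha, hb]
        rw [h14, ha, hb]
        have : (a + 1 - 1) * (b + 2 - 1) = a * (b + 1) := by simp
        rw [this]
        have : (a + 1) * (b + 2) = a * (b + 1) + a + b + 2 := by ring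
        omega
      omega
    have h15 : (q ^ (t + 1) + 1) ^ 2 ≤ q ^ (t + 2) := (Nat.pow_le_pow_left h10 2).trans h8
    have h16 : q ^ (t + 2) ≤ (q ^ (t + 1)) ^ 2 := by
      rw [← pow_mul]
      exact Nat.pow_le_pow_right (by omega) (by omega)
    have h17 : (q ^ (t + 1) + 1) ^ 2 = (q ^ (t + 1)) ^ 2 + 2 * q ^ (t + 1) + 1 := by ring
    omega
  have h6 : Nat.card R = Nat.card K := by rw [hcard, h5, pow_one]
  have h7 : (R : Set K) = Set.univ := by
    apply Set.eq_of_subset_of_ncard_le (Set.subset_univ _)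
    rw [Set.ncard_univ, ← h6]
    exact le_rfl
  rw [eq_top_iff]
  intro x _
  rw [← hRN]
  have : x ∈ (R : Set K) := by rw [h7]; trivial
  exact this

end normone

section groups

variable {G : Type*} [Group G] [Finite G] {p : ℕ} [Fact p.Prime]

/-- `U` is a maximal `p`-subgroup of the subgroup `B`. -/
def MaxP (p : ℕ) (B U : Subgroup G) : Prop :=
  IsPGroup p U ∧ U ≤ B ∧ ∀ Q : Subgroup G, IsPGroup p Q → Q ≤ B → U ≤ Q → Q = U

lemma exists_maxP {B T : Subgroup G} (hT : IsPGroup p T) (hTB : T ≤ B) : ∃ U, T ≤ U ∧ MaxP p B U := by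
  obtain ⟨U, hU1, hU2⟩ := (Set.toFinite {Q : Subgroup G | IsPGroup p Q ∧ Q ≤ B}).exists_le_maximal
    (show T ∈ {Q : Subgroup G | IsPGroup p Q ∧ Q ≤ B} from ⟨hT, hTB⟩)
  refine ⟨U, hU1, hU2.prop.1, hU2.prop.2, fun Q hQ hQB hUQ => ?_⟩
  exact le_antisymm (hU2.le_of_ge ⟨hQ, hQB⟩ hUQ) hUQ

lemma norm_grow {U Q : Subgroup G} (hQ : IsPGroup p Q) (hUQ : U < Q) :
    ∃ g ∈ Q, g ∉ U ∧ ∀ x, x ∈ U ↔ g * x * g⁻¹ ∈ U := by
  have hnil : Group.IsNilpotent Q := hQ.isNilpotent
  have hlt : U.subgroupOf Q < ⊤ := by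
    rw [lt_top_iff_ne_top]
    intro h
    rw [Subgroup.subgroupOf_eq_top] at h
    exact hUQ.not_ge h
  have h1 := Group.normalizerCondition_of_isNilpotent (G := Q) _ hlt
  obtain ⟨g, hg1, hg2⟩ := SetLike.exists_of_lt h1
  refine ⟨g, g.2, fun h => hg2 (Subgroup.mem_subgroupOf.2 h), fun x => ?_⟩
  constructor
  · intro hx
    have := (Subgroup.mem_normalizer_iff.1 hg1 ⟨x, hUQ.le hx⟩).1 (Subgroup.mem_subgroupOf.2 hx)
    exact Subgroup.mem_subgroupOf.1 this
  · intro hx
    have hxQ : x ∈ Q := by
      have h2 : (g : G)⁻¹ * ((g : G) * x * (g : G)⁻¹) * (g : G) ∈ Q :=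
        Q.mul_mem (Q.mul_mem (Q.inv_mem g.2) (hUQ.le hx)) g.2
      simpa [mul_assoc] using h2
    have := (Subgroup.mem_normalizer_iff.1 hg1 ⟨x, hxQ⟩).2 (Subgroup.mem_subgroupOf.2 hx)
    exact Subgroup.mem_subgroupOf.1 this

lemma maxP_conj {B U Q : Subgroup G} (hU : MaxP p B U) (hQ : IsPGroup p Q) (hQB : Q ≤ B) :
    ∃ b ∈ B, ∀ x ∈ Q, b⁻¹ * x * b ∈ U := by
  have hUB : IsPGroup p (U.subgroupOf B) := hU.1.comap_subtype
  let P : Sylow p B :=
    { toSubgroup := U.subgroupOf B
      isPGroup' := hUB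
      is_maximal' := by
        intro R hR hUR
        have h1 : IsPGroup p (R.map B.subtype) := hR.map _
        have h2 : U ≤ R.map B.subtype := by
          intro x hx
          exact ⟨⟨x, hU.2.1 hx⟩, hUR (Subgroup.mem_subgroupOf.2 hx), rfl⟩
        have h3 := hU.2.2 _ h1 (Subgroup.map_subtype_le R) h2
        rw [← h3]
        ext x
        constructor
        · intro hx
          exact Subgroup.mem_subgroupOf.2 ⟨x, hx, rfl⟩
        · intro hx
          obtain ⟨y, hy, hxy⟩ := Subgroup.mem_subgroupOf.1 hx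
          have : y = x := Subtype.ext hxy
          rwa [← this] }
  have hQ' : IsPGroup p (Q.subgroupOf B) := hQ.comap_subtype
  obtain ⟨R, hR⟩ := hQ'.exists_le_sylow
  obtain ⟨b, hb⟩ := MulAction.exists_smul_eq B P R
  refine ⟨b, b.2, fun x hx => ?_⟩
  have h1 : (⟨x, hQB hx⟩ : B) ∈ (R : Subgroup B) := hR (Subgroup.mem_subgroupOf.2 hx)
  rw [← hb, Sylow.coe_subgroup_smul, Subgroup.mem_pointwise_smul_iff_inv_smul_mem] at h1
  have h2 : (b⁻¹ * ⟨x, hQB hx⟩ * b : B) ∈ U.subgroupOf B := by
    have h3 : (MulAut.conj b)⁻¹ • (⟨x, hQB hx⟩ : B) ∈ U.subgroupOf B := h1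
    simpa [MulAut.smul_def] using h3
  exact Subgroup.mem_subgroupOf.1 h2

end groups

end Cfsg.Agent.H98.Ext
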