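import Cfsg.Agent.H98.ExtA

set_option autoImplicit false
set_option linter.unusedSectionVars false
set_option linter.style.haveILetI false
set_option linter.unusedSimpArgs false

/-!
Overgroups of the group of semilinear maps: the groups `T f` with fixed centre, the case when everything is there.
-/

namespace Cfsg.Agent.H98.Ext

open Module

/-- `g` is semilinear over `K`. -/
def Semi (K : Type*) {F V : Type*} [Field F] [Field K] [AddCommGroup V] [Module F V] [Module K V]
    (g : V ≃ₗ[F] V) : Prop :=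
  ∀ k : K, ∃ k' : K, ∀ v : V, g (k • v) = k' • g v

/-- `H` contains every `K`-semilinear map having the same determinant as an element of `H`. -/
def Good (K : Type*) {F V : Type*} [Field F] [Field K] [AddCommGroup V] [Module F V] [Module K V]
    (H : Subgroup (V ≃ₗ[F] V)) : Prop :=
  ∀ d : V ≃ₗ[F] V, Semi K d → ∀ h ∈ H, LinearEquiv.det h = LinearEquiv.det d → d ∈ H

section general

variable {F K V : Type*} [Field F] [Field K] [Algebra F K] [AddCommGroup V] [Module F V] [Module K V]
  [IsScalarTower F K V]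

lemma coe_det_restrict (g : V ≃ₗ[K] V) :
    ((LinearEquiv.det (g.restrictScalars F) : Fˣ) : F) = Algebra.norm F ((LinearEquiv.det g : Kˣ) : K) := by
  rw [LinearEquiv.coe_det, LinearEquiv.coe_det, ← LinearMap.det_restrictScalars]
  rfl

lemma semi_of_lin (g : V ≃ₗ[K] V) : Semi K (g.restrictScalars F) := fun k => ⟨k, fun v => map_smul g k v⟩

variable {H : Subgroup (V ≃ₗ[F] V)} (hN : Good K H)
include hN

lemma lin_mem (g : V ≃ₗ[K] V) (hg : Algebra.norm F ((LinearEquiv.det g : Kˣ) : K) = 1) :
    g.restrictScalars F ∈ H := by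
  refine hN _ (semi_of_lin g) 1 H.one_mem ?_
  apply Units.ext
  rw [coe_det_restrict, hg, map_one, Units.val_one]

lemma trans_mem {φ : Dual K V} {u : V} (h : φ u = 0) :
    (LinearEquiv.transvection h).restrictScalars F ∈ H := by
  apply lin_mem hN
  rw [LinearEquiv.transvection.det_eq_one, Units.val_one, map_one]

end general

section trans

variable {F K V : Type*} [Field F] [Field K] [Algebra F K] [AddCommGroup V] [Module F V] [Module K V]
  [IsScalarTower F K V]

variable (K) in
lemma exists_trans_apply {v w : V} (hv : v ≠ 0) (hw : w ∉ Submodule.span K {v}) :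
    ∃ (φ : Dual K V) (u : V) (h : φ u = 0), LinearEquiv.transvection h v = w := by
  obtain ⟨φ₀, h1, h2⟩ := exists_dual_zero_one K hw
  obtain ⟨φ₁, h3⟩ := exists_dual_one K hv
  refine ⟨φ₁ + (1 - φ₁ w) • φ₀, w - v, ?_, ?_⟩
  · simp [h1, h2, h3]
  · rw [LinearEquiv.transvection.apply]
    simp [h1, h3]

variable {H : Subgroup (V ≃ₗ[F] V)} (hN : Good K H)
include hN

lemma exists_lin_mem (h2 : ∀ v : V, ∃ u : V, u ∉ Submodule.span K {v}) {v w : V} (hv : v ≠ 0) (hw : w ≠ 0) :
    ∃ g : V ≃ₗ[K] V, g.restrictScalars F ∈ H ∧ g v = w := by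
  by_cases h : w ∈ Submodule.span K {v}
  · obtain ⟨c, rfl⟩ := Submodule.mem_span_singleton.1 h
    have hc : c ≠ 0 := by
      rintro rfl
      exact hw (zero_smul _ _)
    obtain ⟨u, hu⟩ := h2 v
    have hu0 : u ≠ 0 := by
      rintro rfl
      exact hu (Submodule.zero_mem _)
    have hu' : c • v ∉ Submodule.span K {u} := by
      intro h'
      obtain ⟨d, hd⟩ := Submodule.mem_span_singleton.1 h'
      have hd0 : d ≠ 0 := by
        rintro rfl
        rw [zero_smul] at hd
        exact hw hd.symm
      apply hu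
      rw [Submodule.mem_span_singleton]
      exact ⟨d⁻¹ * c, by rw [mul_smul, ← hd, smul_smul, inv_mul_cancel₀ hd0, one_smul]⟩
    obtain ⟨φ, u₁, h1, h3⟩ := exists_trans_apply K hv hu
    obtain ⟨ψ, u₂, h4, h5⟩ := exists_trans_apply K hu0 hu'
    refine ⟨LinearEquiv.transvection h4 * LinearEquiv.transvection h1, ?_, ?_⟩
    · exact H.mul_mem (trans_mem hN h4) (trans_mem hN h1)
    · rw [LinearEquiv.mul_apply, h3, h5]
  · obtain ⟨φ, u₁, h1, h3⟩ := exists_trans_apply K hv h
    exact ⟨_, trans_mem hN h1, h3⟩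

end trans

section prod

variable {F K X : Type*} [Field F] [Field K] [Algebra F K] [AddCommGroup X] [Module F X] [Module K X]
  [IsScalarTower F K X]

lemma exists_notMem_span [Nontrivial X] (v : K × X) : ∃ u : K × X, u ∉ Submodule.span K {v} := by
  obtain ⟨x₀, hx₀⟩ := exists_ne (0 : X)
  by_cases h : v.2 = 0
  · refine ⟨(0, x₀), fun hu => ?_⟩
    obtain ⟨c, hc⟩ := Submodule.mem_span_singleton.1 hu
    have h1 := congrArg Prod.snd hc
    rw [Prod.smul_snd, h, smul_zero] at h1
    exact hx₀ h1.symm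
  · refine ⟨(v.1 + 1, v.2), fun hu => ?_⟩
    obtain ⟨c, hc⟩ := Submodule.mem_span_singleton.1 hu
    have h1 := congrArg Prod.snd hc
    have h2 := congrArg Prod.fst hc
    simp only [Prod.smul_snd, Prod.smul_fst, smul_eq_mul] at h1 h2
    have h3 : (c - 1) • v.2 = 0 := by rw [sub_smul, one_smul, h1, sub_self]
    rcases smul_eq_zero.1 h3 with h4 | h4
    · have h5 : c = 1 := by linear_combination h4
      rw [h5] at h2
      have : (1 : K) = 0 := by linear_combination -h2
      exact one_ne_zero this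
    · exact h h4

/-- The map `(k, x) ↦ (k + f x, x)`. -/
def T (f : X →ₗ[F] K) : (K × X) ≃ₗ[F] (K × X) where
  toFun v := (v.1 + f v.2, v.2)
  map_add' v w := by ext <;> simp [add_add_add_comm]
  map_smul' c v := by ext <;> simp [smul_add]
  invFun v := (v.1 - f v.2, v.2)
  left_inv v := by simp
  right_inv v := by simp

lemma T_apply (f : X →ₗ[F] K) (v : K × X) : T f v = (v.1 + f v.2, v.2) := rfl

lemma T_add (f g : X →ₗ[F] K) : T (f + g) = T f * T g := by
  ext v
  · simp [LinearEquiv.mul_apply, T_apply]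
    ring
  · simp [LinearEquiv.mul_apply, T_apply]

lemma T_zero : T (0 : X →ₗ[F] K) = 1 := by
  ext v <;> simp [T_apply]

lemma T_neg (f : X →ₗ[F] K) : T (-f) = (T f)⁻¹ := by
  rw [eq_inv_iff_mul_eq_one, ← T_add, neg_add_cancel, T_zero]

/-- The set of `f` with `T f ∈ H`. -/
def RR (H : Subgroup ((K × X) ≃ₗ[F] (K × X))) : AddSubgroup (X →ₗ[F] K) where
  carrier := {f | T f ∈ H}
  add_mem' {a b} ha hb := by
    change T (a + b) ∈ H
    rw [T_add]
    exact H.mul_mem ha hb
  zero_mem' := by
    change T 0 ∈ H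
    rw [T_zero]
    exact H.one_mem
  neg_mem' {a} ha := by
    change T (-a) ∈ H
    rw [T_neg]
    exact H.inv_mem ha

lemma mem_RR {H : Subgroup ((K × X) ≃ₗ[F] (K × X))} {f : X →ₗ[F] K} : f ∈ RR H ↔ T f ∈ H := Iff.rfl

/-- The left idealiser of `RR H`. -/
def II (H : Subgroup ((K × X) ≃ₗ[F] (K × X))) : Subring (Module.End F K) where
  carrier := {y | ∀ f ∈ RR H, y ∘ₗ f ∈ RR H}
  mul_mem' {a b} ha hb := fun f hf => ha _ (hb f hf)
  one_mem' := fun f hf => hf
  add_mem' {a b} ha hb := fun f hf => by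
    rw [LinearMap.add_comp]
    exact (RR H).add_mem (ha f hf) (hb f hf)
  zero_mem' := fun f _ => by
    rw [LinearMap.zero_comp]
    exact (RR H).zero_mem
  neg_mem' {a} ha := fun f hf => by
    rw [LinearMap.neg_comp]
    exact (RR H).neg_mem (ha f hf)

variable {H : Subgroup ((K × X) ≃ₗ[F] (K × X))} (hN : Good K H)
include hN

lemma lin_mem_RR (f : X →ₗ[K] K) : f.restrictScalars F ∈ RR H := by
  have h : (f ∘ₗ LinearMap.snd K K X) ((1, 0) : K × X) = 0 := by simp
  have h1 := trans_mem hN h
  have h2 : T (f.restrictScalars F) = (LinearEquiv.transvection h).restrictScalars F := by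
    ext v <;> simp [T_apply, LinearMap.transvection.apply]
  rw [mem_RR, h2]
  exact h1

lemma smul_norm_mem_RR [Finite K] [Finite X] {a : K} (ha : Algebra.norm F a = 1) {f : X →ₗ[F] K} (hf : f ∈ RR H) :
    a • f ∈ RR H := by
  have ha0 : a ≠ 0 := by
    rintro rfl
    have : Module.Finite F K := Module.Finite.of_finite
    rw [Algebra.norm_zero] at ha
    exact zero_ne_one ha
  have hval : 1 + ((a - 1) • LinearMap.fst K K X) ((1, 0) : K × X) = a := by simp
  have hu : IsUnit (1 + ((a - 1) • LinearMap.fst K K X) ((1, 0) : K × X)) := by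
    rw [hval]
    exact isUnit_iff_ne_zero.2 ha0
  have hD : (LinearEquiv.dilatransvection hu).restrictScalars F ∈ H := by
    apply lin_mem hN
    rw [LinearEquiv.coe_det, LinearEquiv.dilatransvection.coe_toLinearMap, LinearMap.transvection.det, hval, ha]
  have hDa : ∀ v : K × X, (LinearEquiv.dilatransvection hu).restrictScalars F v = (a * v.1, v.2) := by
    intro v
    rw [LinearEquiv.restrictScalars_apply, LinearEquiv.dilatransvection.apply]
    ext <;> simp
    ring
  rw [mem_RR] at hf ⊢
  have key : T (a • f) = (LinearEquiv.dilatransvection hu).restrictScalars F * T f *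
      ((LinearEquiv.dilatransvection hu).restrictScalars F)⁻¹ := by
    rw [eq_mul_inv_iff_mul_eq]
    apply LinearEquiv.ext
    intro v
    rw [LinearEquiv.mul_apply, LinearEquiv.mul_apply, hDa, hDa, T_apply, T_apply]
    ext <;> simp
    ring
  rw [key]
  exact H.mul_mem (H.mul_mem hD hf) (H.inv_mem hD)

lemma smul_mem_RR [Finite K] [Finite X] (hr : 2 ≤ finrank F K) (a : K) {f : X →ₗ[F] K} (hf : f ∈ RR H) :
    a • f ∈ RR H := by
  have h : a ∈ AddSubgroup.closure {a : K | Algebra.norm F a = 1} := by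
    rw [closure_norm_one hr]
    trivial
  induction h using AddSubgroup.closure_induction with
  | mem x hx => exact smul_norm_mem_RR hN hx hf
  | zero => rw [zero_smul]; exact (RR H).zero_mem
  | add x y _ _ hx hy => rw [add_smul]; exact (RR H).add_mem hx hy
  | neg x _ hx =>
    have h1 : (-x) • f = -(x • f) := by ext v; simp
    rw [h1]
    exact (RR H).neg_mem hx

lemma lin_mem_II [Finite K] [Finite X] (hr : 2 ≤ finrank F K) (z : K ≃ₗ[K] K) :
    ((z.restrictScalars F : K ≃ₗ[F] K) : K →ₗ[F] K) ∈ II H := by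
  intro f hf
  have h : ((z.restrictScalars F : K ≃ₗ[F] K) : K →ₗ[F] K) ∘ₗ f = z 1 • f := by
    ext x
    simp only [LinearMap.comp_apply, LinearMap.smul_apply, LinearEquiv.coe_coe, LinearEquiv.restrictScalars_apply,
      smul_eq_mul]
    have : z (f x) = z (f x • (1 : K)) := by simp
    rw [this, map_smul, smul_eq_mul, mul_comm]
  rw [h]
  exact smul_mem_RR hN hr _ hf

/-- If the idealiser is everything then so is `RR H`. -/
lemma RR_top_of_II [FiniteDimensional K X] (h : II H = ⊤) (f : X →ₗ[F] K) : f ∈ RR H := by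
  let b := Module.finBasis K X
  let y : Fin (finrank K X) → (K →ₗ[F] K) := fun j =>
    f ∘ₗ ((LinearMap.toSpanSingleton K X (b j)).restrictScalars F)
  have h1 : f = ∑ j, (y j) ∘ₗ ((b.coord j).restrictScalars F) := by
    ext x
    simp only [LinearMap.sum_apply, LinearMap.comp_apply, LinearMap.restrictScalars_apply, y,
      LinearMap.toSpanSingleton_apply, Module.Basis.coord_apply]
    rw [← map_sum, b.sum_repr]
  rw [h1]
  apply AddSubgroup.sum_mem
  intro j _
  have h2 : y j ∈ II H := by rw [h]; trivial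
  exact h2 _ (lin_mem_RR hN _)

/-- Either `RR H` is everything or all elements of the idealiser are `K`-linear. -/
lemma dich [Finite K] [Finite X] (hr : (finrank F K).Prime) :
    (∀ f : X →ₗ[F] K, f ∈ RR H) ∨ ∀ y ∈ II H, ∀ k l : K, y (k * l) = k * y l := by
  by_cases h : ∀ y ∈ II H, ∀ k l : K, y (k * l) = k * y l
  · exact Or.inr h
  · left
    push Not at h
    obtain ⟨y, hy, hy'⟩ := h
    have : FiniteDimensional K X := Module.Finite.of_finite
    apply RR_top_of_II hN
    apply density hr (II H) (lin_mem_II hN hr.two_le) hy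
    intro hcon
    obtain ⟨k, l, hkl⟩ := hy'
    exact hkl (hcon k l)

end prod

section conj

variable {F V : Type*} [Field F] [AddCommGroup V] [Module F V]

lemma trans_conj (g : V ≃ₗ[F] V) {l : Dual F V} {w : V} (h : l w = 0)
    (h' : (l ∘ₗ (g : V →ₗ[F] V)) (g⁻¹ w) = 0) :
    LinearEquiv.transvection h = g * LinearEquiv.transvection h' * g⁻¹ := by
  rw [eq_mul_inv_iff_mul_eq]
  apply LinearEquiv.ext
  intro v
  rw [LinearEquiv.mul_apply, LinearEquiv.mul_apply, LinearEquiv.transvection.apply, LinearEquiv.transvection.apply,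
    map_add, map_smul]
  congr 2
  exact (LinearEquiv.apply_symm_apply g w).symm

lemma trans_comm {l₁ l₂ : Dual F V} {w₁ w₂ : V} (h1 : l₁ w₁ = 0) (h2 : l₂ w₂ = 0) (h3 : l₂ w₁ = 0)
    (h4 : l₁ w₂ = 1) : LinearEquiv.transvection h3 * (LinearEquiv.transvection h2 * LinearEquiv.transvection h1) =
      LinearEquiv.transvection h1 * LinearEquiv.transvection h2 := by
  apply LinearEquiv.ext
  intro v
  simp only [LinearEquiv.mul_apply, LinearEquiv.transvection.apply, map_add, map_smul, h1, h2, h3, h4, smul_eq_mul,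
    mul_zero, mul_one, add_zero, zero_add]
  module

lemma trans_add {l₁ l₂ : Dual F V} {w : V} (h1 : l₁ w = 0) (h2 : l₂ w = 0) (h3 : (l₁ + l₂) w = 0) :
    LinearEquiv.transvection h3 = LinearEquiv.transvection h1 * LinearEquiv.transvection h2 := by
  apply LinearEquiv.ext
  intro v
  simp only [LinearEquiv.mul_apply, LinearEquiv.transvection.apply, map_add, map_smul, h1, h2, smul_eq_mul,
    mul_zero, add_zero, LinearMap.add_apply]
  module

end conj

section caseA

variable {F K X : Type*} [Field F] [Field K] [Algebra F K] [AddCommGroup X] [Module F X] [Module K X]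
  [IsScalarTower F K X] {H : Subgroup ((K × X) ≃ₗ[F] (K × X))}

lemma conj_mem {V : Type*} [AddCommGroup V] [Module F V] {H : Subgroup (V ≃ₗ[F] V)} {g : V ≃ₗ[F] V} (hg : g ∈ H)
    {u : V} {l : Dual F V} {w : V} (h : l w = 0) (hgu : g u = w)
    (hu : ∀ (h' : (l ∘ₗ (g : V →ₗ[F] V)) u = 0), LinearEquiv.transvection h' ∈ H) :
    LinearEquiv.transvection h ∈ H := by
  have hinv : g⁻¹ w = u := by
    rw [← hgu]
    exact LinearEquiv.symm_apply_apply g _
  subst hinv
  have h' : (l ∘ₗ (g : V →ₗ[F] V)) (g⁻¹ w) = 0 := by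
    rw [LinearMap.comp_apply, LinearEquiv.coe_coe, hgu, h]
  rw [trans_conj g h h']
  exact H.mul_mem (H.mul_mem hg (hu h')) (H.inv_mem hg)

lemma one_zero_ne : ((1, 0) : K × X) ≠ 0 := by
  intro h0
  exact one_ne_zero (congrArg Prod.fst h0)

/-- Transvections whose centre `w` satisfies `λ(Kw) = 0`. -/
lemma trans_mem_of_kill (hN : Good K H) [Nontrivial X] (hall : ∀ f : X →ₗ[F] K, f ∈ RR H) {l : Dual F (K × X)}
    {w : K × X} (h : l w = 0) (hw : ∀ k : K, l (k • w) = 0) : LinearEquiv.transvection h ∈ H := by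
  by_cases hw0 : w = 0
  · subst hw0
    have : LinearEquiv.transvection h = 1 := by
      apply LinearEquiv.ext
      intro v
      rw [LinearEquiv.transvection.apply, smul_zero, add_zero]
      rfl
    rw [this]
    exact H.one_mem
  obtain ⟨g, hg, hgw⟩ := exists_lin_mem hN exists_notMem_span (one_zero_ne (K := K) (X := X)) hw0
  refine conj_mem hg h (u := (1, 0)) hgw (fun h' => ?_)
  have key : LinearEquiv.transvection h' = T ((LinearMap.toSpanSingleton F K 1) ∘ₗ l ∘ₗ
      ((g.restrictScalars F : (K × X) ≃ₗ[F] (K × X)) : (K × X) →ₗ[F] (K × X)) ∘ₗ LinearMap.inr F K X) := by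
    apply LinearEquiv.ext
    intro v
    rw [LinearEquiv.transvection.apply, T_apply]
    have h3 : l (g v) = l (g (0, v.2)) := by
      have h4 : v = v.1 • ((1, 0) : K × X) + (0, v.2) := by ext <;> simp
      have h5 : g v = v.1 • w + g (0, v.2) := by
        conv_lhs => rw [h4]
        rw [map_add, map_smul, hgw]
      rw [h5, map_add, hw, zero_add]
    ext
    · simp [LinearMap.toSpanSingleton_apply, h3]
    · simp
  rw [key]
  exact hall _

theorem caseA (hN : Good K H) [Nontrivial X] (hall : ∀ f : X →ₗ[F] K, f ∈ RR H) {l : Dual F (K × X)} {w : K × X}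
    (h : l w = 0) : LinearEquiv.transvection h ∈ H := by
  -- centre (1,0)
  have main : ∀ (l : Dual F (K × X)) (h : l (1, 0) = 0), LinearEquiv.transvection h ∈ H := by
    intro l h
    obtain ⟨x₀, hx₀⟩ := exists_ne (0 : X)
    obtain ⟨ψ, hψ⟩ := exists_dual_one F hx₀
    have h00 : l ((0, 0) : K × X) = 0 := map_zero l
    -- pieces
    have hβ : (l ∘ₗ LinearMap.inr F K X ∘ₗ LinearMap.snd F K X) ((1, 0) : K × X) = 0 := by simp [h00]
    have hα : (l ∘ₗ LinearMap.inl F K X ∘ₗ LinearMap.fst F K X) ((1, 0) : K × X) = 0 := by simpa using h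
    have hα' : (l ∘ₗ LinearMap.inl F K X ∘ₗ LinearMap.fst F K X) ((0, x₀) : K × X) = 0 := by simp [h00]
    have hψ' : (ψ ∘ₗ LinearMap.snd F K X) ((1, 0) : K × X) = 0 := by simp
    have m1 : LinearEquiv.transvection hβ ∈ H := trans_mem_of_kill hN hall hβ (fun k => by simp [h00])
    have m2 : LinearEquiv.transvection hα' ∈ H := trans_mem_of_kill hN hall hα' (fun k => by simp [h00])
    have m3 : LinearEquiv.transvection hψ' ∈ H := trans_mem_of_kill hN hall hψ' (fun k => by simp)
    have m4 : LinearEquiv.transvection hα ∈ H := by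
      have key := trans_comm hψ' hα' hα (by simpa using hψ)
      rw [← eq_mul_inv_iff_mul_eq] at key
      rw [key]
      exact H.mul_mem (H.mul_mem m3 m2) (H.inv_mem (H.mul_mem m2 m3))
    have hl : l = l ∘ₗ LinearMap.inl F K X ∘ₗ LinearMap.fst F K X + l ∘ₗ LinearMap.inr F K X ∘ₗ LinearMap.snd F K X := by
      apply LinearMap.ext
      intro v
      rw [LinearMap.add_apply, LinearMap.comp_apply, LinearMap.comp_apply, LinearMap.comp_apply, LinearMap.comp_apply,
        ← map_add]
      congr 1
      ext <;> simp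
    have h3 := h
    rw [hl] at h3
    have key : LinearEquiv.transvection h = LinearEquiv.transvection hα * LinearEquiv.transvection hβ := by
      rw [← trans_add hα hβ h3]
      congr 1
    rw [key]
    exact H.mul_mem m4 m1
  by_cases hw0 : w = 0
  · exact trans_mem_of_kill hN hall h (fun k => by rw [hw0, smul_zero, map_zero])
  obtain ⟨g, hg, hgw⟩ := exists_lin_mem hN exists_notMem_span (one_zero_ne (K := K) (X := X)) hw0
  exact conj_mem hg h (u := (1, 0)) hgw (fun h' => main _ h')

end caseA

end Cfsg.Agent.H98.Ext
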