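import Cfsg.Agent.H98.ExtB

set_option autoImplicit false
set_option linter.unusedSectionVars false
set_option linter.style.haveILetI false
set_option linter.unusedSimpArgs false

/-!
Overgroups of the group of semilinear maps, second part: the case when the idealiser is `K`.
-/

namespace Cfsg.Agent.H98.Ext

open Module

section caseB

variable {F K X : Type*} [Field F] [Field K] [Algebra F K] [AddCommGroup X] [Module F X] [Module K X]
  [IsScalarTower F K X] [Finite K] [Finite X] {H : Subgroup ((K × X) ≃ₗ[F] (K × X))}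

lemma split_apply (h : (K × X) ≃ₗ[F] (K × X)) (k : K) (x : X) : h (k, x) = h (k, 0) + h (0, x) := by
  rw [← map_add]
  simp

/-- `h ∈ H` preserving `W = K × 0` acts on it semilinearly. -/
lemma semi_on_W (hN : Good K H) (hr : 2 ≤ finrank F K) (hB : ∀ y ∈ II H, ∀ k l : K, y (k * l) = k * y l)
    {h : (K × X) ≃ₗ[F] (K × X)} (hh : h ∈ H) (hW : ∀ k : K, (h (k, 0)).2 = 0) (k l : K) :
    (h (k * l, 0)).1 * (h (1, 0)).1 = (h (k, 0)).1 * (h (l, 0)).1 := by
  have : FiniteDimensional F K := Module.Finite.of_finite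
  obtain ⟨a, ha⟩ : ∃ a : K →ₗ[F] K, ∀ k, a k = (h (k, 0)).1 :=
    ⟨LinearMap.fst F K X ∘ₗ (h : (K × X) →ₗ[F] (K × X)) ∘ₗ LinearMap.inl F K X, fun k => rfl⟩
  have hak : ∀ k, h (k, 0) = (a k, 0) := by
    intro k
    rw [ha]
    exact Prod.ext rfl (hW k)
  have hinj : Function.Injective a := by
    intro k k' hkk
    have h1 : h (k, 0) = h (k', 0) := by rw [hak, hak, hkk]
    exact congrArg Prod.fst (h.injective h1)
  obtain ⟨z, hz⟩ : ∃ z : X →ₗ[F] X, ∀ x, z x = (h (0, x)).2 :=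
    ⟨LinearMap.snd F K X ∘ₗ (h : (K × X) →ₗ[F] (K × X)) ∘ₗ LinearMap.inr F K X, fun k => rfl⟩
  let e := LinearEquiv.ofInjectiveEndo a hinj
  have he : ∀ k, e k = a k := fun k => rfl
  -- the element y_k
  let y : K → Module.End F K := fun k => (e : K →ₗ[F] K) ∘ₗ (LinearMap.mulLeft F k) ∘ₗ (e.symm : K →ₗ[F] K)
  have hy : ∀ k l, y k (a l) = a (k * l) := by
    intro k l
    change e (k * e.symm (a l)) = a (k * l)
    rw [← he, LinearEquiv.symm_apply_apply, he]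
  have hyI : ∀ k, y k ∈ II H := by
    intro k f hf
    let f' : X →ₗ[F] K := (e.symm : K →ₗ[F] K) ∘ₗ f ∘ₗ z
    have hf' : ∀ x, a (f' x) = f (z x) := by
      intro x
      change a (e.symm (f (z x))) = _
      rw [← he, LinearEquiv.apply_symm_apply]
    have h2 : ∀ (g : X →ₗ[F] K) (g' : X →ₗ[F] K), (∀ x, a (g' x) = g (z x)) → T g * h = h * T g' := by
      intro g g' hg
      apply LinearEquiv.ext
      rintro ⟨m, x⟩
      rw [LinearEquiv.mul_apply, LinearEquiv.mul_apply, T_apply, T_apply, split_apply h m x, split_apply h (m + g' x) x,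
        hak, hak, map_add, hg, hz]
      ext <;> simp
      ring
    have h3 : f' ∈ RR H := by
      have h4 : T f' = h⁻¹ * T f * h := by
        rw [mul_assoc, h2 f f' hf', ← mul_assoc, inv_mul_cancel, one_mul]
      rw [mem_RR, h4]
      exact H.mul_mem (H.mul_mem (H.inv_mem hh) hf) hh
    have h5 : k • f' ∈ RR H := smul_mem_RR hN hr k h3
    have h6 : T (y k ∘ₗ f) * h = h * T (k • f') := by
      apply h2
      intro x
      rw [LinearMap.comp_apply, ← hf', hy, LinearMap.smul_apply, smul_eq_mul]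
    rw [← eq_mul_inv_iff_mul_eq] at h6
    rw [mem_RR, h6]
    exact H.mul_mem (H.mul_mem hh h5) (H.inv_mem hh)
  have h7 : ∀ k l, a (k * l) = a l * y k 1 := by
    intro k l
    rw [← hy, ← hB _ (hyI k), mul_one]
  rw [← ha, ← ha, ← ha, ← ha, h7 k l]
  have h8 := h7 k 1
  rw [mul_one] at h8
  rw [h8]
  ring

lemma gal_of (hN : Good K H) (hr : 2 ≤ finrank F K) (hB : ∀ y ∈ II H, ∀ k l : K, y (k * l) = k * y l)
    {h : (K × X) ≃ₗ[F] (K × X)} (hh : h ∈ H) (hW : ∀ k : K, (h (k, 0)).2 = 0) (h1 : h (1, 0) = (1, 0)) :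
    ∃ σ : K →ₐ[F] K, ∀ k, h (k, 0) = (σ k, 0) := by
  refine ⟨{ toFun := fun k => (h (k, 0)).1
            map_one' := ?_
            map_mul' := ?_
            map_zero' := ?_
            map_add' := ?_
            commutes' := ?_ }, fun k => Prod.ext rfl (hW k)⟩
  · change (h (1, 0)).1 = 1
    rw [h1]
  · intro k l
    have h2 := semi_on_W hN hr hB hh hW k l
    rw [h1, mul_one] at h2
    exact h2
  · change (h (0, 0)).1 = 0
    rw [show ((0, 0) : K × X) = 0 from rfl, map_zero]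
    rfl
  · intro k l
    change (h (k + l, 0)).1 = (h (k, 0)).1 + (h (l, 0)).1
    have h2 : ((k + l, 0) : K × X) = (k, 0) + (l, 0) := by simp
    rw [h2, map_add]
    rfl
  · intro c
    change (h (algebraMap F K c, 0)).1 = algebraMap F K c
    have h2 : ((algebraMap F K c, 0) : K × X) = c • ((1, 0) : K × X) := by
      ext
      · simp [Algebra.algebraMap_eq_smul_one]
      · simp
    rw [h2, map_smul, h1, ← h2]

lemma eq_id_of_fix (hr : (finrank F K).Prime) (σ : K →ₐ[F] K) {c : K} (hc : c ∉ Set.range (algebraMap F K))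
    (h : σ c = c) (k : K) : σ k = k := by
  have : IsSimpleOrder (Subalgebra F K) := Subalgebra.isSimpleOrder_of_finrank_prime _ _ hr
  rcases this.eq_bot_or_eq_top (AlgHom.equalizer σ (AlgHom.id F K)) with h4 | h4
  · exfalso
    apply hc
    have h5 : c ∈ AlgHom.equalizer σ (AlgHom.id F K) := h
    rw [h4, Algebra.mem_bot] at h5
    exact h5
  · have h5 : k ∈ AlgHom.equalizer σ (AlgHom.id F K) := by rw [h4]; trivial
    exact h5

/-- The group of the `T f` with `f` linear over `K`. -/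
def TL (F K X : Type*) [Field F] [Field K] [Algebra F K] [AddCommGroup X] [Module F X] [Module K X]
    [IsScalarTower F K X] : Subgroup ((K × X) ≃ₗ[F] (K × X)) where
  carrier := {g | ∃ f : X →ₗ[K] K, g = T (f.restrictScalars F)}
  mul_mem' := by
    rintro _ _ ⟨f, rfl⟩ ⟨f', rfl⟩
    exact ⟨f + f', by rw [← T_add]; rfl⟩
  one_mem' := ⟨0, by rw [← T_zero]; rfl⟩
  inv_mem' := by
    rintro _ ⟨f, rfl⟩
    exact ⟨-f, by rw [← T_neg]; rfl⟩

lemma T_nsmul (f : X →ₗ[F] K) (n : ℕ) : T (n • f) = T f ^ n := by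
  induction n with
  | zero => rw [zero_smul, T_zero, pow_zero]
  | succ n ih => rw [succ_nsmul, T_add, ih, pow_succ]

lemma isPGroup_TL (p : ℕ) [CharP F p] : IsPGroup p (TL F K X) := by
  rintro ⟨g, f, rfl⟩
  refine ⟨1, ?_⟩
  apply Subtype.ext
  rw [pow_one, Subgroup.coe_pow, ← T_nsmul]
  have h : p • (f.restrictScalars F : X →ₗ[F] K) = 0 := by
    ext x
    rw [LinearMap.smul_apply, LinearMap.zero_apply, ← Nat.cast_smul_eq_nsmul F, CharP.cast_eq_zero, zero_smul]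
  rw [h, T_zero]
  rfl

/-- The pointwise stabiliser of `W = K × 0` in `H`. -/
def AA (H : Subgroup ((K × X) ≃ₗ[F] (K × X))) : Subgroup ((K × X) ≃ₗ[F] (K × X)) where
  carrier := {h | h ∈ H ∧ ∀ k : K, h (k, 0) = (k, 0)}
  mul_mem' := by
    rintro a b ⟨ha, ha'⟩ ⟨hb, hb'⟩
    refine ⟨H.mul_mem ha hb, fun k => ?_⟩
    rw [LinearEquiv.mul_apply, hb', ha']
  one_mem' := ⟨H.one_mem, fun k => rfl⟩
  inv_mem' := by
    rintro a ⟨ha, ha'⟩
    refine ⟨H.inv_mem ha, fun k => ?_⟩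
    conv_lhs => rw [← ha' k]
    exact LinearEquiv.symm_apply_apply a _

/-- The stabiliser of `(1, 0)` and `(c, 0)` in `H`. -/
def BB (H : Subgroup ((K × X) ≃ₗ[F] (K × X))) (c : K) : Subgroup ((K × X) ≃ₗ[F] (K × X)) where
  carrier := {h | h ∈ H ∧ h (1, 0) = (1, 0) ∧ h (c, 0) = (c, 0)}
  mul_mem' := by
    rintro a b ⟨ha, ha', ha''⟩ ⟨hb, hb', hb''⟩
    refine ⟨H.mul_mem ha hb, ?_, ?_⟩
    · rw [LinearEquiv.mul_apply, hb', ha']
    · rw [LinearEquiv.mul_apply, hb'', ha'']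
  one_mem' := ⟨H.one_mem, rfl, rfl⟩
  inv_mem' := by
    rintro a ⟨ha, ha', ha''⟩
    refine ⟨H.inv_mem ha, ?_, ?_⟩
    · conv_lhs => rw [← ha']
      exact LinearEquiv.symm_apply_apply a _
    · conv_lhs => rw [← ha'']
      exact LinearEquiv.symm_apply_apply a _

lemma TL_le_AA (hN : Good K H) : TL F K X ≤ AA H := by
  rintro _ ⟨f, rfl⟩
  exact ⟨lin_mem_RR hN f, fun k => by rw [T_apply]; simp⟩

lemma snd_eq_zero_of_fix {U : Subgroup ((K × X) ≃ₗ[F] (K × X))} (hU : TL F K X ≤ U) {v : K × X}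
    (hv : ∀ u ∈ U, u v = v) : v.2 = 0 := by
  by_contra h
  obtain ⟨φ, hφ⟩ := exists_dual_one K h
  have h1 := hv _ (hU ⟨φ, rfl⟩)
  rw [T_apply] at h1
  have h2 := congrArg Prod.fst h1
  simp [hφ] at h2

instance : Finite ((K × X) ≃ₗ[F] (K × X)) :=
  Finite.of_injective (fun g : (K × X) ≃ₗ[F] (K × X) => (g : (K × X) → (K × X))) DFunLike.coe_injective

variable {p : ℕ} [Fact p.Prime]

lemma maxP_BB (hN : Good K H) (hr : (finrank F K).Prime) (hB : ∀ y ∈ II H, ∀ k l : K, y (k * l) = k * y l)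
    {U : Subgroup ((K × X) ≃ₗ[F] (K × X))} (hTU : TL F K X ≤ U) (hU : MaxP p (AA H) U) {c : K}
    (hc : c ∉ Set.range (algebraMap F K)) : MaxP p (BB H c) U := by
  refine ⟨hU.1, fun u hu => ⟨(hU.2.1 hu).1, (hU.2.1 hu).2 1, (hU.2.1 hu).2 c⟩, fun Q hQ hQB hUQ => ?_⟩
  by_contra hne
  obtain ⟨g, hgQ, hgU, hnorm⟩ := norm_grow hQ (lt_of_le_of_ne hUQ (Ne.symm hne))
  obtain ⟨hgH, hg1, hgc⟩ := hQB hgQ
  have hW : ∀ k : K, (g (k, 0)).2 = 0 := by
    intro k
    apply snd_eq_zero_of_fix hTU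
    intro u hu
    have h1 : g⁻¹ * u * g ∈ U := by
      rw [hnorm]
      have : g * (g⁻¹ * u * g) * g⁻¹ = u := by group
      rw [this]
      exact hu
    have h2 := (hU.2.1 h1).2 k
    have h3 : u (g (k, 0)) = g ((g⁻¹ * u * g) (k, 0)) := by
      have : u * g = g * (g⁻¹ * u * g) := by group
      exact congrArg (fun t : (K × X) ≃ₗ[F] (K × X) => t (k, 0)) this
    rw [h3, h2]
  obtain ⟨σ, hσ⟩ := gal_of hN hr.two_le hB hgH hW hg1
  have hσc : σ c = c := by
    have := hσ c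
    rw [hgc] at this
    exact (congrArg Prod.fst this).symm
  have hgA : g ∈ AA H := ⟨hgH, fun k => by rw [hσ, eq_id_of_fix hr σ hc hσc]⟩
  have h4 := hU.2.2 (Q ⊓ AA H) (hQ.to_le inf_le_left) inf_le_right (le_inf hUQ hU.2.1)
  apply hgU
  rw [← h4]
  exact ⟨hgQ, hgA⟩

lemma same_orbit (hN : Good K H) (hr : (finrank F K).Prime) (hB : ∀ y ∈ II H, ∀ k l : K, y (k * l) = k * y l)
    {U : Subgroup ((K × X) ≃ₗ[F] (K × X))} (hTU : TL F K X ≤ U) (hU : MaxP p (AA H) U) {c c' : K}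
    (hc : c ∉ Set.range (algebraMap F K)) {h₀ : (K × X) ≃ₗ[F] (K × X)} (hh₀ : h₀ ∈ H) (h1 : h₀ (1, 0) = (1, 0))
    (h2 : h₀ (c, 0) = (c', 0)) : ∃ σ : K →ₐ[F] K, σ c = c' := by
  have hUc := maxP_BB hN hr hB hTU hU hc
  have hQ : IsPGroup p (U.map (MulAut.conj h₀⁻¹).toMonoidHom) := hU.1.map _
  have hQB : U.map (MulAut.conj h₀⁻¹).toMonoidHom ≤ BB H c := by
    rintro _ ⟨u, hu, rfl⟩
    obtain ⟨hu1, hu2⟩ := hU.2.1 hu
    have e : (MulAut.conj h₀⁻¹).toMonoidHom u = h₀⁻¹ * u * h₀ := by simp [MulAut.conj_apply]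
    rw [e]
    have hfix : ∀ v w : K × X, h₀ v = w → u w = w → (h₀⁻¹ * u * h₀) v = v := by
      intro v w hv hw
      rw [LinearEquiv.mul_apply, LinearEquiv.mul_apply, hv, hw, ← hv]
      exact LinearEquiv.symm_apply_apply h₀ _
    exact ⟨H.mul_mem (H.mul_mem (H.inv_mem hh₀) hu1) hh₀, hfix _ _ h1 (hu2 1), hfix _ _ h2 (hu2 c')⟩
  obtain ⟨b, hb, hbQ⟩ := maxP_conj hUc hQ hQB
  have hn : ∀ u ∈ U, (h₀ * b)⁻¹ * u * (h₀ * b) ∈ U := by
    intro u hu
    have h3 := hbQ (h₀⁻¹ * u * h₀) ⟨u, hu, by simp [MulAut.conj_apply]⟩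
    have h4 : (h₀ * b)⁻¹ * u * (h₀ * b) = b⁻¹ * (h₀⁻¹ * u * h₀) * b := by group
    rw [h4]
    exact h3
  obtain ⟨n, hn'⟩ : ∃ n, n = h₀ * b := ⟨_, rfl⟩
  rw [← hn'] at hn
  have hnH : n ∈ H := by rw [hn']; exact H.mul_mem hh₀ hb.1
  have hW : ∀ k : K, (n (k, 0)).2 = 0 := by
    intro k
    apply snd_eq_zero_of_fix hTU
    intro u hu
    have h2 := (hU.2.1 (hn u hu)).2 k
    have h3 : u (n (k, 0)) = n ((n⁻¹ * u * n) (k, 0)) := by
      have : u * n = n * (n⁻¹ * u * n) := by group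
      exact congrArg (fun t : (K × X) ≃ₗ[F] (K × X) => t (k, 0)) this
    rw [h3, h2]
  have hn1 : n (1, 0) = (1, 0) := by rw [hn', LinearEquiv.mul_apply, hb.2.1, h1]
  obtain ⟨σ, hσ⟩ := gal_of hN hr.two_le hB hnH hW hn1
  refine ⟨σ, ?_⟩
  have h5 := hσ c
  rw [hn', LinearEquiv.mul_apply, hb.2.2, h2] at h5
  exact (congrArg Prod.fst h5).symm

end caseB

end Cfsg.Agent.H98.Ext
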