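import Cfsg.Agent.H98.ExtC

set_option autoImplicit false
set_option linter.unusedSectionVars false
set_option linter.style.haveILetI false
set_option linter.unusedSimpArgs false

/-!
Overgroups of the group of semilinear maps, third part: counting orbits.
-/

namespace Cfsg.Agent.H98.Ext

open Module

section caseB

variable {F K X : Type*} [Field F] [Field K] [Algebra F K] [AddCommGroup X] [Module F X] [Module K X]
  [IsScalarTower F K X] [Finite K] [Finite X] {H : Subgroup ((K × X) ≃ₗ[F] (K × X))}

/-- If the orbit of `(c, 0)` under the stabiliser of `(1, 0)` stays in `W`, then `H` is semilinear. -/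
theorem semi_of_stay (hN : Good K H) [Nontrivial X] (hr : (finrank F K).Prime) {c : K}
    (hc : c ∉ Set.range (algebraMap F K)) (hst : ∀ g ∈ H, g (1, 0) = (1, 0) → (g (c, 0)).2 = 0) :
    ∀ g ∈ H, Semi K g := by
  have h1 : ∀ g ∈ H, ∀ w : K × X, ∃ d : K, g (c • w) = d • g w := by
    intro g hg w
    by_cases hw : w = 0
    · exact ⟨0, by rw [hw, smul_zero, map_zero, smul_zero]⟩
    have hgw : g w ≠ 0 := by
      intro h0
      exact hw (g.map_eq_zero_iff.1 h0)
    obtain ⟨s, hs, hs1⟩ := exists_lin_mem hN exists_notMem_span (one_zero_ne (K := K) (X := X)) hw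
    obtain ⟨t, ht, ht1⟩ := exists_lin_mem hN exists_notMem_span hgw (one_zero_ne (K := K) (X := X))
    have h2 := hst (t.restrictScalars F * g * s.restrictScalars F) (H.mul_mem (H.mul_mem ht hg) hs) (by
      rw [LinearEquiv.mul_apply, LinearEquiv.mul_apply]
      change t (g (s (1, 0))) = _
      rw [hs1, ht1])
    rw [LinearEquiv.mul_apply, LinearEquiv.mul_apply] at h2
    change (t (g (s (c, 0)))).2 = 0 at h2
    have h3 : ((c, 0) : K × X) = c • ((1, 0) : K × X) := by ext <;> simp
    rw [h3, map_smul s, hs1] at h2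
    refine ⟨(t (g (c • w))).1, ?_⟩
    apply t.injective
    rw [map_smul t, ht1]
    ext
    · simp
    · simp [h2]
  have : IsSimpleOrder (Subalgebra F K) := Subalgebra.isSimpleOrder_of_finrank_prime _ _ hr
  let S : Subalgebra F K :=
    { carrier := {k | ∀ g ∈ H, ∀ w : K × X, ∃ d : K, g (k • w) = d • g w}
      mul_mem' := by
        intro a b ha hb g hg w
        obtain ⟨d, hd⟩ := hb g hg w
        obtain ⟨d', hd'⟩ := ha g hg (b • w)
        exact ⟨d' * d, by rw [mul_smul, hd', hd, mul_smul]⟩
      add_mem' := by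
        intro a b ha hb g hg w
        obtain ⟨d, hd⟩ := hb g hg w
        obtain ⟨d', hd'⟩ := ha g hg w
        exact ⟨d' + d, by rw [add_smul, map_add, hd', hd, add_smul]⟩
      algebraMap_mem' := by
        intro a g hg w
        exact ⟨algebraMap F K a, by rw [algebraMap_smul, algebraMap_smul, map_smul]⟩ }
  have hS : S = ⊤ := by
    rcases this.eq_bot_or_eq_top S with h4 | h4
    · exfalso
      apply hc
      have h5 : c ∈ S := h1
      rw [h4, Algebra.mem_bot] at h5
      exact h5
    · exact h4
  have h2 : ∀ k : K, ∀ g ∈ H, ∀ w : K × X, ∃ d : K, g (k • w) = d • g w := by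
    intro k
    have : k ∈ S := by rw [hS]; trivial
    exact this
  intro g hg k
  choose d hd using h2 k g hg
  -- d is constant on independent pairs
  have hpair : ∀ v w : K × X, v ≠ 0 → w ∉ Submodule.span K {v} → d v = d w := by
    intro v w hv hw
    have e1 := hd (v + w)
    rw [smul_add, map_add, hd v, hd w, map_add, smul_add] at e1
    have e2 : (d v - d (v + w)) • g v + (d w - d (v + w)) • g w = 0 := by
      rw [sub_smul, sub_smul]
      have := sub_eq_zero.2 e1
      rw [← this]
      abel
    have hgv : g v ≠ 0 := by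
      intro h0
      exact hv (g.map_eq_zero_iff.1 h0)
    have e3 : d w - d (v + w) = 0 := by
      by_contra hne
      apply hw
      have e4 : g w = (-(d w - d (v + w))⁻¹ * (d v - d (v + w))) • g v := by
        have e5 : (d w - d (v + w)) • g w = -((d v - d (v + w)) • g v) := by
          rw [eq_neg_iff_add_eq_zero, add_comm]
          exact e2
        have e6 := congrArg (fun t => (d w - d (v + w))⁻¹ • t) e5
        simp only [smul_smul, inv_mul_cancel₀ hne, one_smul, smul_neg] at e6
        rw [e6, neg_mul, neg_smul]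
      obtain ⟨d', hd'⟩ := h2 (-(d w - d (v + w))⁻¹ * (d v - d (v + w))) g⁻¹ (H.inv_mem hg) (g v)
      rw [← e4] at hd'
      have e7 : g⁻¹ (g w) = w := LinearEquiv.symm_apply_apply g _
      have e8 : g⁻¹ (g v) = v := LinearEquiv.symm_apply_apply g _
      rw [e7, e8] at hd'
      rw [Submodule.mem_span_singleton]
      exact ⟨d', hd'.symm⟩
    rw [e3, zero_smul, add_zero] at e2
    rcases smul_eq_zero.1 e2 with e4 | e4
    · rw [sub_eq_zero] at e3 e4
      rw [e4, e3]
    · exact absurd e4 hgv
  refine ⟨d (1, 0), fun v => ?_⟩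
  rw [hd v]
  by_cases hv : v = 0
  · rw [hv, map_zero, smul_zero, smul_zero]
  by_cases hv' : v ∈ Submodule.span K {((1, 0) : K × X)}
  · obtain ⟨u, hu⟩ := exists_notMem_span (K := K) (X := X) (1, 0)
    have e1 := hpair (1, 0) u one_zero_ne hu
    have hu' : u ∉ Submodule.span K {v} := by
      intro h'
      obtain ⟨a, ha⟩ := Submodule.mem_span_singleton.1 h'
      apply hu
      rw [← ha]
      exact Submodule.smul_mem _ _ hv'
    rw [hpair v u hv hu', e1]
  · rw [hpair (1, 0) v one_zero_ne hv']

lemma exists_lin_pair {x₀ : X} (hx₀ : x₀ ≠ 0) {v : K × X} (hv : v.2 ≠ 0) :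
    ∃ e : (K × X) ≃ₗ[K] (K × X), e (1, 0) = (1, 0) ∧ e (0, x₀) = v := by
  obtain ⟨z, hz⟩ := exists_equiv_apply K hx₀ hv
  obtain ⟨φ, hφ⟩ := exists_dual_one K hv
  have h : ((v.1 • φ) ∘ₗ LinearMap.snd K K X) ((1, 0) : K × X) = 0 := by simp
  refine ⟨LinearEquiv.transvection h * (LinearEquiv.refl K K).prodCongr z, ?_, ?_⟩
  · rw [LinearEquiv.mul_apply, LinearEquiv.transvection.apply]
    simp
  · rw [LinearEquiv.mul_apply, LinearEquiv.transvection.apply]
    ext
    · simp [hz, hφ]
    · simp [hz]

/-- The counting argument. -/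
theorem count (hN : Good K H) [Nontrivial X] (hr : (finrank F K).Prime) [Finite F]
    (hB : ∀ y ∈ II H, ∀ k l : K, y (k * l) = k * y l)
    (hmove : ∀ c : K, c ∉ Set.range (algebraMap F K) → ∃ g ∈ H, g (1, 0) = (1, 0) ∧ (g (c, 0)).2 ≠ 0) :
    Nat.card K ≤ Nat.card F + finrank F K * (Nat.card F - 1) := by
  classical
  have : FiniteDimensional F K := Module.Finite.of_finite
  have hfF := Fintype.ofFinite F
  have hfK := Fintype.ofFinite K
  obtain ⟨p, hp⟩ := CharP.exists F
  have hpp : Fact p.Prime := ⟨(CharP.char_is_prime_or_zero F p).resolve_right (by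
    rintro rfl
    have := CharP.charP_to_charZero F
    exact (not_injective_infinite_finite (Nat.cast : ℕ → F)) Nat.cast_injective)⟩
  obtain ⟨U, hTU, hU⟩ := exists_maxP (p := p) (isPGroup_TL p) (TL_le_AA hN)
  obtain ⟨x₀, hx₀⟩ := exists_ne (0 : X)
  choose! g hgH hg1 hgc using hmove
  have he : ∀ c : K, ∃ e : (K × X) ≃ₗ[K] (K × X), c ∉ Set.range (algebraMap F K) →
      e (1, 0) = (1, 0) ∧ e (0, x₀) = g c (c, 0) := by
    intro c
    by_cases hc : c ∉ Set.range (algebraMap F K)
    · obtain ⟨e, h1, h2⟩ := exists_lin_pair hx₀ (hgc c hc)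
      exact ⟨e, fun _ => ⟨h1, h2⟩⟩
    · exact ⟨1, fun h => absurd h hc⟩
  choose e he using he
  let S : Finset K := Finset.univ.filter (fun c => c ∉ Set.range (algebraMap F K))
  let D : K → Fˣ := fun c => LinearEquiv.det ((e c).restrictScalars F)
  have hfib : ∀ b ∈ (Finset.univ : Finset Fˣ), (S.filter (fun c => D c = b)).card ≤ finrank F K := by
    intro b _
    rcases (S.filter (fun c => D c = b)).eq_empty_or_nonempty with h0 | ⟨c, hc⟩
    · rw [h0]; simp
    · have hcS : c ∉ Set.range (algebraMap F K) := (Finset.mem_filter.1 (Finset.mem_filter.1 hc).1).2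
      have hDc : D c = b := (Finset.mem_filter.1 hc).2
      have hsub : S.filter (fun c => D c = b) ⊆ Finset.univ.image (fun σ : K →ₐ[F] K => σ c) := by
        intro c' hc'
        have hcS' : c' ∉ Set.range (algebraMap F K) := (Finset.mem_filter.1 (Finset.mem_filter.1 hc').1).2
        have hDc' : D c' = b := (Finset.mem_filter.1 hc').2
        rw [Finset.mem_image]
        have hd : (e c' * (e c)⁻¹).restrictScalars F ∈ H := by
          refine hN _ (semi_of_lin _) 1 H.one_mem ?_
          have e1 : (e c' * (e c)⁻¹).restrictScalars F = (e c').restrictScalars F * ((e c).restrictScalars F)⁻¹ := rfl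
          rw [e1, map_one, map_mul, map_inv]
          change 1 = D c' * (D c)⁻¹
          rw [hDc, hDc', mul_inv_cancel]
        have hfix : ∀ a : K, a ∉ Set.range (algebraMap F K) → (g a)⁻¹ (1, 0) = (1, 0) ∧
            (g a)⁻¹ (e a (0, x₀)) = (a, 0) := by
          intro a ha
          constructor
          · conv_lhs => rw [← hg1 a ha]
            exact LinearEquiv.symm_apply_apply (g a) _
          · rw [(he a ha).2]
            exact LinearEquiv.symm_apply_apply (g a) _
        have hei : (e c)⁻¹ (1, 0) = (1, 0) := by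
          conv_lhs => rw [← (he c hcS).1]
          exact LinearEquiv.symm_apply_apply (e c) _
        have hei' : (e c)⁻¹ (g c (c, 0)) = (0, x₀) := by
          rw [← (he c hcS).2]
          exact LinearEquiv.symm_apply_apply (e c) _
        obtain ⟨σ, hσ⟩ := same_orbit (p := p) hN hr hB hTU hU hcS
          (h₀ := (g c')⁻¹ * (e c' * (e c)⁻¹).restrictScalars F * g c)
          (H.mul_mem (H.mul_mem (H.inv_mem (hgH c' hcS')) hd) (hgH c hcS)) (c' := c')
          (by
            rw [LinearEquiv.mul_apply, LinearEquiv.mul_apply, hg1 c hcS]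
            change (g c')⁻¹ (e c' ((e c)⁻¹ (1, 0))) = _
            rw [hei, (he c' hcS').1, (hfix c' hcS').1])
          (by
            rw [LinearEquiv.mul_apply, LinearEquiv.mul_apply]
            change (g c')⁻¹ (e c' ((e c)⁻¹ (g c (c, 0)))) = _
            rw [hei', (hfix c' hcS').2])
        exact ⟨σ, Finset.mem_univ _, hσ⟩
      calc (S.filter (fun c => D c = b)).card ≤ (Finset.univ.image (fun σ : K →ₐ[F] K => σ c)).card :=
            Finset.card_le_card hsub
        _ ≤ Fintype.card (K →ₐ[F] K) := Finset.card_image_le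
        _ ≤ finrank F K := AlgHom.card_le
  have h1 : S.card ≤ finrank F K * (Finset.univ : Finset Fˣ).card :=
    Finset.card_le_mul_card_image_of_maps_to (fun c _ => Finset.mem_univ (D c)) _ hfib
  have h2 : (Finset.univ : Finset Fˣ).card = Nat.card F - 1 := by
    rw [Finset.card_univ, ← Nat.card_eq_fintype_card, Nat.card_units]
  have h3 : Nat.card K ≤ Nat.card F + S.card := by
    rw [Nat.card_eq_fintype_card, Nat.card_eq_fintype_card]
    have h4 : (Finset.univ : Finset K) ⊆ (Finset.univ.image (algebraMap F K)) ∪ S := by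
      intro k _
      by_cases hk : k ∈ Set.range (algebraMap F K)
      · obtain ⟨a, ha⟩ := hk
        exact Finset.mem_union_left _ (Finset.mem_image.2 ⟨a, Finset.mem_univ _, ha⟩)
      · exact Finset.mem_union_right _ (Finset.mem_filter.2 ⟨Finset.mem_univ _, hk⟩)
    calc Fintype.card K = (Finset.univ : Finset K).card := rfl
      _ ≤ _ := Finset.card_le_card h4
      _ ≤ _ := Finset.card_union_le _ _
      _ ≤ Fintype.card F + S.card := Nat.add_le_add_right Finset.card_image_le _
  rw [h2] at h1
  omega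

lemma arith {q r : ℕ} (hq : 2 ≤ q) (hr : 2 ≤ r) (h : q ^ r ≤ q + r * (q - 1)) : q = 2 ∧ r = 2 := by
  obtain ⟨a, rfl⟩ : ∃ a, q = a + 2 := ⟨q - 2, by omega⟩
  obtain ⟨b, rfl⟩ : ∃ b, r = b + 2 := ⟨r - 2, by omega⟩
  have h1 : 1 + (b + 1) * (a + 1) ≤ (a + 2) ^ (b + 1) := by
    have h2 : ∀ n : ℕ, 1 + n * (a + 1) ≤ (a + 2) ^ n := by
      intro n
      induction n with
      | zero => simp
      | succ n ih =>
        calc 1 + (n + 1) * (a + 1) ≤ (1 + n * (a + 1)) * (a + 2) := by nlinarith [Nat.zero_le (n * (a + 1) * (a + 1))]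
          _ ≤ (a + 2) ^ n * (a + 2) := Nat.mul_le_mul ih le_rfl
          _ = (a + 2) ^ (n + 1) := (pow_succ _ _).symm
    exact h2 _
  have h3 : (a + 2) ^ (b + 2) = (a + 2) * (a + 2) ^ (b + 1) := by rw [pow_succ]; ring
  have h4 : a + 2 - 1 = a + 1 := by omega
  rw [h3, h4] at h
  have h5 : (a + 2) * (1 + (b + 1) * (a + 1)) ≤ a + 2 + (b + 2) * (a + 1) := (Nat.mul_le_mul le_rfl h1).trans h
  have h6 : (a + 2) * (b + 1) * (a + 1) ≤ (b + 2) * (a + 1) := by nlinarith
  have h7 : (a + 2) * (b + 1) ≤ b + 2 := Nat.le_of_mul_le_mul_right h6 (by omega)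
  constructor
  · nlinarith
  · nlinarith

end caseB

end Cfsg.Agent.H98.Ext
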