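import Cfsg.Agent.H98.ExtD

set_option autoImplicit false
set_option linter.unusedSectionVars false
set_option linter.style.haveILetI false
set_option linter.unusedSimpArgs false

/-!
Overgroups of the group of semilinear maps, fourth part: the fields of order two and four.
-/

namespace Cfsg.Agent.H98.Ext

open Module

/-- Data for the small case: `F` has two elements, `K` has four. -/
structure Small (F K : Type*) [Field F] [Field K] [Algebra F K] (w : K) : Prop where
  two : (1 : K) + 1 = 0
  sq : w * w = w + 1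
  all : ∀ k : K, k = 0 ∨ k = 1 ∨ k = w ∨ k = w + 1
  allF : ∀ c : F, c = 0 ∨ c = 1
  ne0 : w ≠ 0
  ne1 : w ≠ 1
  nr : w ∉ Set.range (algebraMap F K)

section small

variable {F K : Type*} [Field F] [Field K] [Algebra F K]

lemma exists_small [Finite K] [Finite F] (hF : Nat.card F = 2) (hr : finrank F K = 2) : ∃ w : K, Small F K w := by
  classical
  have hfF := Fintype.ofFinite F
  have hfK := Fintype.ofFinite K
  have hK : Fintype.card K = 4 := by
    rw [← Nat.card_eq_fintype_card, Module.natCard_eq_pow_finrank (K := F), hF, hr]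
    norm_num
  have hF' : Fintype.card F = 2 := by rw [← Nat.card_eq_fintype_card, hF]
  have allF : ∀ c : F, c = 0 ∨ c = 1 := by
    have h1 : ({0, 1} : Finset F) = Finset.univ := by
      apply Finset.eq_univ_of_card
      rw [hF', Finset.card_pair zero_ne_one]
    intro c
    have : c ∈ ({0, 1} : Finset F) := by rw [h1]; exact Finset.mem_univ _
    simpa using this
  have twoF : (1 : F) + 1 = 0 := by
    rcases allF (1 + 1) with h | h
    · exact h
    · exfalso
      have : (1 : F) = 0 := by linear_combination h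
      exact one_ne_zero this
  have two : (1 : K) + 1 = 0 := by
    have := congrArg (algebraMap F K) twoF
    rwa [map_add, map_one, map_zero] at this
  have hex : ∃ w : K, w ∉ ({0, 1} : Finset K) := by
    by_contra hcon
    push Not at hcon
    have h1 : (Finset.univ : Finset K) ⊆ {0, 1} := fun k _ => hcon k
    have h2 := Finset.card_le_card h1
    rw [Finset.card_univ, hK] at h2
    have h3 := Finset.card_le_two (a := (0 : K)) (b := 1)
    omega
  obtain ⟨w, hw⟩ := hex
  simp only [Finset.mem_insert, Finset.mem_singleton, not_or] at hw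
  obtain ⟨hw0, hw1⟩ := hw
  have hw2 : w + 1 ≠ 0 := by
    intro h
    apply hw1
    linear_combination h - two
  have all : ∀ k : K, k = 0 ∨ k = 1 ∨ k = w ∨ k = w + 1 := by
    have h1 : ({0, 1, w, w + 1} : Finset K) = Finset.univ := by
      apply Finset.eq_univ_of_card
      rw [hK, Finset.card_insert_of_notMem, Finset.card_insert_of_notMem, Finset.card_pair]
      · simp
      · simp [hw0, Ne.symm hw1]
      · simp [Ne.symm hw0, Ne.symm hw2]
    intro k
    have : k ∈ ({0, 1, w, w + 1} : Finset K) := by rw [h1]; exact Finset.mem_univ _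
    simpa using this
  refine ⟨w, two, ?_, all, allF, hw0, hw1, ?_⟩
  · rcases all (w * w) with h | h | h | h
    · exact absurd (mul_self_eq_zero.1 h) hw0
    · exfalso
      have h1 : (w + 1) * (w + 1) = 0 := by linear_combination h + (w + 1) * two
      exact hw2 (mul_self_eq_zero.1 h1)
    · exfalso
      have h1 : w * (w + 1) = 0 := by linear_combination h + w * two
      rcases mul_eq_zero.1 h1 with h2 | h2
      · exact hw0 h2
      · exact hw2 h2
    · exact h
  · rintro ⟨c, hc⟩
    rcases allF c with h | h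
    · rw [h, map_zero] at hc
      exact hw0 hc.symm
    · rw [h, map_one] at hc
      exact hw1 hc.symm

variable {w : K} (S : Small F K w)
include S

lemma Small.mul_self_mul_self (k : K) : (k * k) * (k * k) = k := by
  rcases S.all k with h | h | h | h
  · rw [h]; ring
  · rw [h]; ring
  · rw [h, S.sq]; linear_combination S.sq + w * S.two + S.two
  · have h1 : (w + 1) * (w + 1) = w := by linear_combination S.sq + w * S.two + S.two
    rw [h, h1, S.sq]

lemma Small.add_self (k : K) : k + k = 0 := by linear_combination k * S.two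

lemma Small.fixed {k : K} (h : k * k = k) : k = 0 ∨ k = 1 := by
  have h1 : k * (k - 1) = 0 := by linear_combination h
  rcases mul_eq_zero.1 h1 with h2 | h2
  · exact Or.inl h2
  · exact Or.inr (by linear_combination h2)

/-- The Frobenius map as an `F`-linear equivalence. -/
def Small.frob : K ≃ₗ[F] K where
  toFun k := k * k
  map_add' a b := by linear_combination a * b * S.two
  map_smul' c k := by
    rcases S.allF c with h | h
    · simp [h]
    · simp [h]
  invFun k := k * k
  left_inv k := S.mul_self_mul_self k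
  right_inv k := S.mul_self_mul_self k

lemma Small.frob_apply (k : K) : S.frob k = k * k := rfl

lemma Small.units_eq (a b : Fˣ) : a = b := by
  apply Units.ext
  rcases S.allF a with h | h
  · exact absurd h a.ne_zero
  · rcases S.allF b with h' | h'
    · exact absurd h' b.ne_zero
    · rw [h, h']

lemma Small.semi_mem {V : Type*} [AddCommGroup V] [Module F V] [Module K V] {H : Subgroup (V ≃ₗ[F] V)}
    (hN : Good K H) (d : V ≃ₗ[F] V) (hd : Semi K d) : d ∈ H :=
  hN d hd 1 H.one_mem (S.units_eq _ _)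

end small

section smallB

variable {F K X : Type*} [Field F] [Field K] [Algebra F K] [AddCommGroup X] [Module F X] [Module K X]
  [IsScalarTower F K X] {H : Subgroup ((K × X) ≃ₗ[F] (K × X))} {w : K}

lemma exists_dual_move {g₁ g₂ : X →ₗ[K] K} (h1 : g₁ ≠ 0) (h2 : g₂ ≠ 0) : ∃ z : X ≃ₗ[K] X, ∀ x, g₁ (z x) = g₂ x := by
  have hu : ∃ u, g₁ u = 1 ∧ g₂ u ≠ 0 := by
    have key : ∃ u, g₁ u ≠ 0 ∧ g₂ u ≠ 0 := by
      obtain ⟨u₁, hu₁⟩ : ∃ u, g₁ u ≠ 0 := by
        by_contra hcon
        push Not at hcon
        exact h1 (LinearMap.ext hcon)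
      obtain ⟨u₂, hu₂⟩ : ∃ u, g₂ u ≠ 0 := by
        by_contra hcon
        push Not at hcon
        exact h2 (LinearMap.ext hcon)
      by_cases h3 : g₂ u₁ = 0
      · by_cases h4 : g₁ u₂ = 0
        · exact ⟨u₁ + u₂, by rw [map_add, h4, add_zero]; exact hu₁, by rw [map_add, h3, zero_add]; exact hu₂⟩
        · exact ⟨u₂, h4, hu₂⟩
      · exact ⟨u₁, hu₁, h3⟩
    obtain ⟨u, hu1, hu2⟩ := key
    exact ⟨(g₁ u)⁻¹ • u, by rw [map_smul, smul_eq_mul, inv_mul_cancel₀ hu1], by
      rw [map_smul, smul_eq_mul]
      exact mul_ne_zero (inv_ne_zero hu1) hu2⟩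
  obtain ⟨u, hu1, hu2⟩ := hu
  have h : IsUnit (1 + (g₂ - g₁) u) := by
    rw [LinearMap.sub_apply, hu1]
    simpa using hu2
  refine ⟨LinearEquiv.dilatransvection h, fun x => ?_⟩
  rw [LinearEquiv.dilatransvection.apply, map_add, map_smul, hu1]
  simp

/-- In the small case, `RR H` consists of `K`-linear maps, unless the idealiser is large. -/
lemma small_RR (S : Small F K w) (hN : Good K H) [Finite K] [Finite X] (hr : 2 ≤ finrank F K)
    (hB : ∀ y ∈ II H, ∀ k l : K, y (k * l) = k * y l) {f : X →ₗ[F] K} (hf : f ∈ RR H) (k : K) (x : X) :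
    f (k • x) = k * f x := by
  by_contra hcon
  -- right stability
  have hright : ∀ (f : X →ₗ[F] K) (hf : f ∈ RR H) (z : X ≃ₗ[K] X),
      f ∘ₗ ((z.restrictScalars F : X ≃ₗ[F] X) : X →ₗ[F] X) ∈ RR H := by
    intro f hf z
    have hD : ((LinearEquiv.refl K K).prodCongr z).restrictScalars F ∈ H := S.semi_mem hN _ (semi_of_lin _)
    have key : T (f ∘ₗ ((z.restrictScalars F : X ≃ₗ[F] X) : X →ₗ[F] X)) =
        (((LinearEquiv.refl K K).prodCongr z).restrictScalars F)⁻¹ * T f *
          (((LinearEquiv.refl K K).prodCongr z).restrictScalars F) := by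
      rw [mul_assoc, eq_inv_mul_iff_mul_eq]
      apply LinearEquiv.ext
      intro v
      rfl
    rw [mem_RR, key]
    exact H.mul_mem (H.mul_mem (H.inv_mem hD) hf) hD
  have hwu : w ≠ 0 := S.ne0
  -- decomposition of F-linear maps
  have hdec : ∀ f : X →ₗ[F] K, f ∈ RR H → ∃ f₁ ∈ RR H, (∀ x, f₁ x = f (w • x) + w * f x) ∧
      ∀ x, f₁ (w • x) = (w + 1) * f₁ x := by
    intro f hf
    refine ⟨f ∘ₗ (((LinearEquiv.smulOfNeZero K X w hwu).restrictScalars F : X ≃ₗ[F] X) : X →ₗ[F] X) + w • f,
      (RR H).add_mem (hright f hf _) (smul_mem_RR hN hr w hf), fun x => rfl, fun x => ?_⟩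
    change f (w • w • x) + w * f (w • x) = (w + 1) * (f (w • x) + w * f x)
    have h1 : w • w • x = w • x + x := by rw [smul_smul, S.sq, add_smul, one_smul]
    rw [h1, map_add]
    linear_combination -(f x) * S.sq - (f x * w) * S.two
  have hlin_of : ∀ g : X →ₗ[F] K, (∀ x, g (w • x) = w * g x) → ∀ (k : K) (x : X), g (k • x) = k * g x := by
    intro g hg k x
    rcases S.all k with h | h | h | h
    · rw [h]; simp
    · rw [h]; simp
    · rw [h, hg]
    · rw [h, add_smul, one_smul, map_add, hg]; ring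
  have hsemi_of : ∀ g : X →ₗ[F] K, (∀ x, g (w • x) = (w + 1) * g x) → ∀ (k : K) (x : X), g (k • x) = k * k * g x := by
    intro g hg k x
    rcases S.all k with h | h | h | h
    · rw [h]; simp
    · rw [h]; simp
    · rw [h, hg, S.sq]
    · have h1 : (w + 1) * (w + 1) = w := by linear_combination S.sq + w * S.two + S.two
      rw [h, add_smul, one_smul, map_add, hg, h1]
      linear_combination (g x) * S.two
  obtain ⟨f₁, hf₁, hf₁1, hf₁2⟩ := hdec f hf
  have hf₁0 : f₁ ≠ 0 := by
    intro h0
    apply hcon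
    apply hlin_of
    intro x
    have h1 := hf₁1 x
    rw [h0, LinearMap.zero_apply] at h1
    linear_combination -h1 - (w * f x) * S.two
  -- linear functional attached to a semilinear one
  have hlinear : ∀ g : X →ₗ[F] K, (∀ x, g (w • x) = (w + 1) * g x) → ∃ g' : X →ₗ[K] K, ∀ x, g' x = g x * g x := by
    intro g hg
    refine ⟨{ toFun := fun x => g x * g x, map_add' := ?_, map_smul' := ?_ }, fun x => rfl⟩
    · intro x y
      rw [map_add]
      linear_combination (g x * g y) * S.two
    · intro k x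
      rw [hsemi_of g hg, RingHom.id_apply, smul_eq_mul]
      have := S.mul_self_mul_self k
      linear_combination (g x * g x) * this
  obtain ⟨g₁, hg₁⟩ := hlinear f₁ hf₁2
  have hg₁0 : g₁ ≠ 0 := by
    intro h0
    apply hf₁0
    ext x
    have h1 := hg₁ x
    rw [h0, LinearMap.zero_apply] at h1
    exact mul_self_eq_zero.1 h1.symm
  -- all frobenius twists of linear functionals are in RR
  have hfrob : ∀ g : X →ₗ[K] K, (S.frob : K →ₗ[F] K) ∘ₗ g.restrictScalars F ∈ RR H := by
    intro g
    by_cases hg0 : g = 0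
    · have : (S.frob : K →ₗ[F] K) ∘ₗ g.restrictScalars F = 0 := by
        ext x
        simp [hg0]
      rw [this]
      exact (RR H).zero_mem
    · obtain ⟨z, hz⟩ := exists_dual_move hg₁0 hg0
      have h1 := hright f₁ hf₁ z
      have h2 : (S.frob : K →ₗ[F] K) ∘ₗ g.restrictScalars F =
          f₁ ∘ₗ ((z.restrictScalars F : X ≃ₗ[F] X) : X →ₗ[F] X) := by
        ext x
        change g x * g x = f₁ (z x)
        rw [← hz, hg₁, S.mul_self_mul_self]
      rw [h2]
      exact h1
  -- the Frobenius is in the idealiser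
  have hII : (S.frob : K →ₗ[F] K) ∈ II H := by
    intro g hg
    obtain ⟨gs, hgs, hgs1, hgs2⟩ := hdec g hg
    obtain ⟨g', hg'⟩ := hlinear gs hgs2
    have hl : ∀ x, (g + gs) (w • x) = w * (g + gs) x := by
      intro x
      rw [LinearMap.add_apply, LinearMap.add_apply, hgs2, hgs1]
      linear_combination (g (w • x)) * S.two
    obtain ⟨gl, hgl⟩ : ∃ gl : X →ₗ[K] K, ∀ x, gl x = (g + gs) x :=
      ⟨{ toFun := fun x => (g + gs) x, map_add' := fun x y => map_add _ _ _,
         map_smul' := fun k x => hlin_of _ hl k x }, fun x => rfl⟩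
    have h1 : (S.frob : K →ₗ[F] K) ∘ₗ g = (S.frob : K →ₗ[F] K) ∘ₗ gl.restrictScalars F + g'.restrictScalars F := by
      ext x
      change g x * g x = gl x * gl x + g' x
      rw [hgl, hg', LinearMap.add_apply]
      linear_combination -(g x * gs x + gs x * gs x) * S.two
    rw [h1]
    exact (RR H).add_mem (hfrob gl) (lin_mem_RR hN g')
  have h1 := hB _ hII w 1
  change w * 1 * (w * 1) = w * (1 * 1) at h1
  have h2 : w * w = w := by linear_combination h1
  rcases S.fixed h2 with h | h
  · exact S.ne0 h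
  · exact S.ne1 h

/-- In the small case, elements of `H` fixing `W` pointwise are `K`-linear. -/
lemma small_AA (S : Small F K w) (hN : Good K H) [Finite K] [Finite X]
    (hRR : ∀ f ∈ RR H, ∀ (k : K) (x : X), f (k • x) = k * f x) {h : (K × X) ≃ₗ[F] (K × X)}
    (hh : h ∈ H) (hW : ∀ k : K, h (k, 0) = (k, 0)) (k : K) (v : K × X) : h (k • v) = k • h v := by
  obtain ⟨y, hy⟩ : ∃ y : X →ₗ[F] K, ∀ x, y x = (h (0, x)).1 :=
    ⟨LinearMap.fst F K X ∘ₗ (h : (K × X) →ₗ[F] (K × X)) ∘ₗ LinearMap.inr F K X, fun k => rfl⟩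
  obtain ⟨z, hz⟩ : ∃ z : X →ₗ[F] X, ∀ x, z x = (h (0, x)).2 :=
    ⟨LinearMap.snd F K X ∘ₗ (h : (K × X) →ₗ[F] (K × X)) ∘ₗ LinearMap.inr F K X, fun k => rfl⟩
  have hv : ∀ (l : K) (x : X), h (l, x) = (l + y x, z x) := by
    intro l x
    rw [split_apply, hW, hy, hz]
    ext <;> simp
  have hTz : ∀ f ∈ RR H, f ∘ₗ z ∈ RR H := by
    intro f hf
    have key : T (f ∘ₗ z) = h⁻¹ * T f * h := by
      rw [mul_assoc, eq_inv_mul_iff_mul_eq]
      apply LinearEquiv.ext
      rintro ⟨l, x⟩
      rw [LinearEquiv.mul_apply, LinearEquiv.mul_apply, T_apply, T_apply, hv, hv]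
      ext <;> simp
      ring
    rw [mem_RR, key]
    exact H.mul_mem (H.mul_mem (H.inv_mem hh) hf) hh
  have hzK : ∀ (k : K) (x : X), z (k • x) = k • z x := by
    intro k x
    by_contra hne
    obtain ⟨φ, hφ⟩ := exists_dual_one K (sub_ne_zero.2 hne)
    have h1 := hRR _ (hTz _ (lin_mem_RR hN φ)) k x
    change φ (z (k • x)) = k * φ (z x) at h1
    rw [map_sub, map_smul φ, h1, smul_eq_mul, sub_self] at hφ
    exact zero_ne_one hφ
  let zK : X →ₗ[K] X := { toFun := z, map_add' := map_add z, map_smul' := hzK }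
  have hinj : Function.Injective zK := by
    rw [injective_iff_map_eq_zero]
    intro x hx
    have hx' : z x = 0 := hx
    have h1 : h (-(y x), x) = 0 := by
      rw [hv, hx', neg_add_cancel]
      rfl
    have h2 := h.map_eq_zero_iff.1 h1
    exact congrArg Prod.snd h2
  have : FiniteDimensional K X := Module.Finite.of_finite
  let ze := LinearEquiv.ofInjectiveEndo zK hinj
  have hD : ((LinearEquiv.refl K K).prodCongr ze).restrictScalars F ∈ H := S.semi_mem hN _ (semi_of_lin _)
  have hT : T y ∈ H := by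
    have key : T y = (((LinearEquiv.refl K K).prodCongr ze).restrictScalars F)⁻¹ * h := by
      rw [eq_inv_mul_iff_mul_eq]
      apply LinearEquiv.ext
      rintro ⟨l, x⟩
      rw [hv]
      rfl
    rw [key]
    exact H.mul_mem (H.inv_mem hD) hh
  have hyK := hRR y hT
  obtain ⟨l, x⟩ := v
  rw [Prod.smul_mk, hv, hv, hyK, hzK]
  ext <;> simp
  ring

end smallB

end Cfsg.Agent.H98.Ext
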