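import Cfsg.Agent.H98.ExtE

set_option autoImplicit false
set_option linter.unusedSectionVars false
set_option linter.style.haveILetI false
set_option linter.unusedSimpArgs false

/-!
Overgroups of the group of semilinear maps, fifth part: end of the small case.
-/

namespace Cfsg.Agent.H98.Ext

open Module

section smallF

variable {F K : Type*} [Field F] [Field K] [Algebra F K] {w : K}

/-- `h ∈ H` fixing a `K`-line pointwise is `K`-linear. -/
lemma small_line {X : Type*} [AddCommGroup X] [Module F X] [Module K X] [IsScalarTower F K X] [Finite K] [Finite X]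
    [Nontrivial X]
    {H : Subgroup ((K × X) ≃ₗ[F] (K × X))} (S : Small F K w) (hN : Good K H)
    (hRR : ∀ f ∈ RR H, ∀ (k : K) (x : X), f (k • x) = k * f x) {h : (K × X) ≃ₗ[F] (K × X)}
    (hh : h ∈ H) {q : K × X} (hq : q ≠ 0) (h1 : h q = q) (h2 : h (w • q) = w • q) (k : K) (v : K × X) :
    h (k • v) = k • h v := by
  obtain ⟨s, hs, hs1⟩ := exists_lin_mem hN exists_notMem_span (one_zero_ne (K := K) (X := X)) hq
  have hW : ∀ k : K, h (k • q) = k • q := by
    intro k
    rcases S.all k with e | e | e | e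
    · rw [e, zero_smul, map_zero]
    · rw [e, one_smul, h1]
    · rw [e, h2]
    · rw [e, add_smul, one_smul, map_add, h1, h2]
  have hsymm : ∀ u, (s.restrictScalars F)⁻¹ (s u) = u := fun u => LinearEquiv.symm_apply_apply s u
  have hc := small_AA S hN hRR (h := (s.restrictScalars F)⁻¹ * h * s.restrictScalars F)
    (H.mul_mem (H.mul_mem (H.inv_mem hs) hh) hs) (fun k => by
      rw [LinearEquiv.mul_apply, LinearEquiv.mul_apply]
      change (s.restrictScalars F)⁻¹ (h (s (k, 0))) = _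
      have e : ((k, 0) : K × X) = k • ((1, 0) : K × X) := by ext <;> simp
      rw [e, map_smul s, hs1, hW, ← hs1, ← map_smul s, hsymm])
  have h3 := hc k (s.symm v)
  rw [LinearEquiv.mul_apply, LinearEquiv.mul_apply, LinearEquiv.mul_apply, LinearEquiv.mul_apply] at h3
  change (s.restrictScalars F)⁻¹ (h (s (k • s.symm v))) = k • (s.restrictScalars F)⁻¹ (h (s (s.symm v))) at h3
  rw [map_smul s, LinearEquiv.apply_symm_apply] at h3
  have h4 := congrArg s h3
  have h5 : ∀ u, s ((s.restrictScalars F)⁻¹ u) = u := fun u => LinearEquiv.apply_symm_apply s u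
  rw [map_smul s, h5, h5] at h4
  exact h4

/-- The small case in dimension at least three is impossible. -/
theorem small_big {m : ℕ} {H : Subgroup ((K × (Fin (m + 2) → K)) ≃ₗ[F] (K × (Fin (m + 2) → K)))} [Finite K]
    (S : Small F K w) (hN : Good K H)
    (hRR : ∀ f ∈ RR H, ∀ (k : K) (x : Fin (m + 2) → K), f (k • x) = k * f x)
    (hmove : ∃ g ∈ H, g (1, 0) = (1, 0) ∧ (g (w, 0)).2 ≠ 0) : False := by
  classical
  obtain ⟨g₁, hg₁, h1, h2⟩ := hmove
  have hx₁ : (Pi.single 0 1 : Fin (m + 2) → K) ≠ 0 := by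
    intro h0
    have := congrFun h0 0
    simp at this
  obtain ⟨e, he1, he2⟩ := exists_lin_pair hx₁ h2
  have heH : e.restrictScalars F ∈ H := S.semi_mem hN _ (semi_of_lin _)
  have hsymm : ∀ u, (e.restrictScalars F)⁻¹ (e u) = u := fun u => LinearEquiv.symm_apply_apply e u
  obtain ⟨g, hg⟩ : ∃ g, g = (e.restrictScalars F)⁻¹ * g₁ := ⟨_, rfl⟩
  have hgH : g ∈ H := by rw [hg]; exact H.mul_mem (H.inv_mem heH) hg₁
  have hg1 : g (1, 0) = (1, 0) := by
    rw [hg, LinearEquiv.mul_apply, h1]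
    conv_lhs => rw [← he1]
    exact hsymm _
  have hgw : g (w, 0) = (0, Pi.single 0 1) := by
    rw [hg, LinearEquiv.mul_apply, ← he2, hsymm]
  -- preimage of the second basis vector
  obtain ⟨u, hu⟩ : ∃ u, g u = (0, Pi.single 1 1) := ⟨g.symm (0, Pi.single 1 1), LinearEquiv.apply_symm_apply _ _⟩
  have hgk : ∀ k : K, g (k, 0) = (0, 0) ∨ g (k, 0) = (1, 0) ∨ g (k, 0) = (0, Pi.single 0 1) ∨
      g (k, 0) = (1, Pi.single 0 1) := by
    intro k
    rcases S.all k with h | h | h | h
    · left; rw [h]; exact map_zero g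
    · right; left; rw [h, hg1]
    · right; right; left; rw [h, hgw]
    · right; right; right
      have e : ((w + 1, 0) : K × (Fin (m + 2) → K)) = (w, 0) + (1, 0) := by simp
      rw [h, e, map_add, hg1, hgw]
      simp
  have hu2 : u.2 ≠ 0 := by
    intro h0
    have e : u = (u.1, 0) := Prod.ext rfl h0
    have h3 := hgk u.1
    rw [← e, hu] at h3
    have key : ∀ y : Fin (m + 2) → K, y = 0 ∨ y = Pi.single 0 1 → (Pi.single 1 1 : Fin (m + 2) → K) = y → False := by
      intro y hy h4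
      have h5 := congrFun h4 1
      rcases hy with hy | hy
      · rw [hy] at h5; simp at h5
      · rw [hy] at h5
        simp at h5
    rcases h3 with h3 | h3 | h3 | h3
    · exact key _ (Or.inl rfl) (congrArg Prod.snd h3)
    · exact key _ (Or.inl rfl) (congrArg Prod.snd h3)
    · exact key _ (Or.inr rfl) (congrArg Prod.snd h3)
    · exact key _ (Or.inr rfl) (congrArg Prod.snd h3)
  -- everything semilinear fixing the three vectors fixes g (w • u)
  have hfix : ∀ t : (K × (Fin (m + 2) → K)) ≃ₗ[F] (K × (Fin (m + 2) → K)), Semi K t → t (1, 0) = (1, 0) →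
      t (0, Pi.single 0 1) = (0, Pi.single 0 1) → t (0, Pi.single 1 1) = (0, Pi.single 1 1) →
      t (g (w • u)) = g (w • u) := by
    intro t ht ht1 ht2 ht3
    have htH : t ∈ H := S.semi_mem hN _ ht
    have hgs : ∀ v, g⁻¹ (g v) = v := fun v => LinearEquiv.symm_apply_apply g v
    have h3 := small_line S hN hRR (h := g⁻¹ * t * g) (H.mul_mem (H.mul_mem (H.inv_mem hgH) htH) hgH)
      (q := (1, 0)) one_zero_ne (by
        rw [LinearEquiv.mul_apply, LinearEquiv.mul_apply, hg1, ht1]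
        conv_lhs => rw [← hg1]
        exact hgs _) (by
        have e : w • ((1, 0) : K × (Fin (m + 2) → K)) = (w, 0) := by ext <;> simp
        rw [e, LinearEquiv.mul_apply, LinearEquiv.mul_apply, hgw, ht2, ← hgw, hgs]) w u
    rw [LinearEquiv.mul_apply, LinearEquiv.mul_apply, LinearEquiv.mul_apply, LinearEquiv.mul_apply, hu, ht3, ← hu, hgs] at h3
    have h4 := congrArg g h3
    have h5 : ∀ v, g (g⁻¹ v) = v := fun v => LinearEquiv.apply_symm_apply g v
    rwa [h5] at h4
  obtain ⟨y, hy⟩ : ∃ y, y = g (w • u) := ⟨_, rfl⟩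
  rw [← hy] at hfix
  -- the field automorphism
  let σ : (K × (Fin (m + 2) → K)) ≃ₗ[F] (K × (Fin (m + 2) → K)) :=
    S.frob.prodCongr (LinearEquiv.piCongrRight (fun _ => S.frob))
  have hσ : ∀ v, σ v = (v.1 * v.1, fun i => v.2 i * v.2 i) := fun v => rfl
  have hσy := hfix σ (fun k => ⟨k * k, fun v => by
    rw [hσ, hσ]
    ext
    · simp; ring
    · simp; ring⟩) (by rw [hσ]; ext <;> simp) (by
      rw [hσ]
      ext i
      · simp
      · simp only
        by_cases hi : i = 0
        · rw [hi]; simp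
        · simp [hi]) (by
      rw [hσ]
      ext i
      · simp
      · simp only
        by_cases hi : i = 1
        · rw [hi]; simp
        · simp [hi])
  rw [hσ] at hσy
  have hy1 := S.fixed (congrArg Prod.fst hσy)
  have hy2 : ∀ i, y.2 i = 0 ∨ y.2 i = 1 := fun i => S.fixed (congrFun (congrArg Prod.snd hσy) i)
  -- coordinates other than 0, 1 vanish
  have hy3 : ∀ i, i ≠ 0 → i ≠ 1 → y.2 i = 0 := by
    intro i hi0 hi1
    have h3 := hfix (T ((LinearMap.proj i : (Fin (m + 2) → K) →ₗ[K] K).restrictScalars F)) (fun k => ⟨k, fun v => by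
      rw [T_apply, T_apply]
      ext <;> simp
      ring⟩) (by rw [T_apply]; simp) (by rw [T_apply]; simp [hi0]) (by rw [T_apply]; simp [hi1])
    rw [T_apply] at h3
    have h4 := congrArg Prod.fst h3
    simpa using h4
  -- conclusion: y is in the span of the images of (1,0), (w,0), u
  obtain ⟨c₁, hc₁⟩ : ∃ c : F, algebraMap F K c = y.1 := by
    rcases hy1 with h | h
    · exact ⟨0, by rw [h, map_zero]⟩
    · exact ⟨1, by rw [h, map_one]⟩
  have hy2' : ∀ i, ∃ c : F, algebraMap F K c = y.2 i := by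
    intro i
    rcases hy2 i with h | h
    · exact ⟨0, by rw [h, map_zero]⟩
    · exact ⟨1, by rw [h, map_one]⟩
  obtain ⟨c₂, hc₂⟩ := hy2' 0
  obtain ⟨c₃, hc₃⟩ := hy2' 1
  have hspan : y = g (c₁ • ((1, 0) : K × (Fin (m + 2) → K)) + c₂ • ((w, 0) : K × (Fin (m + 2) → K)) + c₃ • u) := by
    rw [map_add, map_add, map_smul g, map_smul g, map_smul g, hg1, hgw, hu]
    ext i
    · simp only [Prod.fst_add, Prod.smul_fst, smul_zero, add_zero]
      rw [← hc₁, Algebra.algebraMap_eq_smul_one]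
    · simp only [Prod.snd_add, Prod.smul_snd, smul_zero, zero_add, Pi.add_apply, Pi.smul_apply]
      by_cases hi0 : i = 0
      · rw [hi0, ← hc₂, Algebra.algebraMap_eq_smul_one]
        simp
      · by_cases hi1 : i = 1
        · rw [hi1, ← hc₃, Algebra.algebraMap_eq_smul_one]
          simp
        · rw [hy3 i hi0 hi1]
          simp [hi0, hi1]
  rw [hy] at hspan
  have h3 := g.injective hspan
  have h4 := congrArg Prod.snd h3
  simp only [Prod.smul_snd, Prod.snd_add, smul_zero, zero_add] at h4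
  have h5 : (w - algebraMap F K c₃) • u.2 = 0 := by
    rw [sub_smul, h4, algebraMap_smul, sub_self]
  rcases smul_eq_zero.1 h5 with h6 | h6
  · exact S.nr ⟨c₃, (sub_eq_zero.1 h6).symm⟩
  · exact hu2 h6

lemma inv_app {V : Type*} [AddCommGroup V] [Module F V] (g : V ≃ₗ[F] V) {u v : V} (h : g u = v) : g⁻¹ v = u := by
  rw [← h]
  exact LinearEquiv.symm_apply_apply g u

/-- The small case in dimension two is impossible. -/
theorem small_two {H : Subgroup ((K × K) ≃ₗ[F] (K × K))} [Finite K]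
    (S : Small F K w) (hN : Good K H)
    (hRR : ∀ f ∈ RR H, ∀ (k : K) (x : K), f (k • x) = k * f x)
    (hmove : ∃ g ∈ H, g (1, 0) = (1, 0) ∧ (g (w, 0)).2 ≠ 0) : False := by
  obtain ⟨g₁, hg₁, h1, h2⟩ := hmove
  obtain ⟨e, he1, he2⟩ := exists_lin_pair (one_ne_zero (α := K)) h2
  have heH : e.restrictScalars F ∈ H := S.semi_mem hN _ (semi_of_lin _)
  obtain ⟨g, hg⟩ : ∃ g, g = (e.restrictScalars F)⁻¹ * g₁ := ⟨_, rfl⟩
  have hgH : g ∈ H := by rw [hg]; exact H.mul_mem (H.inv_mem heH) hg₁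
  have hg1 : g (1, 0) = (1, 0) := by
    rw [hg, LinearEquiv.mul_apply, h1]
    exact inv_app _ he1
  have hgw : g (w, 0) = (0, 1) := by
    rw [hg, LinearEquiv.mul_apply]
    exact inv_app _ he2
  -- the field automorphism
  obtain ⟨σ, hσ⟩ : ∃ σ : (K × K) ≃ₗ[F] (K × K), ∀ v, σ v = (v.1 * v.1, v.2 * v.2) :=
    ⟨S.frob.prodCongr S.frob, fun v => rfl⟩
  have hσH : σ ∈ H := S.semi_mem hN _ (fun k => ⟨k * k, fun v => by
    rw [hσ, hσ]
    ext
    · simp; ring
    · simp; ring⟩)
  have hσσ : ∀ v, σ (σ v) = v := by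
    intro v
    rw [hσ, hσ]
    exact Prod.ext (S.mul_self_mul_self _) (S.mul_self_mul_self _)
  have hline : ∀ h ∈ H, h (1, 0) = (1, 0) → h (w, 0) = (w, 0) → ∀ (k : K) (v : K × K), h (k • v) = k • h v := by
    intro h hh h3 h4
    refine small_line S hN hRR hh (q := (1, 0)) one_zero_ne h3 ?_
    have e : w • ((1, 0) : K × K) = (w, 0) := by ext <;> simp
    rw [e, h4]
  -- the conjugate of σ
  have ht := hline (g⁻¹ * σ * g) (H.mul_mem (H.mul_mem (H.inv_mem hgH) hσH) hgH) (by
      rw [LinearEquiv.mul_apply, LinearEquiv.mul_apply]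
      apply inv_app
      rw [hg1, hσ]; simp) (by
      rw [LinearEquiv.mul_apply, LinearEquiv.mul_apply]
      apply inv_app
      rw [hgw, hσ]; simp)
  obtain ⟨t, ht'⟩ : ∃ t, t = g⁻¹ * σ * g := ⟨_, rfl⟩
  rw [← ht'] at ht
  have hσg : ∀ v, σ (g v) = g (t v) := by
    intro v
    have : σ * g = g * t := by rw [ht']; group
    exact congrArg (fun z : (K × K) ≃ₗ[F] (K × K) => z v) this
  have ht1 : t (1, 0) = (1, 0) := by
    apply g.injective
    rw [← hσg, hg1, hσ]
    simp
  obtain ⟨c, d, hcd⟩ : ∃ c d : K, t (0, 1) = (c, d) := ⟨(t (0, 1)).1, (t (0, 1)).2, rfl⟩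
  have htt : ∀ v, t (t v) = v := by
    intro v
    apply g.injective
    rw [← hσg, ← hσg, hσσ]
  have htv : ∀ k x : K, t (k, x) = (k + x * c, x * d) := by
    intro k x
    have e : ((k, x) : K × K) = k • ((1, 0) : K × K) + x • ((0, 1) : K × K) := by ext <;> simp
    rw [e, map_add, ht, ht, ht1, hcd]
    ext <;> simp
  have hd : d = 1 := by
    have h3 := htt (0, 1)
    rw [hcd, htv] at h3
    have h4 : d * d = 1 := congrArg Prod.snd h3
    have h5 := S.mul_self_mul_self d
    rw [h4, mul_one] at h5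
    exact h5.symm
  subst hd
  have hc : c ≠ 0 := by
    rintro rfl
    have h3 : σ (w, 0) = (w, 0) := by
      obtain ⟨v, hv⟩ : ∃ v, g v = (w, 0) := ⟨g.symm (w, 0), LinearEquiv.apply_symm_apply _ _⟩
      have h4 := hσg v
      rw [show t v = v by rw [show v = (v.1, v.2) from rfl, htv]; simp, hv] at h4
      exact h4
    rw [hσ] at h3
    rcases S.fixed (congrArg Prod.fst h3) with h4 | h4
    · exact S.ne0 h4
    · exact S.ne1 h4
  -- normalisation
  obtain ⟨a₁, a₂, ha⟩ : ∃ a₁ a₂ : K, g (0, c⁻¹) = (a₁, a₂) := ⟨(g (0, c⁻¹)).1, (g (0, c⁻¹)).2, rfl⟩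
  have hsplit : ∀ k x : K, g (k, x) = g (k, 0) + g (0, x) := fun k x => split_apply g k x
  have ha' : (a₁ * a₁, a₂ * a₂) = ((1 : K), (0 : K)) + (a₁, a₂) := by
    have h3 := hσg (0, c⁻¹)
    rw [htv, ha, hσ, hsplit] at h3
    have e1 : (0 : K) + c⁻¹ * c = 1 := by rw [zero_add, inv_mul_cancel₀ hc]
    have e2 : c⁻¹ * (1 : K) = c⁻¹ := mul_one _
    rw [e1, e2, hg1, ha] at h3
    exact h3
  have ha₁ : a₁ * a₁ = a₁ + 1 := by
    have := congrArg Prod.fst ha'
    simp only [Prod.fst_add] at this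
    rw [this, add_comm]
  have ha₂ : a₂ * a₂ = a₂ := by
    have := congrArg Prod.snd ha'
    simp only [Prod.snd_add, zero_add] at this
    exact this
  have hs1 : (a₁ + w) * (a₁ + w) = a₁ + w := by
    linear_combination ha₁ + S.sq + (a₁ * w + 1) * S.two
  -- F-rational combination
  have hcomb : ∀ b₁ b₂ : K, b₁ * b₁ = b₁ → b₂ * b₂ = b₂ → g (b₁ + b₂ * w, 0) = (b₁, b₂) := by
    intro b₁ b₂ hb₁ hb₂
    rcases S.fixed hb₁ with h3 | h3 <;> rcases S.fixed hb₂ with h4 | h4
    · rw [h3, h4]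
      have e : (((0 : K) + 0 * w, (0 : K)) : K × K) = 0 := by ext <;> simp
      rw [e, map_zero]
      rfl
    · rw [h3, h4]
      have e : (((0 : K) + 1 * w, (0 : K)) : K × K) = (w, 0) := by ext <;> simp
      rw [e, hgw]
    · rw [h3, h4]
      have e : (((1 : K) + 0 * w, (0 : K)) : K × K) = (1, 0) := by ext <;> simp
      rw [e, hg1]
    · rw [h3, h4]
      have e : (((1 : K) + 1 * w, (0 : K)) : K × K) = (1, 0) + (w, 0) := by ext <;> simp
      rw [e, map_add, hg1, hgw]
      ext <;> simp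
  obtain ⟨k₀, hk₀⟩ : ∃ k₀, k₀ = (a₁ + w) + a₂ * w := ⟨_, rfl⟩
  have hgk₀ : g (k₀, 0) = (a₁ + w, a₂) := by rw [hk₀]; exact hcomb _ _ hs1 ha₂
  obtain ⟨D, hD⟩ : ∃ D : (K × K) ≃ₗ[K] (K × K), ∀ v, D v = (v.1 + k₀ * v.2, c⁻¹ * v.2) := by
    refine ⟨{ toFun := fun v => (v.1 + k₀ * v.2, c⁻¹ * v.2)
              map_add' := ?_
              map_smul' := ?_
              invFun := fun v => (v.1 - k₀ * (c * v.2), c * v.2)
              left_inv := ?_
              right_inv := ?_ }, fun v => rfl⟩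
    · intro u v; ext <;> simp <;> ring
    · intro k v; ext <;> simp <;> ring
    · intro v
      ext <;> simp [hc]
    · intro v
      ext <;> simp [hc]
  have hDH : D.restrictScalars F ∈ H := S.semi_mem hN _ (semi_of_lin _)
  obtain ⟨γ, hγ⟩ : ∃ γ, γ = g * D.restrictScalars F := ⟨_, rfl⟩
  have hγv : ∀ v, γ v = g (v.1 + k₀ * v.2, c⁻¹ * v.2) := by
    intro v
    rw [hγ, LinearEquiv.mul_apply]
    change g (D v) = _
    rw [hD]
  have hγH : γ ∈ H := by rw [hγ]; exact H.mul_mem hgH hDH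
  have γ1 : γ (1, 0) = (1, 0) := by rw [hγv]; simp [hg1]
  have γw : γ (w, 0) = (0, 1) := by rw [hγv]; simp [hgw]
  have γ01 : γ (0, 1) = (w, 0) := by
    rw [hγv]
    simp only [zero_add, mul_one]
    rw [hsplit, hgk₀, ha]
    ext
    · simp only [Prod.fst_add]
      linear_combination a₁ * S.two
    · simp only [Prod.snd_add]
      exact S.add_self a₂
  have γσ : ∀ k x, σ (γ (k, x)) = γ (k + x, x) := by
    intro k x
    rw [hγv, hγv, hσg, htv]
    congr 1
    ext
    · simp only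
      rw [mul_right_comm, inv_mul_cancel₀ hc]
      ring
    · simp
  obtain ⟨b₁, b₂, hb⟩ : ∃ b₁ b₂ : K, γ (0, w) = (b₁, b₂) := ⟨(γ (0, w)).1, (γ (0, w)).2, rfl⟩
  have γsplit : ∀ k x : K, γ (k, x) = γ (k, 0) + γ (0, x) := fun k x => split_apply γ k x
  have hb' := γσ 0 w
  rw [hb, hσ, zero_add, γsplit, γw, hb] at hb'
  have hb₁ : b₁ * b₁ = b₁ := by
    have := congrArg Prod.fst hb'
    simpa using this
  have hb₂ : b₂ * b₂ = b₂ + 1 := by
    have := congrArg Prod.snd hb'
    simp only [Prod.snd_add] at this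
    rw [this, add_comm]
  have γw1 : γ (w + 1, 0) = (1, 1) := by
    have e : ((w + 1, 0) : K × K) = (w, 0) + (1, 0) := by ext <;> simp
    rw [e, map_add, γw, γ1]
    ext <;> simp
  -- first relation
  obtain ⟨u, hu⟩ : ∃ u : (K × K) ≃ₗ[F] (K × K), u = T (LinearMap.id : K →ₗ[F] K) := ⟨_, rfl⟩
  have huv : ∀ v, u v = (v.1 + v.2, v.2) := fun v => by rw [hu]; rfl
  have huH : u ∈ H := S.semi_mem hN _ (fun k => ⟨k, fun v => by
    rw [huv, huv]
    ext <;> simp
    ring⟩)
  have hW1 := hline (σ * (γ⁻¹ * u * γ)) (H.mul_mem hσH (H.mul_mem (H.mul_mem (H.inv_mem hγH) huH) hγH)) (by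
      rw [LinearEquiv.mul_apply, LinearEquiv.mul_apply, LinearEquiv.mul_apply, γ1, huv]
      have : γ⁻¹ (1 + 0, 0) = (1, 0) := inv_app _ (by rw [γ1]; simp)
      rw [this, hσ]; simp) (by
      rw [LinearEquiv.mul_apply, LinearEquiv.mul_apply, LinearEquiv.mul_apply, γw, huv]
      have : γ⁻¹ (0 + 1, 1) = (w + 1, 0) := inv_app _ (by rw [γw1]; simp)
      rw [this, hσ]
      ext
      · simp only
        linear_combination S.sq + w * S.two + S.two
      · simp) w (0, 1)
  rw [LinearEquiv.mul_apply, LinearEquiv.mul_apply, LinearEquiv.mul_apply, LinearEquiv.mul_apply,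
    LinearEquiv.mul_apply, LinearEquiv.mul_apply, γ01, huv (w, 0)] at hW1
  have e1 : γ⁻¹ (w + 0, 0) = (0, 1) := inv_app _ (by rw [γ01]; simp)
  have e2 : w • ((0, 1) : K × K) = (0, w) := by ext <;> simp
  simp only at hW1
  rw [e1, e2, hb, huv] at hW1
  have e3 : σ (0, 1) = (0, 1) := by rw [hσ]; simp
  rw [e3, e2] at hW1
  have hW1' := congrArg σ hW1
  rw [hσσ, hσ] at hW1'
  have hW1'' := congrArg γ hW1'
  have e4 : ∀ v, γ (γ⁻¹ v) = v := fun v => LinearEquiv.apply_symm_apply γ v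
  rw [e4] at hW1''
  have e5 : (((0 : K) * 0, w * w) : K × K) = (0, 1) + (0, w) := by
    ext
    · simp
    · simp [S.sq, add_comm]
  simp only at hW1''
  rw [e5, map_add, γ01, hb] at hW1''
  have hb₂w : b₂ = w := by
    have := congrArg Prod.fst hW1''
    simp only [Prod.fst_add] at this
    linear_combination this
  -- second relation
  obtain ⟨s, hs⟩ : ∃ s : (K × K) ≃ₗ[F] (K × K), s = LinearEquiv.prodComm F K K := ⟨_, rfl⟩
  have hsv : ∀ v, s v = (v.2, v.1) := fun v => by rw [hs]; rfl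
  have hsH : s ∈ H := S.semi_mem hN _ (fun k => ⟨k, fun v => by
    rw [hsv, hsv]
    ext <;> simp⟩)
  obtain ⟨m, hm⟩ : ∃ m : (K × K) ≃ₗ[F] (K × K), ∀ v, m v = w • v :=
    ⟨(LinearEquiv.smulOfNeZero K (K × K) w S.ne0).restrictScalars F, fun v => rfl⟩
  have hmH : m ∈ H := S.semi_mem hN _ (fun k => ⟨k, fun v => by rw [hm, hm, smul_comm]⟩)
  have hwww : w * (w * w) = 1 := by
    linear_combination w * S.sq + S.sq + w * S.two
  have hW2 := hline (m * (σ * (γ⁻¹ * s * γ)))
    (H.mul_mem hmH (H.mul_mem hσH (H.mul_mem (H.mul_mem (H.inv_mem hγH) hsH) hγH))) (by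
      rw [LinearEquiv.mul_apply, LinearEquiv.mul_apply, LinearEquiv.mul_apply, LinearEquiv.mul_apply, γ1, hsv]
      have : γ⁻¹ (0, 1) = (w, 0) := inv_app _ γw
      rw [this, hσ, hm]
      ext
      · simpa using hwww
      · simp) (by
      rw [LinearEquiv.mul_apply, LinearEquiv.mul_apply, LinearEquiv.mul_apply, LinearEquiv.mul_apply, γw, hsv]
      have : γ⁻¹ (1, 0) = (1, 0) := inv_app _ γ1
      rw [this, hσ, hm]
      ext
      · simp
      · simp) w (0, 1)
  rw [LinearEquiv.mul_apply, LinearEquiv.mul_apply, LinearEquiv.mul_apply, LinearEquiv.mul_apply,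
    LinearEquiv.mul_apply, LinearEquiv.mul_apply, LinearEquiv.mul_apply, LinearEquiv.mul_apply, γ01, hsv (w, 0),
    e2, hb, hsv] at hW2
  have γb : ∀ b : K, b * b = b → γ (b, 0) = (b, 0) ∧ γ (b * w, 0) = (0, b) := by
    intro b hbb
    rcases S.fixed hbb with h3 | h3
    · rw [h3]
      have e : (((0 : K), (0 : K)) : K × K) = 0 := rfl
      rw [zero_mul, e, map_zero]
      exact ⟨rfl, rfl⟩
    · rw [h3, one_mul]
      exact ⟨γ1, γw⟩
  simp only at hW2
  have e6 : γ⁻¹ (0, w) = (b₁, w) := by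
    apply inv_app
    rw [γsplit, hb, (γb b₁ hb₁).1, hb₂w]
    ext
    · simp only [Prod.fst_add]; exact S.add_self b₁
    · simp
  have e7 : γ⁻¹ (b₂, b₁) = (b₁ * w, 1) := by
    apply inv_app
    rw [γsplit, (γb b₁ hb₁).2, γ01, hb₂w]
    ext <;> simp
  rw [e6, e7, hσ, hσ, hm, hm] at hW2
  have hb₁0 : b₁ = 0 := by
    have h3 := congrArg Prod.fst hW2
    simp only [Prod.smul_fst, smul_eq_mul] at h3
    rcases S.fixed hb₁ with h4 | h4
    · exact h4
    · exfalso
      rw [h4] at h3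
      -- w * (w * w) = w * (w * 1)
      have h5 : w * w = 1 := by linear_combination hwww - h3
      have h6 : w = 0 := by linear_combination h5 - S.sq
      exact S.ne0 h6
  -- conclusion
  rw [hb₁0, hb₂w] at hb
  have h3 := small_line S hN hRR hγH (q := (1, w)) (by
      intro h0
      exact one_ne_zero (congrArg Prod.fst h0)) (by
      rw [γsplit, γ1, hb]
      ext <;> simp) (by
      have e : w • ((1, w) : K × K) = (w, w) + (0, 1) := by
        ext
        · simp
        · simp [S.sq]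
      rw [e, map_add, γsplit, γw, hb, γ01]
      ext
      · simp
      · simp [add_comm]) w (1, 0)
  have e8 : w • ((1, 0) : K × K) = (w, 0) := by ext <;> simp
  rw [γ1, e8, γw] at h3
  exact one_ne_zero (congrArg Prod.snd h3)

end smallF

end Cfsg.Agent.H98.Ext
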