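import Cfsg.Agent.H98.ExtF
import Cfsg.Agent.GeoMax.Transv
import Cfsg.Agent.AschCases.FieldSub

set_option autoImplicit false
set_option linter.unusedSectionVars false
set_option linter.style.haveILetI false
set_option linter.unusedSimpArgs false

/-!
Overgroups of the group of semilinear maps: main theorem and transfer to matrices.
-/

namespace Cfsg.Agent.H98.Ext

open Module

section main

variable {F K : Type*} [Field F] [Field K] [Algebra F K] [Finite K]

theorem main_prod {X : Type*} [AddCommGroup X] [Module F X] [Module K X]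
    [IsScalarTower F K X] [Finite X] [Nontrivial X] {H : Subgroup ((K × X) ≃ₗ[F] (K × X))} (hN : Good K H)
    (hr : (finrank F K).Prime) :
    (∀ g ∈ H, Semi K g) ∨ (∀ (l : Dual F (K × X)) (w : K × X) (h : l w = 0), LinearEquiv.transvection h ∈ H) ∨
      ∃ w : K, Small F K w ∧ (∀ f ∈ RR H, ∀ (k : K) (x : X), f (k • x) = k * f x) ∧
        ∃ g ∈ H, g (1, 0) = (1, 0) ∧ (g (w, 0)).2 ≠ 0 := by
  have : Finite F := Finite.of_injective _ (algebraMap F K).injective
  rcases dich hN hr with hall | hB
  · right; left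
    intro l w h
    exact caseA hN hall h
  · by_cases hst : ∃ c : K, c ∉ Set.range (algebraMap F K) ∧ ∀ g ∈ H, g (1, 0) = (1, 0) → (g (c, 0)).2 = 0
    · left
      obtain ⟨c, hc, h⟩ := hst
      exact semi_of_stay hN hr hc h
    · push Not at hst
      have h1 := count hN hr hB hst
      rw [Module.natCard_eq_pow_finrank (K := F) (V := K)] at h1
      obtain ⟨hq, hr2⟩ := arith (Finite.one_lt_card (α := F)) hr.two_le h1
      right; right
      obtain ⟨w, S⟩ := exists_small hq hr2
      exact ⟨w, S, fun f hf k x => small_RR S hN hr.two_le hB hf k x, hst w S.nr⟩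

theorem main_pi {m : ℕ} {H : Subgroup ((K × (Fin (m + 2) → K)) ≃ₗ[F] (K × (Fin (m + 2) → K)))} (hN : Good K H)
    (hr : (finrank F K).Prime) :
    (∀ g ∈ H, Semi K g) ∨ (∀ (l : Dual F (K × (Fin (m + 2) → K))) (w : K × (Fin (m + 2) → K)) (h : l w = 0),
      LinearEquiv.transvection h ∈ H) := by
  rcases main_prod hN hr with h | h | ⟨w, S, h1, h2⟩
  · exact Or.inl h
  · exact Or.inr h
  · exact (small_big S hN h1 h2).elim

theorem main_two {H : Subgroup ((K × K) ≃ₗ[F] (K × K))} (hN : Good K H) (hr : (finrank F K).Prime) :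
    (∀ g ∈ H, Semi K g) ∨ (∀ (l : Dual F (K × K)) (w : K × K) (h : l w = 0), LinearEquiv.transvection h ∈ H) := by
  rcases main_prod hN hr with h | h | ⟨w, S, h1, h2⟩
  · exact Or.inl h
  · exact Or.inr h
  · exact (small_two S hN h1 h2).elim

section transport

variable {V Y : Type*} [AddCommGroup V] [Module F V] [Module K V] [IsScalarTower F K V]
  [AddCommGroup Y] [Module F Y] [Module K Y] [IsScalarTower F K Y]

/-- Conjugation by an isomorphism. -/
def cj (e : V ≃ₗ[K] Y) : (Y ≃ₗ[F] Y) →* (V ≃ₗ[F] V) where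
  toFun g := (e.restrictScalars F).trans (g.trans (e.restrictScalars F).symm)
  map_one' := by
    ext v
    exact LinearEquiv.symm_apply_apply e v
  map_mul' g h := by
    ext v
    change e.symm (g (h (e v))) = e.symm (g (e (e.symm (h (e v)))))
    rw [LinearEquiv.apply_symm_apply]

lemma cj_apply (e : V ≃ₗ[K] Y) (g : Y ≃ₗ[F] Y) (v : V) : cj e g v = e.symm (g (e v)) := rfl

lemma cj_symm (e : V ≃ₗ[K] Y) (g : V ≃ₗ[F] V) : cj e (cj e.symm g) = g := by
  ext v
  change e.symm (e (g (e.symm (e v)))) = g v
  rw [LinearEquiv.symm_apply_apply, LinearEquiv.symm_apply_apply]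

theorem transport (e : V ≃ₗ[K] Y)
    (hY : ∀ H : Subgroup (Y ≃ₗ[F] Y), Good K H → (∀ g ∈ H, Semi K g) ∨
      (∀ (l : Dual F Y) (w : Y) (h : l w = 0), LinearEquiv.transvection h ∈ H))
    {H : Subgroup (V ≃ₗ[F] V)} (hN : Good K H) :
    (∀ g ∈ H, Semi K g) ∨ (∀ (l : Dual F V) (w : V) (h : l w = 0), LinearEquiv.transvection h ∈ H) := by
  have hN' : Good K (H.comap (cj (F := F) e)) := by
    intro d hd h hh hdet
    refine hN (cj e d) ?_ (cj e h) hh ?_
    · intro k
      obtain ⟨k', hk'⟩ := hd k
      exact ⟨k', fun v => by rw [cj_apply, cj_apply, map_smul e, hk', map_smul e.symm]⟩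
    · have h1 : ∀ g : Y ≃ₗ[F] Y, LinearEquiv.det (cj e g) = LinearEquiv.det g := by
        intro g
        exact LinearEquiv.det_conj g (e.restrictScalars F).symm
      rw [h1, h1, hdet]
  rcases hY _ hN' with h | h
  · left
    intro g hg k
    have hg' : cj e.symm g ∈ H.comap (cj (F := F) e) := by
      rw [Subgroup.mem_comap, cj_symm]
      exact hg
    obtain ⟨k', hk'⟩ := h _ hg' k
    refine ⟨k', fun v => ?_⟩
    have h1 := hk' (e v)
    rw [cj_apply, cj_apply] at h1
    have h2 : e.symm (e (g (e.symm (k • e v)))) = e.symm (k' • e (g (e.symm (e v)))) := congrArg e.symm h1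
    rw [← map_smul e k v, ← map_smul e k' _, LinearEquiv.symm_apply_apply, LinearEquiv.symm_apply_apply,
      LinearEquiv.symm_apply_apply, LinearEquiv.symm_apply_apply] at h2
    exact h2
  · right
    intro l w hlw
    have h1 : (l ∘ₗ ((e.restrictScalars F).symm : Y →ₗ[F] V)) (e w) = 0 := by
      change l (e.symm (e w)) = 0
      rw [LinearEquiv.symm_apply_apply, hlw]
    have h2 := h _ _ h1
    rw [Subgroup.mem_comap] at h2
    have h3 : LinearEquiv.transvection hlw = cj e (LinearEquiv.transvection h1) := by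
      ext v
      rw [cj_apply, LinearEquiv.transvection.apply, LinearEquiv.transvection.apply, map_add,
        LinearEquiv.symm_apply_apply]
      change v + l v • w = v + e.symm (l (e.symm (e v)) • e w)
      rw [LinearEquiv.symm_apply_apply]
      congr 1
      have := (e.restrictScalars F).symm.map_smul (l v) (e w)
      change e.symm (l v • e w) = l v • e.symm (e w) at this
      rw [this, LinearEquiv.symm_apply_apply]
    rw [h3]
    exact h2

/-- Main theorem. -/
theorem main [Finite V] (hr : (finrank F K).Prime) (hm : 2 ≤ finrank K V)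
    {H : Subgroup (V ≃ₗ[F] V)} (hN : Good K H) :
    (∀ g ∈ H, Semi K g) ∨ (∀ (l : Dual F V) (w : V) (h : l w = 0), LinearEquiv.transvection h ∈ H) := by
  have : FiniteDimensional K V := Module.Finite.of_finite
  by_cases h2 : finrank K V = 2
  · have e : V ≃ₗ[K] (K × K) := LinearEquiv.ofFinrankEq _ _ (by rw [h2]; simp)
    exact transport e (fun H hH => main_two hH hr) hN
  · obtain ⟨m, hm'⟩ : ∃ m, finrank K V = m + 3 := ⟨finrank K V - 3, by omega⟩
    have e : V ≃ₗ[K] (K × (Fin (m + 2) → K)) := LinearEquiv.ofFinrankEq _ _ (by rw [hm']; simp; ring)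
    exact transport e (fun H hH => main_pi hH hr) hN

end transport

end main

section matrix

open Cfsg.Geo Cfsg.Agent.GeoMax Cfsg.Agent.AschCases Matrix
open scoped MatrixGroups

variable {ι : Type} [Fintype ι] [DecidableEq ι] {F : Type*} [Field F]

/-- The invertible matrix of a linear equivalence. -/
noncomputable def mx : ((ι → F) ≃ₗ[F] (ι → F)) ≃* GL ι F :=
  (LinearMap.GeneralLinearGroup.generalLinearEquiv F (ι → F)).symm.trans Matrix.GeneralLinearGroup.toLin.symm

lemma mx_mulVec (g : (ι → F) ≃ₗ[F] (ι → F)) (v : ι → F) : ((mx g : GL ι F) : Matrix ι ι F) *ᵥ v = g v := by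
  have h : g = mx.symm (mx g) := (MulEquiv.symm_apply_apply mx g).symm
  conv_rhs => rw [h]
  rfl

lemma mx_symm_apply (g : GL ι F) (v : ι → F) : mx.symm g v = (g : Matrix ι ι F) *ᵥ v := rfl

lemma det_mx_symm (g : GL ι F) : LinearEquiv.det (mx.symm g) = Matrix.GeneralLinearGroup.det g := by
  apply Units.ext
  rw [LinearEquiv.coe_det]
  change LinearMap.det (Matrix.mulVecLin (g : Matrix ι ι F)) = Matrix.det (g : Matrix ι ι F)
  rw [← Matrix.toLin'_apply', LinearMap.det_toLin']

/-- Main theorem for matrix groups, for an embedded field. -/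
theorem main_alg {K : Type*} [Field K] [Algebra F K] [Finite F] (φ : K →ₐ[F] Matrix ι ι F)
    (hr : (finrank F K).Prime) (hrn : finrank F K < Fintype.card ι) {M : Subgroup (GL ι F)}
    (hM : ∀ d : GL ι F, (∀ k : K, ∃ k' : K, (d : Matrix ι ι F) * φ k = φ k' * (d : Matrix ι ι F)) →
      ∀ h ∈ M, Matrix.GeneralLinearGroup.det h = Matrix.GeneralLinearGroup.det d → d ∈ M) :
    (∀ g ∈ M, ∀ k : K, ∃ k' : K, (g : Matrix ι ι F) * φ k = φ k' * (g : Matrix ι ι F)) ∨ specialLinear ι F ≤ M := by
  classical
  letI : Module K (ι → F) := Module.compHom (ι → F)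
    (((Matrix.toLinAlgEquiv' : Matrix ι ι F ≃ₐ[F] _).toAlgHom.comp φ : K →ₐ[F] _) : K →+* Module.End F (ι → F))
  have hsm : ∀ (k : K) (v : ι → F), k • v = φ k *ᵥ v := fun k v => rfl
  have htower : IsScalarTower F K (ι → F) := by
    refine ⟨fun c k v => ?_⟩
    rw [hsm, hsm, map_smul, Matrix.smul_mulVec]
  have : FiniteDimensional F K := FiniteDimensional.of_finrank_pos hr.pos
  have hfinK : Finite K := Module.finite_of_finite F
  have hdim := Module.finrank_mul_finrank F K (ι → F)
  rw [Module.finrank_fintype_fun_eq_card] at hdim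
  have hm : 2 ≤ finrank K (ι → F) := by
    by_contra hcon
    push Not at hcon
    have : finrank K (ι → F) ≤ 1 := by omega
    have h3 : finrank F K * finrank K (ι → F) ≤ finrank F K * 1 := Nat.mul_le_mul le_rfl this
    omega
  have hsemi : ∀ g : GL ι F, (∀ k : K, ∃ k' : K, (g : Matrix ι ι F) * φ k = φ k' * (g : Matrix ι ι F)) ↔
      Semi K (mx.symm g) := by
    intro g
    constructor
    · intro hg k
      obtain ⟨k', hk'⟩ := hg k
      refine ⟨k', fun v => ?_⟩
      rw [mx_symm_apply, mx_symm_apply, hsm, hsm, Matrix.mulVec_mulVec, Matrix.mulVec_mulVec, hk']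
    · intro hg k
      obtain ⟨k', hk'⟩ := hg k
      refine ⟨k', ?_⟩
      apply Matrix.toLin'.injective
      apply LinearMap.ext
      intro v
      have := hk' v
      rw [mx_symm_apply, mx_symm_apply, hsm, hsm, Matrix.mulVec_mulVec, Matrix.mulVec_mulVec] at this
      exact this
  have hG : Good K (M.comap (mx : ((ι → F) ≃ₗ[F] (ι → F)) ≃* GL ι F).toMonoidHom) := by
    intro d hd h hh hdet
    rw [Subgroup.mem_comap] at hh ⊢
    refine hM (mx d) ?_ (mx h) hh ?_
    · rw [hsemi, MulEquiv.symm_apply_apply]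
      exact hd
    · rw [← det_mx_symm, ← det_mx_symm, MulEquiv.symm_apply_apply, MulEquiv.symm_apply_apply, hdet]
  have hfinV : Finite (ι → F) := inferInstance
  rcases main (K := K) hr hm hG with h | h
  · left
    intro g hg
    rw [hsemi]
    apply h
    rw [Subgroup.mem_comap]
    change mx (mx.symm g) ∈ M
    rwa [MulEquiv.apply_symm_apply]
  · right
    have : Nontrivial ι := by
      rw [← Fintype.one_lt_card_iff_nontrivial]
      have := hr.two_le
      omega
    apply specialLinear_le_of_hasT
    intro v w hwv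
    refine ⟨hwv, ?_⟩
    have h1 : dotLin w v = 0 := hwv
    refine ⟨mx (LinearEquiv.transvection h1), h (dotLin w) v h1, ?_⟩
    apply Matrix.toLin'.injective
    apply LinearMap.ext
    intro x
    change ((mx (LinearEquiv.transvection h1) : GL ι F) : Matrix ι ι F) *ᵥ x = (1 + vecMulVec v w) *ᵥ x
    rw [mx_mulVec, LinearEquiv.transvection.apply, Matrix.add_mulVec, Matrix.one_mulVec, Matrix.vecMulVec_mulVec]
    congr 1
    ext i
    change (w ⬝ᵥ x) * v i = v i * (w ⬝ᵥ x)
    rw [mul_comm]

/-- There is a semilinear map of every determinant, and a transvection which is not semilinear. -/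
theorem extra_alg {K : Type*} [Field K] [Algebra F K] [Finite F] (φ : K →ₐ[F] Matrix ι ι F)
    (hr : (finrank F K).Prime) (hrn : finrank F K < Fintype.card ι) :
    (∀ c : Fˣ, ∃ d : GL ι F, (∀ k : K, ∃ k' : K, (d : Matrix ι ι F) * φ k = φ k' * (d : Matrix ι ι F)) ∧
      Matrix.GeneralLinearGroup.det d = c) ∧
    ∃ g : GL ι F, g ∈ specialLinear ι F ∧
      ¬ (∀ k : K, ∃ k' : K, (g : Matrix ι ι F) * φ k = φ k' * (g : Matrix ι ι F)) := by
  classical
  letI : Module K (ι → F) := Module.compHom (ι → F)
    (((Matrix.toLinAlgEquiv' : Matrix ι ι F ≃ₐ[F] _).toAlgHom.comp φ : K →ₐ[F] _) : K →+* Module.End F (ι → F))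
  have hsm : ∀ (k : K) (v : ι → F), k • v = φ k *ᵥ v := fun k v => rfl
  have htower : IsScalarTower F K (ι → F) := by
    refine ⟨fun c k v => ?_⟩
    rw [hsm, hsm, map_smul, Matrix.smul_mulVec]
  have : FiniteDimensional F K := FiniteDimensional.of_finrank_pos hr.pos
  have hfinK : Finite K := Module.finite_of_finite F
  have hdim := Module.finrank_mul_finrank F K (ι → F)
  rw [Module.finrank_fintype_fun_eq_card] at hdim
  have : FiniteDimensional K (ι → F) := FiniteDimensional.of_finrank_pos (by
    by_contra hcon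
    have : finrank K (ι → F) = 0 := by omega
    rw [this, mul_zero] at hdim
    omega)
  have hsemi : ∀ g : GL ι F, (∀ k : K, ∃ k' : K, (g : Matrix ι ι F) * φ k = φ k' * (g : Matrix ι ι F)) ↔
      Semi K (mx.symm g) := by
    intro g
    constructor
    · intro hg k
      obtain ⟨k', hk'⟩ := hg k
      refine ⟨k', fun v => ?_⟩
      rw [mx_symm_apply, mx_symm_apply, hsm, hsm, Matrix.mulVec_mulVec, Matrix.mulVec_mulVec, hk']
    · intro hg k
      obtain ⟨k', hk'⟩ := hg k
      refine ⟨k', ?_⟩
      apply Matrix.toLin'.injective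
      apply LinearMap.ext
      intro v
      have := hk' v
      rw [mx_symm_apply, mx_symm_apply, hsm, hsm, Matrix.mulVec_mulVec, Matrix.mulVec_mulVec] at this
      exact this
  have hι : Nonempty ι := by
    rw [← Fintype.card_pos_iff]
    omega
  obtain ⟨v₀, hv₀⟩ : ∃ v : ι → F, v ≠ 0 := by
    obtain ⟨i⟩ := hι
    refine ⟨Pi.single i 1, fun h0 => ?_⟩
    have := congrFun h0 i
    simp at this
  constructor
  · intro c
    obtain ⟨a, ha⟩ := FiniteField.norm_surjective F K (c : F)
    have ha0 : a ≠ 0 := by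
      rintro rfl
      rw [Algebra.norm_zero] at ha
      exact c.ne_zero ha.symm
    obtain ⟨ψ, hψ⟩ := exists_dual_one K hv₀
    have hu : IsUnit (1 + ((a - 1) • ψ) v₀) := by
      rw [LinearMap.smul_apply, hψ, smul_eq_mul, mul_one, add_sub_cancel]
      exact isUnit_iff_ne_zero.2 ha0
    refine ⟨mx ((LinearEquiv.dilatransvection hu).restrictScalars F), ?_, ?_⟩
    · rw [hsemi, MulEquiv.symm_apply_apply]
      exact semi_of_lin _
    · rw [← det_mx_symm, MulEquiv.symm_apply_apply]
      apply Units.ext
      rw [coe_det_restrict, LinearEquiv.coe_det, LinearEquiv.dilatransvection.coe_toLinearMap,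
        LinearMap.transvection.det, LinearMap.smul_apply, hψ, smul_eq_mul, mul_one, add_sub_cancel, ha]
  · -- u not in K v₀
    obtain ⟨u, hu⟩ : ∃ u : ι → F, u ∉ Submodule.span K {v₀} := by
      by_contra hcon
      push Not at hcon
      have h1 : Submodule.span K {v₀} = ⊤ := by
        rw [eq_top_iff]
        intro x _
        exact hcon x
      have h2 := finrank_span_singleton (K := K) hv₀
      rw [h1, finrank_top] at h2
      rw [h2, mul_one] at hdim
      omega
    obtain ⟨ψ, h1, h2⟩ := exists_dual_zero_one K hu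
    obtain ⟨θ, hθ⟩ := exists_dual_one F (one_ne_zero (α := K))
    have h3 : (θ ∘ₗ ψ.restrictScalars F) v₀ = 0 := by
      change θ (ψ v₀) = 0
      rw [h1, map_zero]
    refine ⟨mx (LinearEquiv.transvection h3), ?_, ?_⟩
    · change Matrix.GeneralLinearGroup.det _ = 1
      rw [← det_mx_symm, MulEquiv.symm_apply_apply, LinearEquiv.transvection.det_eq_one]
    · rw [hsemi, MulEquiv.symm_apply_apply]
      intro hcon
      -- K is not F
      obtain ⟨k, hk⟩ : ∃ k : K, k ∉ Set.range (algebraMap F K) := by
        by_contra hcon'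
        push Not at hcon'
        have h4 : (⊥ : Subalgebra F K) = ⊤ := by
          rw [eq_top_iff]
          intro x _
          exact Algebra.mem_bot.2 (hcon' x)
        have h5 := Subalgebra.finrank_bot (F := F) (E := K)
        have h6 : finrank F (⊤ : Subalgebra F K) = finrank F K := Subalgebra.topEquiv.toLinearEquiv.finrank_eq
        rw [h4, h6] at h5
        rw [h5] at hr
        exact Nat.not_prime_one hr
      obtain ⟨k', hk'⟩ := hcon k
      have h4 := hk' v₀
      rw [LinearEquiv.transvection.apply, LinearEquiv.transvection.apply] at h4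
      have h5 : (θ ∘ₗ ψ.restrictScalars F) (k • v₀) = 0 := by
        change θ (ψ (k • v₀)) = 0
        rw [map_smul, h1, smul_zero, map_zero]
      rw [h5, h3, zero_smul, add_zero, add_zero] at h4
      have h6 : k = k' := by
        have : (k - k') • v₀ = 0 := by rw [sub_smul, h4, sub_self]
        rcases smul_eq_zero.1 this with h | h
        · exact sub_eq_zero.1 h
        · exact absurd h hv₀
      have h7 := hk' u
      rw [LinearEquiv.transvection.apply, LinearEquiv.transvection.apply, ← h6] at h7
      have h8 : (θ ∘ₗ ψ.restrictScalars F) (k • u) = θ k := by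
        change θ (ψ (k • u)) = θ k
        rw [map_smul, h2, smul_eq_mul, mul_one]
      have h9 : (θ ∘ₗ ψ.restrictScalars F) u = 1 := by
        change θ (ψ u) = 1
        rw [h2, hθ]
      rw [h8, h9, one_smul, smul_add] at h7
      have h10 : θ k • v₀ = k • v₀ := add_left_cancel h7
      apply hk
      refine ⟨θ k, ?_⟩
      have : (algebraMap F K (θ k) - k) • v₀ = 0 := by rw [sub_smul, algebraMap_smul, h10, sub_self]
      rcases smul_eq_zero.1 this with h | h
      · exact sub_eq_zero.1 h
      · exact absurd h hv₀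

lemma mem_normalizer_iff [Finite F] {K : Subalgebra F (Matrix ι ι F)} {g : GL ι F} :
    g ∈ subalgebraNormalizer K ↔ ∀ k : K, ∃ k' : K, (g : Matrix ι ι F) * k = k' * (g : Matrix ι ι F) := by
  constructor
  · intro hg k
    have h1 := (hg k).1 k.2
    refine ⟨⟨_, h1⟩, ?_⟩
    simp only
    rw [Matrix.mul_assoc, ← Units.val_mul, inv_mul_cancel, Units.val_one, Matrix.mul_one]
  · intro hg
    have h1 : ∀ k : K, (g : Matrix ι ι F) * k * ((g⁻¹ : GL ι F) : Matrix ι ι F) ∈ K := by
      intro k
      obtain ⟨k', hk'⟩ := hg k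
      rw [hk', Matrix.mul_assoc, ← Units.val_mul, mul_inv_cancel, Units.val_one, Matrix.mul_one]
      exact k'.2
    have e1 : ((g⁻¹ : GL ι F) : Matrix ι ι F) * (g : Matrix ι ι F) = 1 := by
      rw [← Units.val_mul, inv_mul_cancel, Units.val_one]
    have e : ∀ x : Matrix ι ι F, ((g⁻¹ : GL ι F) : Matrix ι ι F) *
        ((g : Matrix ι ι F) * x * ((g⁻¹ : GL ι F) : Matrix ι ι F)) * (g : Matrix ι ι F) = x := by
      intro x
      calc ((g⁻¹ : GL ι F) : Matrix ι ι F) *
          ((g : Matrix ι ι F) * x * ((g⁻¹ : GL ι F) : Matrix ι ι F)) * (g : Matrix ι ι F) =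
          (((g⁻¹ : GL ι F) : Matrix ι ι F) * (g : Matrix ι ι F)) * x *
            (((g⁻¹ : GL ι F) : Matrix ι ι F) * (g : Matrix ι ι F)) := by noncomm_ring
        _ = x := by rw [e1, Matrix.one_mul, Matrix.mul_one]
    intro k
    constructor
    · intro hk
      exact h1 ⟨k, hk⟩
    · intro hk
      have hinj : Function.Injective (fun k : K => (⟨_, h1 k⟩ : K)) := by
        intro a b hab
        have h2 := congrArg Subtype.val hab
        simp only at h2
        have h3 := congrArg (fun t => ((g⁻¹ : GL ι F) : Matrix ι ι F) * t * (g : Matrix ι ι F)) h2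
        simp only [e] at h3
        exact Subtype.ext h3
      obtain ⟨k₁, hk₁⟩ := Finite.surjective_of_injective hinj ⟨_, hk⟩
      have h2 := congrArg Subtype.val hk₁
      simp only at h2
      have h3 := congrArg (fun t => ((g⁻¹ : GL ι F) : Matrix ι ι F) * t * (g : Matrix ι ι F)) h2
      simp only [e] at h3
      rw [← h3]
      exact k₁.2

theorem main_matrix [Finite F] {r : ℕ} (hr : r.Prime) (hrn : r < Fintype.card ι)
    (K : Subalgebra F (Matrix ι ι F)) (hK : IsFieldSubalgebra r K) {M : Subgroup (GL ι F)}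
    (hM : ∀ d ∈ subalgebraNormalizer K, ∀ h ∈ M, Matrix.GeneralLinearGroup.det h = Matrix.GeneralLinearGroup.det d →
      d ∈ M) : M ≤ subalgebraNormalizer K ∨ specialLinear ι F ≤ M := by
  have hι : Nonempty ι := by
    rw [← Fintype.card_pos_iff]
    omega
  have key := @main_alg ι _ _ F _ K (fieldOf hK) (inferInstanceAs (Algebra F K)) _ K.val
    (by
      have : finrank F K = r := hK.finrank_eq
      rw [this]
      exact hr) (by
      have : finrank F K = r := hK.finrank_eq
      rw [this]
      exact hrn) M (by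
      intro d hd
      exact hM d (mem_normalizer_iff.2 hd))
  rcases key with h | h
  · left
    intro g hg
    exact mem_normalizer_iff.2 (h g hg)
  · exact Or.inr h

theorem extra_matrix [Finite F] {r : ℕ} (hr : r.Prime) (hrn : r < Fintype.card ι)
    (K : Subalgebra F (Matrix ι ι F)) (hK : IsFieldSubalgebra r K) :
    (∀ c : Fˣ, ∃ d ∈ subalgebraNormalizer K, Matrix.GeneralLinearGroup.det d = c) ∧
      ∃ g ∈ specialLinear ι F, g ∉ subalgebraNormalizer K := by
  have hι : Nonempty ι := by
    rw [← Fintype.card_pos_iff]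
    omega
  have key := @extra_alg ι _ _ F _ K (fieldOf hK) (inferInstanceAs (Algebra F K)) _ K.val
    (by
      have : finrank F K = r := hK.finrank_eq
      rw [this]
      exact hr) (by
      have : finrank F K = r := hK.finrank_eq
      rw [this]
      exact hrn)
  refine ⟨fun c => ?_, ?_⟩
  · obtain ⟨d, hd, hdc⟩ := key.1 c
    exact ⟨d, mem_normalizer_iff.2 hd, hdc⟩
  · obtain ⟨g, hg, hg'⟩ := key.2
    exact ⟨g, hg, fun h => hg' (mem_normalizer_iff.1 h)⟩

/-- The normaliser of a field of prime degree `r < n` is maximal in `GL_n`, its intersection with `SL_n` is maximal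
in `SL_n`. -/
theorem maximal [Finite F] {r : ℕ} (hr : r.Prime) (hrn : r < Fintype.card ι)
    (K : Subalgebra F (Matrix ι ι F)) (hK : IsFieldSubalgebra r K) :
    IsCoatom (subalgebraNormalizer K) ∧
      IsMaximalIn (specialLinear ι F) (subalgebraNormalizer K ⊓ specialLinear ι F) := by
  obtain ⟨hdet, g₀, hg₀, hg₀'⟩ := extra_matrix hr hrn K hK
  refine ⟨⟨?_, ?_⟩, ?_, ?_⟩
  · intro h
    apply hg₀'
    rw [h]
    trivial
  · intro M hM
    rcases main_matrix hr hrn K hK (M := M) (fun d hd _ _ _ => hM.le hd) with h | h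
    · exact absurd h hM.not_ge
    · rw [eq_top_iff]
      intro g _
      obtain ⟨d, hd, hdg⟩ := hdet (Matrix.GeneralLinearGroup.det g)
      have h1 : d⁻¹ * g ∈ specialLinear ι F := by
        change Matrix.GeneralLinearGroup.det (d⁻¹ * g) = 1
        rw [map_mul, map_inv, hdg, inv_mul_cancel]
      have h2 : g = d * (d⁻¹ * g) := by group
      rw [h2]
      exact M.mul_mem (hM.le hd) (h h1)
  · refine lt_of_le_of_ne inf_le_right (fun h => hg₀' ?_)
    rw [← h] at hg₀
    exact hg₀.1
  · intro M hM hMS
    rcases main_matrix hr hrn K hK (M := M) (fun d hd h hh hdh => hM ⟨hd, by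
        change Matrix.GeneralLinearGroup.det d = 1
        rw [← hdh]
        exact hMS hh⟩) with h | h
    · left
      exact le_antisymm (le_inf h hMS) hM
    · right
      exact le_antisymm hMS h

end matrix

end Cfsg.Agent.H98.Ext
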