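import Cfsg.Agent.H98.ExtG

set_option autoImplicit false
set_option linter.unusedSectionVars false
set_option linter.style.haveILetI false
set_option linter.unusedSimpArgs false

/-!
The normaliser of a field of composite degree is not maximal.
-/

namespace Cfsg.Agent.H98.Ext

open Module

lemma exists_nonsemi {A K V : Type*} [Field A] [Field K] [Algebra A K] [AddCommGroup V] [Module A V] [Module K V]
    [IsScalarTower A K V] (hAK : ∃ k : K, k ∉ Set.range (algebraMap A K)) {v₀ u : V} (hv₀ : v₀ ≠ 0)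
    (hu : u ∉ Submodule.span K {v₀}) :
    ∃ (l : Dual A V) (w : V) (h : l w = 0), ¬ Semi K (LinearEquiv.transvection h) := by
  obtain ⟨ψ, h1, h2⟩ := exists_dual_zero_one K hu
  obtain ⟨θ, hθ⟩ := exists_dual_one A (one_ne_zero (α := K))
  have h3 : (θ ∘ₗ ψ.restrictScalars A) v₀ = 0 := by
    change θ (ψ v₀) = 0
    rw [h1, map_zero]
  refine ⟨_, v₀, h3, fun hcon => ?_⟩
  obtain ⟨k, hk⟩ := hAK
  obtain ⟨k', hk'⟩ := hcon k
  have h4 := hk' v₀
  rw [LinearEquiv.transvection.apply, LinearEquiv.transvection.apply] at h4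
  have h5 : (θ ∘ₗ ψ.restrictScalars A) (k • v₀) = 0 := by
    change θ (ψ (k • v₀)) = 0
    rw [map_smul, h1, smul_zero, map_zero]
  rw [h5, h3, zero_smul, add_zero, add_zero] at h4
  have h6 : k = k' := by
    have : (k - k') • v₀ = 0 := by rw [sub_smul, h4, sub_self]
    rcases smul_eq_zero.1 this with h | h
    · exact sub_eq_zero.1 h
    · exact absurd h hv₀
  have h7 := hk' u
  rw [LinearEquiv.transvection.apply, LinearEquiv.transvection.apply, ← h6] at h7
  have h8 : (θ ∘ₗ ψ.restrictScalars A) (k • u) = θ k := by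
    change θ (ψ (k • u)) = θ k
    rw [map_smul, h2, smul_eq_mul, mul_one]
  have h9 : (θ ∘ₗ ψ.restrictScalars A) u = 1 := by
    change θ (ψ u) = 1
    rw [h2, hθ]
  rw [h8, h9, one_smul, smul_add] at h7
  have h10 : θ k • v₀ = k • v₀ := add_left_cancel h7
  apply hk
  refine ⟨θ k, ?_⟩
  have : (algebraMap A K (θ k) - k) • v₀ = 0 := by rw [sub_smul, algebraMap_smul, h10, sub_self]
  rcases smul_eq_zero.1 this with h | h
  · exact sub_eq_zero.1 h
  · exact absurd h hv₀

section matrix

open Cfsg.Geo Cfsg.Agent.GeoMax Cfsg.Agent.AschCases Matrix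
open scoped MatrixGroups

variable {ι : Type} [Fintype ι] [DecidableEq ι] {F : Type*} [Field F]

/-- An element of determinant one which is linear over `A` but not semilinear over the bigger field `K`. -/
theorem strict_alg {A K : Type*} [Field A] [Field K] [Algebra F A] [Algebra A K] [Algebra F K] [IsScalarTower F A K]
    [Finite F] (φ : K →ₐ[F] Matrix ι ι F) (hAK : ∃ k : K, k ∉ Set.range (algebraMap A K))
    (hpos : 0 < finrank F K) (hrn : finrank F K < Fintype.card ι) :
    ∃ g : GL ι F, g ∈ specialLinear ι F ∧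
      (∀ a : A, (g : Matrix ι ι F) * φ (algebraMap A K a) = φ (algebraMap A K a) * (g : Matrix ι ι F)) ∧
      ¬ (∀ k : K, ∃ k' : K, (g : Matrix ι ι F) * φ k = φ k' * (g : Matrix ι ι F)) := by
  classical
  letI : Module K (ι → F) := Module.compHom (ι → F)
    (((Matrix.toLinAlgEquiv' : Matrix ι ι F ≃ₐ[F] _).toAlgHom.comp φ : K →ₐ[F] _) : K →+* Module.End F (ι → F))
  have hsm : ∀ (k : K) (v : ι → F), k • v = φ k *ᵥ v := fun k v => rfl
  letI : Module A (ι → F) := Module.compHom (ι → F) (algebraMap A K)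
  have hsmA : ∀ (a : A) (v : ι → F), a • v = φ (algebraMap A K a) *ᵥ v := fun k v => rfl
  have htower : IsScalarTower F K (ι → F) := by
    refine ⟨fun c k v => ?_⟩
    rw [hsm, hsm, map_smul, Matrix.smul_mulVec]
  have htowerA : IsScalarTower A K (ι → F) := by
    refine ⟨fun a k v => ?_⟩
    rw [hsm, hsm, hsmA, Matrix.mulVec_mulVec, ← map_mul, Algebra.smul_def]
  have htowerFA : IsScalarTower F A (ι → F) := by
    refine ⟨fun c a v => ?_⟩
    rw [hsmA, hsmA, Algebra.smul_def, map_mul, ← IsScalarTower.algebraMap_apply F A K, map_mul, ← Matrix.mulVec_mulVec,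
      AlgHom.commutes, Algebra.algebraMap_eq_smul_one, Matrix.smul_mulVec, Matrix.one_mulVec]
  have : FiniteDimensional F K := FiniteDimensional.of_finrank_pos hpos
  have hdim := Module.finrank_mul_finrank F K (ι → F)
  rw [Module.finrank_fintype_fun_eq_card] at hdim
  have hι : Nonempty ι := by
    rw [← Fintype.card_pos_iff]
    omega
  obtain ⟨v₀, hv₀⟩ : ∃ v : ι → F, v ≠ 0 := by
    obtain ⟨i⟩ := hι
    refine ⟨Pi.single i 1, fun h0 => ?_⟩
    have := congrFun h0 i
    simp at this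
  obtain ⟨u, hu⟩ : ∃ u : ι → F, u ∉ Submodule.span K {v₀} := by
    by_contra hcon
    push Not at hcon
    have h1 : Submodule.span K {v₀} = ⊤ := by
      rw [eq_top_iff]
      intro x _
      exact hcon x
    have h2 := finrank_span_singleton (K := K) hv₀
    rw [h1, finrank_top] at h2
    rw [h2, mul_one] at hdim
    omega
  obtain ⟨l, w, h, hns⟩ := exists_nonsemi hAK hv₀ hu
  refine ⟨mx ((LinearEquiv.transvection h).restrictScalars F), ?_, ?_, ?_⟩
  · change Matrix.GeneralLinearGroup.det _ = 1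
    rw [← det_mx_symm, MulEquiv.symm_apply_apply]
    apply Units.ext
    rw [coe_det_restrict, LinearEquiv.transvection.det_eq_one, Units.val_one, map_one, Units.val_one]
  · intro a
    apply Matrix.toLin'.injective
    apply LinearMap.ext
    intro v
    change (((mx ((LinearEquiv.transvection h).restrictScalars F) : GL ι F) : Matrix ι ι F) * φ (algebraMap A K a)) *ᵥ v =
      (φ (algebraMap A K a) * ((mx ((LinearEquiv.transvection h).restrictScalars F) : GL ι F) : Matrix ι ι F)) *ᵥ v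
    rw [← Matrix.mulVec_mulVec, ← Matrix.mulVec_mulVec, mx_mulVec, mx_mulVec, ← hsmA, ← hsmA]
    exact map_smul (LinearEquiv.transvection h) a v
  · intro hg
    apply hns
    intro k
    obtain ⟨k', hk'⟩ := hg k
    refine ⟨k', fun v => ?_⟩
    have h1 := congrArg (fun m : Matrix ι ι F => m *ᵥ v) hk'
    simp only [← Matrix.mulVec_mulVec, mx_mulVec] at h1
    exact h1

/-- The fixed subalgebra of a power map. -/
def fixAlg [Fintype F] [Nonempty ι] (K : Subalgebra F (Matrix ι ι F)) {r : ℕ} (hK : IsFieldSubalgebra r K) (s : ℕ) :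
    Subalgebra F (Matrix ι ι F) where
  carrier := {x | x ∈ K ∧ x ^ (Fintype.card F) ^ s = x}
  mul_mem' := by
    rintro a b ⟨ha, ha'⟩ ⟨hb, hb'⟩
    refine ⟨K.mul_mem ha hb, ?_⟩
    rw [(show Commute a b from hK.comm a ha b hb).mul_pow, ha', hb']
  add_mem' := by
    rintro a b ⟨ha, ha'⟩ ⟨hb, hb'⟩
    refine ⟨K.add_mem ha hb, ?_⟩
    obtain ⟨p, hp⟩ := CharP.exists F
    obtain ⟨n, hpp, hn⟩ := FiniteField.card F p
    have : Fact p.Prime := ⟨hpp⟩
    rw [hn, ← pow_mul] at ha' hb' ⊢
    rw [add_pow_char_pow_of_commute p _ (show Commute a b from hK.comm a ha b hb), ha', hb']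
  algebraMap_mem' := by
    intro c
    refine ⟨K.algebraMap_mem c, ?_⟩
    rw [← map_pow, FiniteField.pow_card_pow]

end matrix

section mid

variable {F K : Type*} [Field F] [Fintype F] [Field K] [Algebra F K] [FiniteDimensional F K]

lemma exists_mid {s : ℕ} (hs : s ∣ finrank F K) (h1 : 1 < s) (h2 : s < finrank F K) :
    ∃ A : IntermediateField F K, (∀ x, x ∈ A ↔ x ^ (Fintype.card F) ^ s = x) ∧
      (∃ x : K, x ∉ A) ∧ ∃ x ∈ A, x ∉ Set.range (algebraMap F K) := by
  have hfinK : Finite K := Module.finite_of_finite F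
  obtain ⟨p, hp⟩ := CharP.exists F
  obtain ⟨n, hpp, hn⟩ := FiniteField.card F p
  have : Fact p.Prime := ⟨hpp⟩
  have hpK : CharP K p := charP_of_injective_algebraMap (algebraMap F K).injective p
  have hcardK : Nat.card K = (Fintype.card F) ^ finrank F K := by
    rw [Module.natCard_eq_pow_finrank (K := F), Nat.card_eq_fintype_card]
  obtain ⟨q, hq⟩ : ∃ q, q = Fintype.card F := ⟨_, rfl⟩
  have hq2 : 2 ≤ q := by rw [hq]; exact Fintype.one_lt_card
  let A : IntermediateField F K :=
    { carrier := {x | x ^ (Fintype.card F) ^ s = x}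
      mul_mem' := by
        intro a b ha hb
        change (a * b) ^ _ = a * b
        rw [mul_pow, (show a ^ _ = a from ha), (show b ^ _ = b from hb)]
      add_mem' := by
        intro a b ha hb
        change (a + b) ^ _ = a + b
        have ha' : a ^ (Fintype.card F) ^ s = a := ha
        have hb' : b ^ (Fintype.card F) ^ s = b := hb
        rw [hn, ← pow_mul] at ha' hb' ⊢
        rw [add_pow_char_pow, ha', hb']
      algebraMap_mem' := by
        intro c
        change (algebraMap F K c) ^ _ = algebraMap F K c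
        rw [← map_pow, FiniteField.pow_card_pow]
      inv_mem' := by
        intro a ha
        change a⁻¹ ^ _ = a⁻¹
        rw [inv_pow, (show a ^ _ = a from ha)] }
  have hA : ∀ x, x ∈ A ↔ x ^ (Fintype.card F) ^ s = x := fun x => Iff.rfl
  obtain ⟨z, hz⟩ := IsCyclic.exists_ofOrder_eq_natCard (α := Kˣ)
  rw [Nat.card_units, hcardK, ← hq] at hz
  have hqs : 1 < q ^ s := Nat.one_lt_pow (by omega) hq2
  have hqs' : q ^ s - 1 + 1 = q ^ s := by omega
  refine ⟨A, hA, ⟨(z : K), fun h => ?_⟩, ?_⟩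
  · rw [hA, ← hq] at h
    have h3 : z ^ (q ^ s - 1) = 1 := by
      have h4 : (z : K) ^ (q ^ s - 1) * z = 1 * z := by rw [← pow_succ, hqs', h, one_mul]
      apply Units.ext
      rw [Units.val_pow_eq_pow_val, Units.val_one]
      exact mul_right_cancel₀ z.ne_zero h4
    have h4 := orderOf_dvd_of_pow_eq_one h3
    rw [hz] at h4
    have h5 := Nat.le_of_dvd (by omega) h4
    have h6 : q ^ s < q ^ finrank F K := Nat.pow_lt_pow_right hq2 h2
    omega
  · obtain ⟨d, hd⟩ : q ^ s - 1 ∣ q ^ finrank F K - 1 := Nat.pow_sub_one_dvd_pow_sub_one q hs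
    have hpos : 0 < q ^ finrank F K - 1 := by
      have h6 : q ^ s < q ^ finrank F K := Nat.pow_lt_pow_right hq2 h2
      omega
    have hd0 : d ≠ 0 := by
      rintro rfl
      omega
    have ho : orderOf (z ^ d) = q ^ s - 1 := by
      rw [orderOf_pow_of_dvd hd0 (by rw [hz, hd]; exact Dvd.intro_left _ rfl), hz, hd, Nat.mul_div_cancel _ (by omega)]
    refine ⟨((z ^ d : Kˣ) : K), ?_, ?_⟩
    · rw [hA, ← hq]
      have h3 := pow_orderOf_eq_one (z ^ d)
      rw [ho] at h3
      have h4 := congrArg Units.val h3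
      rw [Units.val_pow_eq_pow_val, Units.val_one] at h4
      have h5 : ((z ^ d : Kˣ) : K) ^ (q ^ s - 1 + 1) = ((z ^ d : Kˣ) : K) := by rw [pow_succ, h4, one_mul]
      rwa [hqs'] at h5
    · rintro ⟨c, hc⟩
      have hc0 : c ≠ 0 := by
        rintro rfl
        rw [map_zero] at hc
        exact (z ^ d).ne_zero hc.symm
      have h3 : (z ^ d) ^ (q - 1) = 1 := by
        apply Units.ext
        rw [Units.val_pow_eq_pow_val, Units.val_one, ← hc, ← map_pow, hq, FiniteField.pow_card_sub_one_eq_one c hc0,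
          map_one]
      have h4 := orderOf_dvd_of_pow_eq_one h3
      rw [ho] at h4
      have h5 := Nat.le_of_dvd (by omega) h4
      have h6 : q ^ 1 < q ^ s := Nat.pow_lt_pow_right hq2 h1
      rw [pow_one] at h6
      omega

end mid

section matrix

open Cfsg.Geo Cfsg.Agent.GeoMax Cfsg.Agent.AschCases Matrix
open scoped MatrixGroups

variable {ι : Type} [Fintype ι] [DecidableEq ι] {F : Type*} [Field F]

theorem both_alg {K : Type*} [Field K] [Algebra F K] [Fintype F] (φ : K →ₐ[F] Matrix ι ι F)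
    (hpos : 0 < finrank F K) (hrn : finrank F K < Fintype.card ι) {s : ℕ} (hs : s ∣ finrank F K) (h1 : 1 < s)
    (h2 : s < finrank F K) :
    (∃ g ∈ specialLinear ι F, (∀ a : K, a ^ (Fintype.card F) ^ s = a →
        (g : Matrix ι ι F) * φ a = φ a * (g : Matrix ι ι F)) ∧
      ¬ (∀ k : K, ∃ k' : K, (g : Matrix ι ι F) * φ k = φ k' * (g : Matrix ι ι F))) ∧
    ∃ g ∈ specialLinear ι F, ¬ (∀ k : K, k ^ (Fintype.card F) ^ s = k →
      ∃ k' : K, k' ^ (Fintype.card F) ^ s = k' ∧ (g : Matrix ι ι F) * φ k = φ k' * (g : Matrix ι ι F)) := by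
  have : FiniteDimensional F K := FiniteDimensional.of_finrank_pos hpos
  obtain ⟨A, hA, ⟨x, hx⟩, ⟨y, hy, hy'⟩⟩ := exists_mid hs h1 h2
  constructor
  · obtain ⟨g, hg1, hg2, hg3⟩ := strict_alg (A := A) φ ⟨x, by
      rintro ⟨a, rfl⟩
      exact hx a.2⟩ hpos hrn
    exact ⟨g, hg1, fun a ha => hg2 ⟨a, (hA a).2 ha⟩, hg3⟩
  · obtain ⟨g, hg1, -, hg3⟩ := strict_alg (A := F) (K := A) (φ.comp A.val) ⟨⟨y, hy⟩, by
      rintro ⟨a, ha⟩
      exact hy' ⟨a, congrArg Subtype.val ha⟩⟩ finrank_pos (lt_of_le_of_lt (by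
        exact Submodule.finrank_le (Subalgebra.toSubmodule A.toSubalgebra)) hrn)
    refine ⟨g, hg1, fun hcon => hg3 (fun k => ?_)⟩
    obtain ⟨k', hk', hkk⟩ := hcon k ((hA k).1 k.2)
    exact ⟨⟨k', (hA k').2 hk'⟩, hkk⟩

theorem not_maximal [Fintype F] {r : ℕ} (hr1 : 1 < r) (hrp : ¬ r.Prime) (hrn : r < Fintype.card ι)
    (K : Subalgebra F (Matrix ι ι F)) (hK : IsFieldSubalgebra r K) :
    ¬ IsCoatom (subalgebraNormalizer K) ∧
      ¬ IsMaximalIn (specialLinear ι F) (subalgebraNormalizer K ⊓ specialLinear ι F) := by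
  have hι : Nonempty ι := by
    rw [← Fintype.card_pos_iff]
    omega
  have hs : r.minFac ∣ r := Nat.minFac_dvd r
  have hs1 : 1 < r.minFac := (Nat.minFac_prime (by omega)).one_lt
  have hs2 : r.minFac < r := lt_of_le_of_ne (Nat.minFac_le (by omega)) (fun h => hrp (by
    rw [← h]; exact Nat.minFac_prime (by omega)))
  have hfr : finrank F K = r := hK.finrank_eq
  have key := @both_alg ι _ _ F _ K (fieldOf hK) (inferInstanceAs (Algebra F K)) _ K.val
    (by change 0 < finrank F K; rw [hfr]; omega) (by change finrank F K < _; rw [hfr]; exact hrn) r.minFac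
    (by change _ ∣ finrank F K; rw [hfr]; exact hs) hs1 (by change _ < finrank F K; rw [hfr]; exact hs2)
  obtain ⟨⟨g, hg1, hg2, hg3⟩, ⟨g', hg'1, hg'2⟩⟩ := key
  have hle : subalgebraNormalizer K ≤ subalgebraNormalizer (fixAlg K hK r.minFac) := by
    intro x hx
    rw [mem_normalizer_iff]
    rintro ⟨k, hk, hk'⟩
    have h1 := (hx k).1 hk
    have e1 : ((x⁻¹ : GL ι F) : Matrix ι ι F) * (x : Matrix ι ι F) = 1 := by
      rw [← Units.val_mul, inv_mul_cancel, Units.val_one]
    refine ⟨⟨_, h1, ?_⟩, ?_⟩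
    · have h2 : ∀ n : ℕ, ((x : Matrix ι ι F) * k * ((x⁻¹ : GL ι F) : Matrix ι ι F)) ^ n =
          (x : Matrix ι ι F) * k ^ n * ((x⁻¹ : GL ι F) : Matrix ι ι F) := by
        intro n
        exact Units.conj_pow x k n
      rw [h2, hk']
    · simp only
      rw [Matrix.mul_assoc, e1, Matrix.mul_one]
  have hgN : g ∈ subalgebraNormalizer (fixAlg K hK r.minFac) := by
    rw [mem_normalizer_iff]
    rintro ⟨k, hk, hk'⟩
    exact ⟨⟨k, hk, hk'⟩, hg2 ⟨k, hk⟩ (Subtype.ext hk')⟩
  have hgN' : g ∉ subalgebraNormalizer K := by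
    rw [mem_normalizer_iff]
    exact hg3
  have hg'N : g' ∉ subalgebraNormalizer (fixAlg K hK r.minFac) := by
    intro h
    rw [mem_normalizer_iff] at h
    apply hg'2
    intro k hk
    obtain ⟨⟨k', hk'1, hk'2⟩, hkk⟩ := h ⟨k, k.2, congrArg Subtype.val hk⟩
    exact ⟨⟨k', hk'1⟩, Subtype.ext hk'2, hkk⟩
  constructor
  · intro hco
    have h1 : subalgebraNormalizer K < subalgebraNormalizer (fixAlg K hK r.minFac) :=
      lt_of_le_of_ne hle (fun h => hgN' (by rw [h]; exact hgN))
    have h2 := hco.2 _ h1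
    apply hg'N
    rw [h2]
    trivial
  · intro hmax
    rcases hmax.2 (subalgebraNormalizer (fixAlg K hK r.minFac) ⊓ specialLinear ι F)
      (inf_le_inf_right _ hle) inf_le_right with h | h
    · have h1 : g ∈ subalgebraNormalizer K ⊓ specialLinear ι F := by
        rw [← h]
        exact ⟨hgN, hg1⟩
      exact hgN' h1.1
    · have h1 : g' ∈ subalgebraNormalizer (fixAlg K hK r.minFac) ⊓ specialLinear ι F := by
        rw [h]
        exact hg'1
      exact hg'N h1.1

end matrix

end Cfsg.Agent.H98.Ext
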