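import Cfsg.Agent.H31.PP.Basics
import Cfsg.Agent.H69.PChain

/-!
Part I of the theorem on pairs of Sylow subgroups generating `p`-solvable groups: the weakly closed case.
-/

set_option autoImplicit false

namespace Cfsg.Agent.H98.PPI

open Subgroup Cfsg Cfsg.Agent.H31.PP

universe u

variable {G : Type u} [Group G] [Finite G] {p : ℕ} [Fact p.Prime]

/-- the central weakly closed element lies in `O_{p',p}`. -/
theorem z_mem_OP (P : Sylow p G) {z : G} (hzP : z ∈ (P : Subgroup G)) (hzc : ∀ x ∈ (P : Subgroup G), x * z = z * x)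
    (hwc : ∀ g : G, g * z * g⁻¹ ∈ (P : Subgroup G) → g * z * g⁻¹ ∈ zpowers z) {V : Subgroup G}
    (hV : IsPSolvable p V) (hz : z ∈ V) : z ∈ OP p V := by
  obtain ⟨S, hS, hzS⟩ := exists_syl (p := p) (V := V) (T := zpowers z) (by rwa [zpowers_le])
    (P.isPGroup'.to_le (by rwa [zpowers_le]))
  have hzS' : z ∈ S := hzS (mem_zpowers z)
  obtain ⟨R, hR⟩ := hS.pg.exists_le_sylow
  obtain ⟨h, hh⟩ := MulAction.exists_smul_eq G P R
  have hconj : ∀ s ∈ S, h⁻¹ * s * h ∈ (P : Subgroup G) := by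
    intro s hs
    have h1 : s ∈ (R : Subgroup G) := hR hs
    rw [← hh, Sylow.coe_subgroup_smul, Subgroup.mem_pointwise_smul_iff_inv_smul_mem] at h1
    simpa [MulAut.smul_def, ← map_inv, MulAut.conj_apply] using h1
  apply mem_OP_of_comm hV hS hz
  intro s hs _
  have h1 : h⁻¹ * z * h ∈ zpowers z := by
    have := hwc h⁻¹ (by rw [inv_inv]; exact hconj z hzS')
    rwa [inv_inv] at this
  obtain ⟨k, hk⟩ := mem_zpowers_iff.1 h1
  have h2 : Commute (h⁻¹ * s * h) (z ^ k) := Commute.zpow_right (hzc _ (hconj s hs)) k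
  rw [hk] at h2
  have h3 : s * z = z * s := by
    have h4 := h2.eq
    have h5 : h⁻¹ * (s * z) * h = h⁻¹ * (z * s) * h := by
      calc h⁻¹ * (s * z) * h = h⁻¹ * s * h * (h⁻¹ * z * h) := by group
        _ = h⁻¹ * z * h * (h⁻¹ * s * h) := h4
        _ = h⁻¹ * (z * s) * h := by group
    exact mul_left_cancel (mul_right_cancel h5)
  have h6 : z * s * z⁻¹ * s⁻¹ = 1 := by rw [← h3]; group
  rw [h6]
  exact one_mem _

/-- a proper `V` containing `P`: the normal subgroup `B` lies in `O_{p',p}(V)`. -/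
theorem B_le_OP (P : Sylow p G) {z : G} (B : Subgroup G) (hBP : B ≤ P)
    (hBn : ∀ x ∈ (P : Subgroup G), ∀ b ∈ B, x * b * x⁻¹ ∈ B) (hBc : Nat.card B = p ^ 2)
    (hzB : z ∈ B) (hz1 : z ≠ 1) (hzp : z ^ p = 1) (hzc : ∀ x ∈ (P : Subgroup G), x * z = z * x)
    (hwc : ∀ g : G, g * z * g⁻¹ ∈ (P : Subgroup G) → g * z * g⁻¹ ∈ zpowers z) {V : Subgroup G}
    (hV : IsPSolvable p V) (hPV : (P : Subgroup G) ≤ V) : B ≤ OP p V := by
  classical
  have hp : p.Prime := Fact.out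
  have hSyl : Syl p (P : Subgroup G) V := Syl.of_sylow P hPV
  have hzV : z ∈ V := hPV (hBP hzB)
  have hzOP : z ∈ OP p V := z_mem_OP P (hBP hzB) hzc hwc hV hzV
  by_contra hcon
  -- `B ∩ OP = ⟨z⟩`
  have hoz : orderOf z = p := orderOf_eq_prime hzp hz1
  have hBO : B ⊓ OP p V = zpowers z := by
    have h1 : zpowers z ≤ B ⊓ OP p V := by
      rw [zpowers_le]; exact ⟨hzB, hzOP⟩
    have h2 : Nat.card ↥(B ⊓ OP p V) ∣ p ^ 2 := by
      rw [← hBc]; exact Subgroup.card_dvd_of_le inf_le_left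
    obtain ⟨j, hj, hj'⟩ := (Nat.dvd_prime_pow hp).1 h2
    have hj2 : j ≠ 2 := by
      rintro rfl
      apply hcon
      have h3 : B ⊓ OP p V = B := Subgroup.eq_of_le_of_card_ge inf_le_left (by rw [hj', hBc])
      rw [← h3]; exact inf_le_right
    have h4 : Nat.card ↥(zpowers z) = p := by rw [Nat.card_zpowers, hoz]
    refine (Subgroup.eq_of_le_of_card_ge h1 ?_).symm
    rw [h4, hj']
    calc p ^ j ≤ p ^ 1 := Nat.pow_le_pow_right hp.pos (by omega)
      _ = p := pow_one p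
  have hcomm : ∀ b ∈ B, ∀ s ∈ (P : Subgroup G), s ∈ OP p V → b * s * b⁻¹ * s⁻¹ ∈ zpowers z := by
    intro b hb s hs hsO
    rw [← hBO]
    constructor
    · have : b * s * b⁻¹ * s⁻¹ = b * (s * b⁻¹ * s⁻¹) := by group
      rw [this]
      exact B.mul_mem hb (hBn s hs _ (B.inv_mem hb))
    · exact (OP p V).mul_mem (OP_conj (hPV (hBP hb)) hsO) ((OP p V).inv_mem hsO)
  -- the quotient
  set N := pPrimeCore p ↥V with hN
  set π := QuotientGroup.mk' N with hπ
  have hOO : ∀ x : ↥V, (x : G) ∈ OO p V ↔ π x = 1 := by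
    intro x
    unfold OO
    rw [Subgroup.mem_map]
    constructor
    · rintro ⟨y, hy, hyx⟩
      have : y = x := Subtype.ext hyx
      rw [← this]
      exact (QuotientGroup.eq_one_iff y).2 hy
    · intro h
      exact ⟨x, (QuotientGroup.eq_one_iff x).1 h, rfl⟩
  have hOP : ∀ x : ↥V, (x : G) ∈ OP p V ↔ π x ∈ pCore p (↥V ⧸ N) := by
    intro x
    unfold OP
    rw [Subgroup.mem_map]
    constructor
    · rintro ⟨y, hy, hyx⟩
      have : y = x := Subtype.ext hyx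
      rw [← this]
      exact hy
    · intro h
      exact ⟨x, h, rfl⟩
  obtain ⟨zb, hzb⟩ : ∃ zb, zb = π ⟨z, hzV⟩ := ⟨_, rfl⟩
  have hzbp : zb ^ p = 1 := by
    rw [hzb, ← map_pow]
    have : (⟨z, hzV⟩ : ↥V) ^ p = 1 := Subtype.ext (by simpa using hzp)
    rw [this, map_one]
  have hzpow : ∀ (x : G) (hx : x ∈ zpowers z) (hxV : x ∈ V), π ⟨x, hxV⟩ ∈ zpowers zb := by
    intro x hx hxV
    obtain ⟨i, rfl⟩ := mem_zpowers_iff.1 hx
    refine mem_zpowers_iff.2 ⟨i, ?_⟩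
    rw [hzb, ← map_zpow]
    rfl
  -- `⟨zb⟩` is normal
  have hznorm : ∀ v : ↥V ⧸ N, ∀ c ∈ zpowers zb, v * c * v⁻¹ ∈ zpowers zb := by
    have h0 : ∀ v : ↥V ⧸ N, v * zb * v⁻¹ ∈ zpowers zb := by
      intro v
      obtain ⟨v, rfl⟩ := QuotientGroup.mk'_surjective N v
      have h1 : (v : G) * z * (v : G)⁻¹ ∈ OP p V := OP_conj v.2 hzOP
      have h2 : IsPGroup p ↥(zpowers ((v : G) * z * (v : G)⁻¹)) := by
        rintro ⟨y, hy⟩
        obtain ⟨i, rfl⟩ := mem_zpowers_iff.1 hy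
        refine ⟨1, Subtype.ext ?_⟩
        simp only [pow_one, SubmonoidClass.mk_pow, OneMemClass.coe_one]
        rw [conj_zpow, conj_pow, ← zpow_natCast, ← zpow_mul, mul_comm i, zpow_mul, zpow_natCast, hzp, one_zpow,
          mul_one, mul_inv_cancel]
      obtain ⟨k, hk, hk2⟩ := exists_conj_le hSyl (A := zpowers ((v : G) * z * (v : G)⁻¹)) (by rwa [zpowers_le]) h2
      have h3 := hk2 _ (mem_zpowers _)
      have h4 : (k * v) * z * (k * v)⁻¹ ∈ zpowers z := by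
        apply hwc
        have : (k * v) * z * (k * v)⁻¹ = k * ((v : G) * z * (v : G)⁻¹) * k⁻¹ := by group
        rw [this]; exact h3
      have hkV : k ∈ V := OO_le V hk
      have h5 : (k * v) * z * (k * v)⁻¹ ∈ V := V.mul_mem (V.mul_mem (V.mul_mem hkV v.2) hzV) (V.inv_mem (V.mul_mem hkV v.2))
      have h6 := hzpow _ h4 h5
      have h7 : π ⟨k, hkV⟩ = 1 := (hOO ⟨k, hkV⟩).1 hk
      have h8 : π ⟨(k * v) * z * (k * v)⁻¹, h5⟩ = π v * zb * (π v)⁻¹ := by
        have : (⟨(k * v) * z * (k * v)⁻¹, h5⟩ : ↥V) = (⟨k, hkV⟩ * v) * ⟨z, hzV⟩ * (⟨k, hkV⟩ * v)⁻¹ := rfl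
        rw [this, map_mul, map_mul, map_mul, map_inv, map_mul, h7, one_mul, ← hzb]
      rw [h8] at h6
      exact h6
    intro v c hc
    obtain ⟨i, rfl⟩ := mem_zpowers_iff.1 hc
    rw [← conj_zpow]
    exact (zpowers zb).zpow_mem (h0 v) i
  have hQn : (pCore p (↥V ⧸ N)).Normal := by
    unfold pCore
    exact Subgroup.sSup_normal _ (fun M hM => hM.1)
  -- the subgroup X
  let X : Subgroup (↥V ⧸ N) :=
    { carrier := {x | x * zb = zb * x ∧ ∀ q ∈ pCore p (↥V ⧸ N), x * q * x⁻¹ * q⁻¹ ∈ zpowers zb}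
      one_mem' := by
        refine ⟨by rw [one_mul, mul_one], fun q _ => ?_⟩
        have : (1 : ↥V ⧸ N) * q * 1⁻¹ * q⁻¹ = 1 := by group
        rw [this]; exact one_mem _
      mul_mem' := by
        rintro x y ⟨hx1, hx2⟩ ⟨hy1, hy2⟩
        refine ⟨by rw [mul_assoc, hy1, ← mul_assoc, hx1, mul_assoc], fun q hq => ?_⟩
        have h1 : x * y * q * (x * y)⁻¹ * q⁻¹ = (x * (y * q * y⁻¹ * q⁻¹) * x⁻¹) * (x * q * x⁻¹ * q⁻¹) := by group
        rw [h1]
        exact (zpowers zb).mul_mem (hznorm x _ (hy2 q hq)) (hx2 q hq)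
      inv_mem' := by
        rintro x ⟨hx1, hx2⟩
        refine ⟨?_, fun q hq => ?_⟩
        · calc x⁻¹ * zb = x⁻¹ * (zb * x) * x⁻¹ := by group
            _ = x⁻¹ * (x * zb) * x⁻¹ := by rw [hx1]
            _ = zb * x⁻¹ := by group
        · have h1 : x⁻¹ * q * x⁻¹⁻¹ * q⁻¹ = x⁻¹ * (x * q * x⁻¹ * q⁻¹)⁻¹ * x⁻¹⁻¹ := by group
          rw [h1]
          exact hznorm x⁻¹ _ ((zpowers zb).inv_mem (hx2 q hq)) }
  have hXn : X.Normal := by
    refine ⟨fun x hx v => ⟨?_, fun q hq => ?_⟩⟩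
    · obtain ⟨i, hi⟩ := mem_zpowers_iff.1 (hznorm v⁻¹ zb (mem_zpowers zb))
      have h1 : Commute x (v⁻¹ * zb * v⁻¹⁻¹) := by
        rw [← hi]
        exact Commute.zpow_right hx.1 i
      have h2 := h1.eq
      calc v * x * v⁻¹ * zb = v * (x * (v⁻¹ * zb * v⁻¹⁻¹)) * v⁻¹ := by group
        _ = v * ((v⁻¹ * zb * v⁻¹⁻¹) * x) * v⁻¹ := by rw [h2]
        _ = zb * (v * x * v⁻¹) := by group
    · have h1 : v * x * v⁻¹ * q * (v * x * v⁻¹)⁻¹ * q⁻¹ =
          v * (x * (v⁻¹ * q * v⁻¹⁻¹) * x⁻¹ * (v⁻¹ * q * v⁻¹⁻¹)⁻¹) * v⁻¹ := by group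
      rw [h1]
      exact hznorm v _ (hx.2 _ (hQn.conj_mem q hq v⁻¹))
  have hXp : IsPGroup p X := by
    rintro ⟨x, hx⟩
    have hx0 : orderOf x ≠ 0 := (orderOf_pos x).ne'
    obtain ⟨k, m, hm, hkm⟩ := Nat.exists_eq_pow_mul_and_not_dvd hx0 p hp.ne_one
    refine ⟨k, Subtype.ext ?_⟩
    change x ^ p ^ k = 1
    obtain ⟨w, hw⟩ : ∃ w, w = x ^ p ^ k := ⟨_, rfl⟩
    rw [← hw]
    have hwm : w ^ m = 1 := by
      rw [hw, ← pow_mul, ← hkm, pow_orderOf_eq_one]
    have hwX : w ∈ X := by rw [hw]; exact X.pow_mem hx _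
    have hmp : Nat.Coprime m p := ((Nat.Prime.coprime_iff_not_dvd hp).2 hm).symm
    obtain ⟨v, hv⟩ := QuotientGroup.mk'_surjective N w
    have hwQ : (v : G) ∈ OP p V := by
      apply mem_OP_of_comm hV hSyl v.2
      intro s hs hsO
      have hsV : s ∈ V := hPV hs
      obtain ⟨q, hq⟩ : ∃ q, q = π ⟨s, hsV⟩ := ⟨_, rfl⟩
      have hqQ : q ∈ pCore p (↥V ⧸ N) := by rw [hq]; exact (hOP ⟨s, hsV⟩).1 hsO
      obtain ⟨c, hc⟩ : ∃ c, c = w * q * w⁻¹ * q⁻¹ := ⟨_, rfl⟩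
      have hcz : c ∈ zpowers zb := by rw [hc]; exact hwX.2 q hqQ
      have hcw : w * c = c * w := by
        obtain ⟨i, hi⟩ := mem_zpowers_iff.1 hcz
        rw [← hi]
        exact (Commute.zpow_right hwX.1 i).eq
      have hcp : c ^ p = 1 := by
        obtain ⟨i, hi⟩ := mem_zpowers_iff.1 hcz
        rw [← hi, ← zpow_natCast, ← zpow_mul, mul_comm i, zpow_mul, zpow_natCast, hzbp, one_zpow]
      have hj : ∀ j : ℕ, w ^ j * q = c ^ j * q * w ^ j := by
        intro j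
        induction j with
        | zero => simp
        | succ j ih =>
          have h1 : w * q = c * q * w := by rw [hc]; group
          have h2 : w * c ^ j = c ^ j * w := (Commute.pow_right hcw j).eq
          calc w ^ (j + 1) * q = w * (w ^ j * q) := by rw [pow_succ']; group
            _ = w * (c ^ j * q * w ^ j) := by rw [ih]
            _ = (w * c ^ j) * q * w ^ j := by group
            _ = c ^ j * (w * q) * w ^ j := by rw [h2]; group
            _ = c ^ j * (c * q * w) * w ^ j := by rw [h1]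
            _ = c ^ (j + 1) * q * w ^ (j + 1) := by rw [pow_succ c j, pow_succ' w j]; group
      have hcm : c ^ m = 1 := by
        have h1 := hj m
        rw [hwm, one_mul, mul_one] at h1
        exact (mul_right_cancel (h1.symm.trans (one_mul q).symm))
      have hc1 : c = 1 := by
        have h1 : orderOf c ∣ m := orderOf_dvd_of_pow_eq_one hcm
        have h2 : orderOf c ∣ p := orderOf_dvd_of_pow_eq_one hcp
        have h3 : orderOf c ∣ 1 := by rw [← hmp]; exact Nat.dvd_gcd h1 h2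
        exact orderOf_eq_one_iff.1 (Nat.dvd_one.1 h3)
      have hfin : (⟨(v : G) * s * (v : G)⁻¹ * s⁻¹, V.mul_mem (V.mul_mem (V.mul_mem v.2 hsV) (V.inv_mem v.2)) (V.inv_mem hsV)⟩ : ↥V) =
          v * ⟨s, hsV⟩ * v⁻¹ * ⟨s, hsV⟩⁻¹ := rfl
      have := (hOO ⟨(v : G) * s * (v : G)⁻¹ * s⁻¹, V.mul_mem (V.mul_mem (V.mul_mem v.2 hsV) (V.inv_mem v.2)) (V.inv_mem hsV)⟩).2
      apply this
      rw [hfin, map_mul, map_mul, map_mul, map_inv, map_inv, hv, ← hq, ← hc, hc1]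
    have hwQ2 : w ∈ pCore p (↥V ⧸ N) := by
      rw [← hv]; exact (hOP v).1 hwQ
    have hQp : IsPGroup p ↥(pCore p (↥V ⧸ N)) := Cfsg.Agent.Solv.pCore_isPGroup p
    obtain ⟨i, hi⟩ := hQp ⟨w, hwQ2⟩
    have hi' : w ^ p ^ i = 1 := by simpa [Subtype.ext_iff] using hi
    have h1 : orderOf w ∣ m := orderOf_dvd_of_pow_eq_one hwm
    have h2 : orderOf w ∣ p ^ i := orderOf_dvd_of_pow_eq_one hi'
    have h3 : orderOf w ∣ 1 := by
      rw [← Nat.Coprime.pow_right i hmp]; exact Nat.dvd_gcd h1 h2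
    exact orderOf_eq_one_iff.1 (Nat.dvd_one.1 h3)
  have hXQ : X ≤ pCore p (↥V ⧸ N) := le_sSup ⟨hXn, hXp⟩
  apply hcon
  intro b hb
  have hbV : b ∈ V := hPV (hBP hb)
  apply (hOP ⟨b, hbV⟩).2
  apply hXQ
  refine ⟨?_, fun q hq => ?_⟩
  · rw [hzb, ← map_mul, ← map_mul]
    congr 1
    exact Subtype.ext (hzc b (hBP hb))
  · obtain ⟨y, rfl⟩ := QuotientGroup.mk'_surjective N q
    obtain ⟨k, hk, s, hs, hsO, hy⟩ := exists_factor hSyl ((hOP y).2 hq)
    have hsV : s ∈ V := hPV hs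
    have hkV : k ∈ V := OO_le V hk
    have h1 : π y = π ⟨s, hsV⟩ := by
      have : y = ⟨k, hkV⟩ * ⟨s, hsV⟩ := Subtype.ext hy
      rw [this, map_mul, (hOO ⟨k, hkV⟩).1 hk, one_mul]
    change π ⟨b, hbV⟩ * π y * (π ⟨b, hbV⟩)⁻¹ * (π y)⁻¹ ∈ _
    rw [h1, ← map_mul, ← map_inv, ← map_mul, ← map_inv, ← map_mul]
    exact hzpow (b * s * b⁻¹ * s⁻¹) (hcomm b hb s hs hsO) _

/-- the statement of the final argument. -/
def FinSt (p : ℕ) : Prop :=
  ∀ (G : Type u) [Group G] [Finite G], MinS p G → ∀ (P : Sylow p G) (A : Subgroup G), A ≤ P →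
    (∀ x ∈ (P : Subgroup G), ∀ a ∈ A, x * a * x⁻¹ ∈ A) → (∀ a ∈ A, ∀ b ∈ A, a * b = b * a) → ¬ IsCyclic A →
    ∀ z : G, z ∈ A → z ≠ 1 → (∀ x ∈ (P : Subgroup G), x * z = z * x) →
    (∀ V : Subgroup G, V ≠ ⊤ → (P : Subgroup G) ≤ V → A ≤ OP p V) →
    (∀ g : G, A.map (MulAut.conj g).toMonoidHom ≤ (P : Subgroup G) → ∀ K : Subgroup G, (Nat.card K).Coprime p →
      (∀ x ∈ (P : Subgroup G), ∀ k ∈ K, x * k * x⁻¹ ∈ K) → ∀ a ∈ A.map (MulAut.conj g).toMonoidHom, a ≠ 1 → ∀ k ∈ K,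
      k * a = a * k → k ∈ WW p (A.map (MulAut.conj g).toMonoidHom)) → False

/-- **Part I**. -/
theorem partI_of (hF : FinSt.{u} p) (hM : MinS p G) (P : Sylow p G) {z : G} (B : Subgroup G) (hBP : B ≤ P)
    (hBn : ∀ x ∈ (P : Subgroup G), ∀ b ∈ B, x * b * x⁻¹ ∈ B) (hBc : Nat.card B = p ^ 2) (hBnc : ¬ IsCyclic B)
    (hzB : z ∈ B) (hz1 : z ≠ 1) (hzc : ∀ x ∈ (P : Subgroup G), x * z = z * x)
    (hwc : ∀ g : G, g * z * g⁻¹ ∈ (P : Subgroup G) → g * z * g⁻¹ ∈ zpowers z) : False := by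
  classical
  have hp : p.Prime := Fact.out
  have hzp : z ^ p = 1 := by
    have h1 : orderOf z ∣ p ^ 2 := by
      rw [← hBc]
      have := orderOf_dvd_natCard (⟨z, hzB⟩ : B)
      rwa [Subgroup.orderOf_mk] at this
    obtain ⟨j, hj, hj'⟩ := (Nat.dvd_prime_pow hp).1 h1
    have hj2 : j ≠ 2 := by
      rintro rfl
      apply hBnc
      apply isCyclic_of_orderOf_eq_card (⟨z, hzB⟩ : B)
      rw [Subgroup.orderOf_mk, hj', hBc]
    apply orderOf_dvd_iff_pow_eq_one.1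
    rw [hj']
    calc p ^ j ∣ p ^ 1 := pow_dvd_pow p (by omega)
      _ = p := pow_one p
  have hoz : orderOf z = p := orderOf_eq_prime hzp hz1
  have hab : ∀ a ∈ B, ∀ b ∈ B, a * b = b * a := by
    intro a ha b hb
    have := (IsPGroup.isMulCommutative_of_card_eq_prime_sq hBc).is_comm.comm ⟨a, ha⟩ ⟨b, hb⟩
    exact congrArg Subtype.val this
  have hcent : ∀ b : G, b ≠ 1 → centralizer ({b} : Set G) ≠ ⊤ := by
    intro b hb htop
    have hbc : b ∈ center G := by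
      rw [mem_center_iff]
      intro g
      have h1 : g ∈ centralizer ({b} : Set G) := by rw [htop]; trivial
      exact (mem_centralizer_iff.1 h1 b rfl).symm
    have := hM.simp
    rcases (inferInstance : (center G).Normal).eq_bot_or_eq_top with h | h
    · rw [h, mem_bot] at hbc
      exact hb hbc
    · apply hM.nps
      have hcomm : ∀ x y : G, x * y = y * x := fun x y => by
        have : y ∈ center G := by rw [h]; trivial
        exact mem_center_iff.1 this x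
      let _ : CommGroup G := { (inferInstance : Group G) with mul_comm := hcomm }
      have hpr : (Nat.card G).Prime := IsSimpleGroup.prime_card
      by_cases h2 : Nat.card G = p
      · refine ((Cfsg.Agent.H69.PChain.bot p).step (M := (⊤ : Subgroup G)) bot_le inferInstance (Or.inl ⟨1, ?_⟩)).isPSolvable
        rw [Subgroup.relIndex_bot_left, Subgroup.card_top, h2, pow_one]
      · refine ((Cfsg.Agent.H69.PChain.bot p).step (M := (⊤ : Subgroup G)) bot_le inferInstance (Or.inr ?_)).isPSolvable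
        rw [Subgroup.relIndex_bot_left, Subgroup.card_top]
        exact (Nat.coprime_primes hpr hp).2 h2
  refine hF G hM P B hBP hBn hab hBnc z hzB hz1 hzc
    (fun V hV hPV => B_le_OP P B hBP hBn hBc hzB hz1 hzp hzc hwc (hM.sub V hV) hPV) ?_
  intro g hg K hKc hKP b hb hb1 k hk hkb
  obtain ⟨Bg, hBg⟩ : ∃ Bg, Bg = B.map (MulAut.conj g).toMonoidHom := ⟨_, rfl⟩
  rw [← hBg] at hg hb ⊢
  -- `z ∈ B^g`
  have hzg : g * z * g⁻¹ ∈ Bg := by
    rw [hBg]; exact ⟨z, hzB, rfl⟩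
  have hzg2 : g * z * g⁻¹ ∈ zpowers z := hwc g (hg hzg)
  have hzBg : z ∈ Bg := by
    have h1 : zpowers (g * z * g⁻¹) ≤ zpowers z := by rwa [zpowers_le]
    have h2 : zpowers (g * z * g⁻¹) = zpowers z := by
      apply Subgroup.eq_of_le_of_card_ge h1
      rw [Nat.card_zpowers, Nat.card_zpowers]
      have : orderOf (g * z * g⁻¹) = orderOf z := by
        have := orderOf_injective (MulAut.conj g).toMonoidHom (MulAut.conj g).injective z
        simpa using this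
      rw [this]
    have h3 : z ∈ zpowers (g * z * g⁻¹) := by rw [h2]; exact mem_zpowers z
    exact (zpowers_le.2 hzg) h3
  have hbP : b ∈ (P : Subgroup G) := hg hb
  have hCb : IsPSolvable p (centralizer ({b} : Set G)) := hM.sub _ (hcent b hb1)
  have hCz : IsPSolvable p (centralizer ({z} : Set G)) := hM.sub _ (hcent z hz1)
  have mem_c : ∀ x y : G, x ∈ centralizer ({y} : Set G) ↔ x * y = y * x := by
    intro x y
    rw [mem_centralizer_singleton_iff]
  have hzCb : z ∈ centralizer ({b} : Set G) := (mem_c z b).2 (hzc b hbP).symm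
  have hzO : z ∈ OP p (centralizer ({b} : Set G)) := z_mem_OP P (hBP hzB) hzc hwc hCb hzCb
  have hzK : ∀ x ∈ K ⊓ centralizer ({b} : Set G), z * x * z⁻¹ ∈ K ⊓ centralizer ({b} : Set G) := by
    rintro x ⟨hx1, hx2⟩
    exact ⟨hKP z (hBP hzB) x hx1, (centralizer ({b} : Set G)).mul_mem ((centralizer ({b} : Set G)).mul_mem hzCb hx2)
      ((centralizer ({b} : Set G)).inv_mem hzCb)⟩
  obtain ⟨c, hc, l, hl, hkcl, hcz, hlcl⟩ := exists_per (K := K ⊓ centralizer ({b} : Set G)) (p := p)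
    (Nat.Coprime.coprime_dvd_left (Subgroup.card_dvd_of_le inf_le_left) hKc) (a := z) (w := k) ⟨1, by rwa [pow_one]⟩ hzK
    ⟨hk, (mem_c k b).2 hkb⟩
  have hl2 : l ∈ OP p (centralizer ({b} : Set G)) := by
    have h1 : closure ({z, k⁻¹ * z * k} : Set G) ≤ OP p (centralizer ({b} : Set G)) := by
      rw [closure_le]
      rintro x (rfl | rfl)
      · exact hzO
      · have := OP_conj (p := p) (V := centralizer ({b} : Set G)) (v := k⁻¹)
          ((centralizer ({b} : Set G)).inv_mem ((mem_c k b).2 hkb)) hzO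
        rwa [inv_inv] at this
    exact h1 hlcl
  have hl3 : l ∈ th p b := by
    apply mem_OO_of_mem_OP hl2
    apply Nat.Coprime.coprime_dvd_left _ hKc
    have := orderOf_dvd_natCard (⟨l, hl.1⟩ : K)
    rwa [Subgroup.orderOf_mk] at this
  have hc3 : c ∈ th p z := by
    have h1 : K ⊓ centralizer ({z} : Set G) ≤ OO p (centralizer ({z} : Set G)) := by
      apply le_OO_of_inv hCz (Syl.of_sylow P (V := centralizer ({z} : Set G)) (fun x hx => (mem_c x z).2 (hzc x hx))) inf_le_right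
        (Nat.Coprime.coprime_dvd_left (Subgroup.card_dvd_of_le inf_le_left) hKc)
      rintro s hs x ⟨hx1, hx2⟩
      have hsC : s ∈ centralizer ({z} : Set G) := (mem_c s z).2 (hzc s hs)
      exact ⟨hKP s hs x hx1, (centralizer ({z} : Set G)).mul_mem ((centralizer ({z} : Set G)).mul_mem hsC hx2)
        ((centralizer ({z} : Set G)).inv_mem hsC)⟩
    exact h1 ⟨hc.1, (mem_c c z).2 hcz⟩
  rw [hkcl]
  exact (WW p Bg).mul_mem (subset_closure ⟨z, hzBg, hz1, hc3⟩) (subset_closure ⟨b, hb, hb1, hl3⟩)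

end Cfsg.Agent.H98.PPI
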